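import Cfsg.Agent.Lib.Tw3D4Max.Form

/-!
# The action on the conjugates of the long root subgroup in `³D₄(q)`
-/

set_option autoImplicit false
set_option maxRecDepth 1000000
set_option linter.unusedSectionVars false
set_option linter.unusedVariables false
set_option linter.unusedSimpArgs false

namespace Cfsg.Agent.Lib.Tw3D4Max

open Cfsg.Lie Cfsg.Agent.Lib.ChevBN.Elem Cfsg.Agent.Lib.ChevBN.Table Cfsg.Agent.Lib.ChevBN.Rel
open Cfsg.Agent.Lib.ChevBN.FastData Cfsg.Agent.Lib.ChevBN.Collect Cfsg.Agent.Lib.ChevBN.Opp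
open Cfsg.Agent.Lib.Twisted Cfsg.Agent.Lib.Twisted.D4
open Cfsg.Agent.Lib.Chevalley.Tbl.D4 (sys)
open Cfsg.Agent.Lib.Tw3D4 (pos_all)
open Cfsg.Agent.Lib.Chevalley.Reflect
open Cfsg.Agent.Lib.ChevBN.Monomial Cfsg.Agent.Lib.ChevBN.Pair Cfsg.Agent.Lib.ChevBN.Torus
open Cfsg.Agent.Lib.ChevBN.Core Cfsg.Agent.Lib.ChevBN.Stmts
open Cfsg.Agent.Lib.ChevOrder.Chev Cfsg.Agent.Lib.BNPair.Basic Cfsg.Agent.Lib.BNPair.Parabolic
open Cfsg.Agent.Lib.ChevBN.BruhatForm Cfsg.Agent.Lib.ChevBN.Fix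

variable {K : Type*} [Field K]

set_option quotPrecheck false in
/-- The root elements. -/
local notation "Xr" => X (sys (F := _)).toAddRel

section Law

variable (φ : K →+* K)

/-- The elements of the short fundamental orbit. -/
noncomputable abbrev xh (a : K) : GL chevD4.Idx K := pr φ a 0 0 0 0 0

/-- The trace form. -/
noncomputable def tr2 (d c : K) : K := d * c + φ d * φ c + φ (φ d) * φ (φ c)

/-- The norm. -/
noncomputable def nrm (μ : K) : K := μ * φ μ * φ (φ μ)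

/-- The conjugates of the long root element at 14. -/
noncomputable def zz (μ s : K) : GL chevD4.Idx K :=
  pr φ 0 s (-(μ * s)) (φ μ * φ (φ μ) * s) (-(nrm φ μ * s)) (-(nrm φ μ * s * s))

theorem pr_zero : pr φ 0 0 0 0 0 0 = 1 := by
  simp [pr, X_zero]

theorem X14_eq (b : K) : Xr 14 b = pr φ 0 b 0 0 0 0 := by
  simp [pr, X_zero]

theorem X22_eq (e : K) : Xr 22 e = pr φ 0 0 0 0 e 0 := by
  simp [pr, X_zero]

theorem X23_eq (f : K) : Xr 23 f = pr φ 0 0 0 0 0 f := by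
  simp [pr, X_zero]

variable {φ} (hφ3 : ∀ t, φ (φ (φ t)) = t)

include hφ3

theorem xh_mul (a a' : K) : xh φ a * xh φ a' = xh φ (a + a') := by
  rw [pr_mul φ hφ3 (map_zero φ)]
  apply pr_congr rfl (add_zero _) <;> simp [lawD, lawE, lawF]

theorem xh_inv (a : K) : (xh φ a)⁻¹ = xh φ (-a) := by
  rw [inv_eq_iff_mul_eq_one, xh_mul hφ3, add_neg_cancel]
  exact pr_zero φ

theorem pr_split (a b c d e f : K) : pr φ a b c d e f = xh φ a * pr φ 0 b c d e f := by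
  rw [pr_mul φ hφ3 (map_zero φ)]
  apply pr_congr (add_zero _).symm (zero_add _).symm <;> simp [lawD, lawE, lawF]

theorem pr0_mul {b : K} (hb : φ b = b) (c d e f b' c' d' e' f' : K) :
    pr φ 0 b c d e f * pr φ 0 b' c' d' e' f' =
      pr φ 0 (b + b') (c + c') (d + d') (e + e') (f + f' + tr2 φ d c' - e * b') := by
  rw [pr_mul φ hφ3 hb]
  apply pr_congr (add_zero _) rfl <;> simp [lawD, lawE, lawF, tr2] <;> ring

theorem pr_X23 {b : K} (hb : φ b = b) (a c d e f t : K) :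
    pr φ a b c d e f * Xr 23 t = pr φ a b c d e (f + t) := by
  rw [X23_eq φ, pr_mul φ hφ3 hb]
  apply pr_congr (add_zero _) (add_zero _) <;> simp [lawD, lawE, lawF]

theorem X23_pr (a b c d e f t : K) : Xr 23 t * pr φ a b c d e f = pr φ a b c d e (t + f) := by
  rw [X23_eq φ, pr_mul φ hφ3 (map_zero φ)]
  apply pr_congr (zero_add _) (zero_add _) <;> simp [lawD, lawE, lawF]

theorem X23_comm {b : K} (hb : φ b = b) (a c d e f t : K) :
    pr φ a b c d e f * Xr 23 t = Xr 23 t * pr φ a b c d e f := by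
  rw [pr_X23 hφ3 hb, X23_pr hφ3, add_comm]

/-- The conjugation in the special group. -/
theorem w_conj {b b' : K} (hb : φ b = b) (hb' : φ b' = b') (c d e f c' d' e' f' : K) :
    pr φ 0 b c d e f * pr φ 0 b' c' d' e' f' * (pr φ 0 b c d e f)⁻¹ =
      pr φ 0 b' c' d' e' f' * Xr 23 (tr2 φ d c' - e * b' - tr2 φ d' c + e' * b) := by
  rw [mul_inv_eq_iff_eq_mul, pr0_mul hφ3 hb, pr_X23 hφ3 hb', pr0_mul hφ3 hb']
  apply pr_congr rfl (add_comm _ _) (add_comm _ _) (add_comm _ _) (add_comm _ _)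
  ring

theorem nrm_fix (μ : K) : φ (nrm φ μ) = nrm φ μ := by
  simp only [nrm, map_mul, hφ3]
  ring

/-- `zz` as a conjugate. -/
theorem zz_eq {s : K} (hs : φ s = s) (μ : K) : xh φ μ * Xr 14 s * (xh φ μ)⁻¹ = zz φ μ s := by
  rw [xh_inv hφ3, X14_eq φ, pr_mul φ hφ3 (map_zero φ), pr_mul φ hφ3 (by simpa using hs)]
  unfold zz
  apply pr_congr <;> simp [lawD, lawE, lawF, nrm] <;> ring

theorem zz_fix {s : K} (hs : φ s = s) (μ : K) : φ (φ μ * φ (φ μ) * s) = φ (φ μ * φ (φ μ) * s) := rfl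

/-- The conjugation by `x̂`. -/
theorem xh_zz {s : K} (hs : φ s = s) (β μ δ : K) :
    xh φ β * (zz φ μ s * Xr 23 δ) * (xh φ β)⁻¹ = zz φ (β + μ) s * Xr 23 δ := by
  rw [← zz_eq hφ3 hs, ← zz_eq hφ3 hs, ← xh_mul hφ3]
  have hc : xh φ β * Xr 23 δ = Xr 23 δ * xh φ β := X23_comm hφ3 (map_zero φ) _ _ _ _ _ _
  have e : xh φ β * (xh φ μ * Xr 14 s * (xh φ μ)⁻¹ * Xr 23 δ) * (xh φ β)⁻¹ =
      xh φ β * xh φ μ * Xr 14 s * (xh φ μ)⁻¹ * ((xh φ β)⁻¹ * (xh φ β * Xr 23 δ) * (xh φ β)⁻¹) := by group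
  rw [e, hc]
  group

/-- Uniqueness for `zz`. -/
theorem zz_inj {μ μ' s s' δ δ' : K} (hs : s ≠ 0) (hf : φ s = s) (hf' : φ s' = s')
    (h : zz φ μ s * Xr 23 δ = zz φ μ' s' * Xr 23 δ') : μ = μ' ∧ s = s' ∧ δ = δ' := by
  unfold zz at h
  rw [pr_X23 hφ3 hf, pr_X23 hφ3 hf'] at h
  obtain ⟨-, h2, h3, -, h5, h6⟩ := pr_inj φ h
  subst h2
  have h7 : μ = μ' := by
    have := mul_right_cancel₀ hs (neg_injective h3)
    exact this
  subst h7
  exact ⟨rfl, rfl, by simpa using h6⟩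

/-- The conjugation by the short Weyl element. -/
theorem Na_zz {μ : K} (hμ : μ ≠ 0) (δ : K) :
    ∃ δ', Na * (zz φ μ 1 * Xr 23 δ) * Na⁻¹ = zz φ (-μ⁻¹) (-(nrm φ μ * 1)) * Xr 23 δ' := by
  have hφμ : φ μ ≠ 0 := (map_ne_zero φ).2 hμ
  have hφφμ : φ (φ μ) ≠ 0 := (map_ne_zero φ).2 hφμ
  have hn : nrm φ μ ≠ 0 := mul_ne_zero (mul_ne_zero hμ hφμ) hφφμ
  have hfix' : φ (-(nrm φ μ * 1)) = -(nrm φ μ * 1) := by rw [mul_one, map_neg, nrm_fix hφ3]
  have key : ∀ (F b c d e c' d' e' G : K), φ b = b → c = c' → d = d' → e = e' →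
      ∃ δ', pr φ 0 b c d e F = pr φ 0 b c' d' e' G * Xr 23 δ' := by
    intro F b c d e c' d' e' G hb h1 h2 h3
    refine ⟨F - G, ?_⟩
    rw [pr_X23 hφ3 hb, h1, h2, h3]
    congr 1
    ring
  unfold zz
  rw [pr_X23 hφ3 (map_one φ), conj_a φ hφ3]
  refine key _ _ _ _ _ _ _ _ _ hfix' ?_ ?_ ?_
  · simp only [nrm, mul_one]
    field_simp
  · simp only [nrm, map_neg, map_inv₀, neg_neg, hφ3, mul_one]
    field_simp
  · simp only [nrm, map_neg, map_inv₀, neg_neg, hφ3, mul_one]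
    field_simp

end Law

theorem no_quad {φ : K →+* K} (hφ3 : ∀ t, φ (φ (φ t)) = t) {μ A C : K} (hμ : φ μ ≠ μ) (hA : φ A = A) (hC : φ C = C)
    (h : μ * μ + A * μ + C = 0) : False := by
  have e1 : φ μ * φ μ + A * φ μ + C = 0 := by
    have := congrArg φ h
    simpa [hA, hC] using this
  have e2 : φ (φ μ) * φ (φ μ) + A * φ (φ μ) + C = 0 := by
    have := congrArg φ e1
    simpa [hA, hC] using this
  have h1 : φ μ - μ ≠ 0 := sub_ne_zero.2 hμ
  have h2 : μ + φ μ + A = 0 := by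
    have : (φ μ - μ) * (μ + φ μ + A) = 0 := by linear_combination e1 - h
    exact (mul_eq_zero.1 this).resolve_left h1
  have h3 : φ μ + φ (φ μ) + A = 0 := by
    have := congrArg φ h2
    simpa [hA] using this
  have h4 : μ = φ (φ μ) := by linear_combination h2 - h3
  apply hμ
  have := congrArg φ h4
  rw [hφ3] at this
  exact this

end Cfsg.Agent.Lib.Tw3D4Max
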