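import Cfsg.Agent.Lib.Tw3D4Max.Law
import Cfsg.Agent.Lib.Twisted.D4Order
import Cfsg.Agent.Lib.ChevBN.GraphFix
import Cfsg.Agent.Lib.ChevBN.Fix

/-!
# Uniqueness of the normal form and fixed elements in `³D₄(q)`, all characteristics
-/

set_option autoImplicit false
set_option maxRecDepth 1000000
set_option linter.unusedSectionVars false
set_option linter.unusedVariables false
set_option linter.unusedSimpArgs false

namespace Cfsg.Agent.Lib.Tw3D4Max

open Cfsg.Lie Cfsg.Agent.Lib.ChevBN.Elem Cfsg.Agent.Lib.ChevBN.Table Cfsg.Agent.Lib.ChevBN.Rel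
open Cfsg.Agent.Lib.ChevBN.FastData Cfsg.Agent.Lib.ChevBN.Collect Cfsg.Agent.Lib.ChevBN.Opp
open Cfsg.Agent.Lib.Twisted Cfsg.Agent.Lib.Twisted.D4
open Cfsg.Agent.Lib.Chevalley.Tbl.D4 (sys)
open Cfsg.Agent.Lib.Tw3D4 (pos_all)

variable {K : Type*} [Field K]

set_option quotPrecheck false in
/-- The root elements. -/
local notation "Xr" => X (sys (F := _)).toAddRel

/-- A condition on the chains, for the uniqueness of coordinates. -/
def ChainOK (r : ℕ) (L : List ℕ) : Prop :=
  ∀ s ∈ L, chevD4.IsPosRoot s ∧ r ≠ s ∧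
    ∀ e ∈ (chevD4.chain.getD s #[]).toList, e.1 = chevD4.neg r → ∀ q ∈ e.2.toList, chevD4.IsPosRoot q.1

instance (r : ℕ) (L : List ℕ) : Decidable (ChainOK r L) := by
  unfold ChainOK
  infer_instance

theorem ustep {L : List ℕ} {r : ℕ} (hr : chevD4.IsPosRoot r) (hL : ChainOK r L) {s t : K}
    {R R' : GL chevD4.Idx K} (hRm : R ∈ gen (sys (F := K)).toAddRel {x | x ∈ L})
    (hR'm : R' ∈ gen (sys (F := K)).toAddRel {x | x ∈ L}) (h : Xr r s * R = Xr r t * R') : s = t ∧ R = R' := by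
  have h1 : Xr r (-t + s) = R' * R⁻¹ := by
    rw [← X_mul, ← X_inv, eq_mul_inv_iff_mul_eq, mul_assoc, h, inv_mul_cancel_left]
  have h3 : -t + s = 0 := by
    refine Cfsg.Agent.Lib.ChevBN.GraphFix.eq_zero_of_X_mem' (hA := (sys (F := K)).toAddRel) tbl_chevD4 hr (Ψ := {x | x ∈ L}) hL ?_
    rw [h1]
    exact Subgroup.mul_mem _ hR'm (Subgroup.inv_mem _ hRm)
  have h4 : s = t := by
    have : s = t + (-t + s) := by ring
    rw [this, h3, add_zero]
  subst h4
  exact ⟨rfl, mul_left_cancel h⟩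

/-- The normal form is unique. -/
theorem pr_inj (φ : K →+* K) {a b c d e f a' b' c' d' e' f' : K}
    (h : pr φ a b c d e f = pr φ a' b' c' d' e' f') :
    a = a' ∧ b = b' ∧ c = c' ∧ d = d' ∧ e = e' ∧ f = f' := by
  unfold pr at h
  obtain ⟨h1, h⟩ := ustep (L := [13, 12, 14, 19, 16, 15, 17, 20, 21, 22, 23])
    (pos_all _ (by simp)) (by decide +kernel)
    (by (repeat' apply Subgroup.mul_mem) <;> first | exact Subgroup.one_mem _ | exact X_mem_gen _ (by simp) _)
    (by (repeat' apply Subgroup.mul_mem) <;> first | exact Subgroup.one_mem _ | exact X_mem_gen _ (by simp) _) h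
  obtain ⟨-, h⟩ := ustep (L := [12, 14, 19, 16, 15, 17, 20, 21, 22, 23])
    (pos_all _ (by simp)) (by decide +kernel)
    (by (repeat' apply Subgroup.mul_mem) <;> first | exact Subgroup.one_mem _ | exact X_mem_gen _ (by simp) _)
    (by (repeat' apply Subgroup.mul_mem) <;> first | exact Subgroup.one_mem _ | exact X_mem_gen _ (by simp) _) h
  obtain ⟨-, h⟩ := ustep (L := [14, 19, 16, 15, 17, 20, 21, 22, 23])
    (pos_all _ (by simp)) (by decide +kernel)
    (by (repeat' apply Subgroup.mul_mem) <;> first | exact Subgroup.one_mem _ | exact X_mem_gen _ (by simp) _)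
    (by (repeat' apply Subgroup.mul_mem) <;> first | exact Subgroup.one_mem _ | exact X_mem_gen _ (by simp) _) h
  obtain ⟨h2, h⟩ := ustep (L := [19, 16, 15, 17, 20, 21, 22, 23])
    (pos_all _ (by simp)) (by decide +kernel)
    (by (repeat' apply Subgroup.mul_mem) <;> first | exact Subgroup.one_mem _ | exact X_mem_gen _ (by simp) _)
    (by (repeat' apply Subgroup.mul_mem) <;> first | exact Subgroup.one_mem _ | exact X_mem_gen _ (by simp) _) h
  obtain ⟨h3, h⟩ := ustep (L := [16, 15, 17, 20, 21, 22, 23])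
    (pos_all _ (by simp)) (by decide +kernel)
    (by (repeat' apply Subgroup.mul_mem) <;> first | exact Subgroup.one_mem _ | exact X_mem_gen _ (by simp) _)
    (by (repeat' apply Subgroup.mul_mem) <;> first | exact Subgroup.one_mem _ | exact X_mem_gen _ (by simp) _) h
  obtain ⟨-, h⟩ := ustep (L := [15, 17, 20, 21, 22, 23])
    (pos_all _ (by simp)) (by decide +kernel)
    (by (repeat' apply Subgroup.mul_mem) <;> first | exact Subgroup.one_mem _ | exact X_mem_gen _ (by simp) _)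
    (by (repeat' apply Subgroup.mul_mem) <;> first | exact Subgroup.one_mem _ | exact X_mem_gen _ (by simp) _) h
  obtain ⟨-, h⟩ := ustep (L := [17, 20, 21, 22, 23])
    (pos_all _ (by simp)) (by decide +kernel)
    (by (repeat' apply Subgroup.mul_mem) <;> first | exact Subgroup.one_mem _ | exact X_mem_gen _ (by simp) _)
    (by (repeat' apply Subgroup.mul_mem) <;> first | exact Subgroup.one_mem _ | exact X_mem_gen _ (by simp) _) h
  obtain ⟨h4, h⟩ := ustep (L := [20, 21, 22, 23])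
    (pos_all _ (by simp)) (by decide +kernel)
    (by (repeat' apply Subgroup.mul_mem) <;> first | exact Subgroup.one_mem _ | exact X_mem_gen _ (by simp) _)
    (by (repeat' apply Subgroup.mul_mem) <;> first | exact Subgroup.one_mem _ | exact X_mem_gen _ (by simp) _) h
  obtain ⟨-, h⟩ := ustep (L := [21, 22, 23])
    (pos_all _ (by simp)) (by decide +kernel)
    (by (repeat' apply Subgroup.mul_mem) <;> first | exact Subgroup.one_mem _ | exact X_mem_gen _ (by simp) _)
    (by (repeat' apply Subgroup.mul_mem) <;> first | exact Subgroup.one_mem _ | exact X_mem_gen _ (by simp) _) h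
  obtain ⟨-, h⟩ := ustep (L := [22, 23])
    (pos_all _ (by simp)) (by decide +kernel)
    (by (repeat' apply Subgroup.mul_mem) <;> first | exact Subgroup.one_mem _ | exact X_mem_gen _ (by simp) _)
    (by (repeat' apply Subgroup.mul_mem) <;> first | exact Subgroup.one_mem _ | exact X_mem_gen _ (by simp) _) h
  obtain ⟨h5, h⟩ := ustep (L := [23])
    (pos_all _ (by simp)) (by decide +kernel)
    (by (repeat' apply Subgroup.mul_mem) <;> first | exact Subgroup.one_mem _ | exact X_mem_gen _ (by simp) _)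
    (by (repeat' apply Subgroup.mul_mem) <;> first | exact Subgroup.one_mem _ | exact X_mem_gen _ (by simp) _) h
  obtain ⟨h6, -⟩ := ustep (L := ([] : List ℕ))
    (pos_all _ (by simp)) (by decide +kernel)
    (Subgroup.one_mem _) (Subgroup.one_mem _) h
  exact ⟨h1, h2, h3, h4, h5, h6⟩

theorem pr_U (φ : K →+* K) (a b c d e f : K) : pr φ a b c d e f ∈ chevD4.posUnipotent K := by
  rw [posUnipotent_eq (sys (F := K)).toAddRel]
  unfold pr
  (repeat' apply Subgroup.mul_mem) <;> first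
    | exact Subgroup.one_mem _
    | exact X_mem_gen _ (pos_all _ (by simp)) _

/-! ### Fixed elements -/

section
variable {φ : K →+* K} {T : Tw (sys (F := K)).toAddRel} (hρ : T.ρ = ρ0)
  (hτ : ∀ r t, T.τ r t = ((ε0 r : ℤ) : K) * φ t) (hφ3 : ∀ t, φ (φ (φ t)) = t)

theorem mem_group_X {r : ℕ} (hr : r ∈ [12, 13, 14, 15, 16, 17, 18, 19, 20, 21, 22, 23]) (t : K) :
    Xr r t ∈ chevD4.group K := Tw.X_mem_group (pos_all r hr).1 t

include hρ hτ in
theorem s_pos {r r' : ℕ} (hr : r ∈ [12, 13, 14, 15, 16, 17, 18, 19, 20, 21, 22, 23])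
    (h1 : ρ0 r = r') (h2 : ε0 r = 1) (t : K) : T.s (Xr r t) = Xr r' (φ t) := by
  rw [T.s_X r (pos_all r hr).1, hρ, hτ, h1, h2]
  simp

include hρ hτ in
theorem s_neg {r r' : ℕ} (hr : r ∈ [12, 13, 14, 15, 16, 17, 18, 19, 20, 21, 22, 23])
    (h1 : ρ0 r = r') (h2 : ε0 r = -1) (t : K) : T.s (Xr r t) = Xr r' (-(φ t)) := by
  rw [T.s_X r (pos_all r hr).1, hρ, hτ, h1, h2]
  simp

theorem orb_fix {T : Tw (sys (F := K)).toAddRel} {r1 r2 r3 : ℕ} {u1 u2 u3 : K}
    (h1 : r1 ∈ [12, 13, 14, 15, 16, 17, 18, 19, 20, 21, 22, 23])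
    (h2 : r2 ∈ [12, 13, 14, 15, 16, 17, 18, 19, 20, 21, 22, 23])
    (h3 : r3 ∈ [12, 13, 14, 15, 16, 17, 18, 19, 20, 21, 22, 23])
    (e1 : T.s (Xr r1 u1) = Xr r2 u2) (e2 : T.s (Xr r2 u2) = Xr r3 u3) (e3 : T.s (Xr r3 u3) = Xr r1 u1)
    (c1 : Commute (Xr r2 u2) (Xr r1 u1)) (c2 : Commute (Xr r3 u3) (Xr r1 u1)) :
    Xr r1 u1 * (Xr r2 u2 * (Xr r3 u3 * 1)) ∈ T.Fx := by
  have hm : Xr r1 u1 * (Xr r2 u2 * (Xr r3 u3 * 1)) ∈ chevD4.group K :=
    Subgroup.mul_mem _ (mem_group_X h1 _) (Subgroup.mul_mem _ (mem_group_X h2 _)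
      (Subgroup.mul_mem _ (mem_group_X h3 _) (Subgroup.one_mem _)))
  refine ⟨hm, ?_⟩
  rw [mul_one, T.s_mul _ (mem_group_X h1 _) _ (Subgroup.mul_mem _ (mem_group_X h2 _) (mem_group_X h3 _)),
    T.s_mul _ (mem_group_X h2 _) _ (mem_group_X h3 _), e1, e2, e3]
  calc Xr r2 u2 * (Xr r3 u3 * Xr r1 u1) = Xr r2 u2 * (Xr r1 u1 * Xr r3 u3) := by rw [c2.eq]
    _ = (Xr r2 u2 * Xr r1 u1) * Xr r3 u3 := by group
    _ = (Xr r1 u1 * Xr r2 u2) * Xr r3 u3 := by rw [c1.eq]
    _ = _ := by group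

include hρ hτ in
theorem X_fix {r : ℕ} (hr : r ∈ [12, 13, 14, 15, 16, 17, 18, 19, 20, 21, 22, 23]) (he : ρ0 r = r)
    (he2 : ε0 r = 1) {t : K} (ht : φ t = t) : Xr r t ∈ T.Fx := by
  refine ⟨mem_group_X hr t, ?_⟩
  rw [s_pos hρ hτ hr he he2, ht]

include hρ hτ hφ3 in
/-- The normal form is fixed. -/
theorem pr_fix (a c d : K) {b e f : K} (hb : φ b = b) (he : φ e = e) (hf : φ f = f) :
    pr φ a b c d e f ∈ T.Fx := by
  have s18 := fun t : K => s_pos hρ hτ (r := 18) (r' := 13) (by simp) (by decide +kernel) (by decide +kernel) t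
  have s13 := fun t : K => s_pos hρ hτ (r := 13) (r' := 12) (by simp) (by decide +kernel) (by decide +kernel) t
  have s12 := fun t : K => s_pos hρ hτ (r := 12) (r' := 18) (by simp) (by decide +kernel) (by decide +kernel) t
  have s19 := fun t : K => s_neg hρ hτ (r := 19) (r' := 16) (by simp) (by decide +kernel) (by decide +kernel) t
  have s16 := fun t : K => s_pos hρ hτ (r := 16) (r' := 15) (by simp) (by decide +kernel) (by decide +kernel) t
  have s15 := fun t : K => s_neg hρ hτ (r := 15) (r' := 19) (by simp) (by decide +kernel) (by decide +kernel) t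
  have s17 := fun t : K => s_neg hρ hτ (r := 17) (r' := 20) (by simp) (by decide +kernel) (by decide +kernel) t
  have s20 := fun t : K => s_pos hρ hτ (r := 20) (r' := 21) (by simp) (by decide +kernel) (by decide +kernel) t
  have s21 := fun t : K => s_neg hρ hτ (r := 21) (r' := 17) (by simp) (by decide +kernel) (by decide +kernel) t
  have h1 := orb_fix (T := T) (r1 := 18) (r2 := 13) (r3 := 12) (u1 := a) (u2 := φ a) (u3 := φ (φ a)) (by simp) (by simp) (by simp)
    (s18 _) (s13 _) (by rw [s12, hφ3])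
    (comm_p (K := K) (a := 13) (b := 18) (by decide +kernel) (by decide +kernel) (by decide +kernel)
      (by decide +kernel) (by decide +kernel) _ _)
    (comm_p (K := K) (a := 12) (b := 18) (by decide +kernel) (by decide +kernel) (by decide +kernel)
      (by decide +kernel) (by decide +kernel) _ _)
  have h2 := orb_fix (T := T) (r1 := 19) (r2 := 16) (r3 := 15) (u1 := c) (u2 := -(φ c)) (u3 := -(φ (φ c))) (by simp) (by simp) (by simp)
    (s19 _) (by rw [s16, map_neg]) (by rw [s15, map_neg, hφ3, neg_neg])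
    (comm_p (K := K) (a := 16) (b := 19) (by decide +kernel) (by decide +kernel) (by decide +kernel)
      (by decide +kernel) (by decide +kernel) _ _)
    (comm_p (K := K) (a := 15) (b := 19) (by decide +kernel) (by decide +kernel) (by decide +kernel)
      (by decide +kernel) (by decide +kernel) _ _)
  have h3 := orb_fix (T := T) (r1 := 17) (r2 := 20) (r3 := 21) (u1 := d) (u2 := -(φ d)) (u3 := -(φ (φ d))) (by simp) (by simp) (by simp)
    (s17 _) (by rw [s20, map_neg]) (by rw [s21, map_neg, hφ3, neg_neg])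
    (comm_p (K := K) (a := 20) (b := 17) (by decide +kernel) (by decide +kernel) (by decide +kernel)
      (by decide +kernel) (by decide +kernel) _ _)
    (comm_p (K := K) (a := 21) (b := 17) (by decide +kernel) (by decide +kernel) (by decide +kernel)
      (by decide +kernel) (by decide +kernel) _ _)
  have h4 := X_fix hρ hτ (r := 14) (by simp) (by decide +kernel) (by decide +kernel) hb
  have h5 := X_fix hρ hτ (r := 22) (by simp) (by decide +kernel) (by decide +kernel) he
  have h6 := X_fix hρ hτ (r := 23) (by simp) (by decide +kernel) (by decide +kernel) hf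
  have e : pr φ a b c d e f = (Xr 18 a * (Xr 13 (φ a) * (Xr 12 (φ (φ a)) * 1))) * (Xr 14 b *
      ((Xr 19 c * (Xr 16 (-(φ c)) * (Xr 15 (-(φ (φ c))) * 1))) * ((Xr 17 d * (Xr 20 (-(φ d)) * (Xr 21 (-(φ (φ d))) * 1))) *
      (Xr 22 e * (Xr 23 f * 1))))) := by
    simp only [pr, mul_one, mul_assoc]
  rw [e]
  refine Subgroup.mul_mem _ h1 (Subgroup.mul_mem _ h4 (Subgroup.mul_mem _ h2 (Subgroup.mul_mem _ h3
    (Subgroup.mul_mem _ h5 (Subgroup.mul_mem _ h6 (Subgroup.one_mem _))))))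

end

section Main

variable [Fintype K] {q : ℕ} {φ : K →+* K} {T : Tw (sys (F := K)).toAddRel}
  (hφ : ∀ t, φ t = t ^ q) (hφ3 : ∀ t, φ (φ (φ t)) = t) (hρ : T.ρ = ρ0)
  (hτ : ∀ r t, T.τ r t = ((ε0 r : ℤ) : K) * φ t)
  (I : Inst sys tbl_chevD4 T Js cl (twistedD4 K q))

include hφ3 hρ hτ I in
theorem pr_mem (a c d : K) {b e f : K} (hb : φ b = b) (he : φ e = e) (hf : φ f = f) :
    pr φ a b c d e f ∈ twistedD4 K q :=
  I.U_le ⟨pr_U φ _ _ _ _ _ _, pr_fix hρ hτ hφ3 a c d hb he hf⟩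

include hφ hφ3 hρ hτ I in
/-- The elements of `U¹` have the normal form. -/
theorem exists_pr (hq : IsPrimePow q) (hK : Fintype.card K = q ^ 3) {x : GL chevD4.Idx K}
    (hx : x ∈ chevD4.posUnipotent K ⊓ twistedD4 K q) :
    ∃ a b c d e f, φ b = b ∧ φ e = e ∧ φ f = f ∧ x = pr φ a b c d e f := by
  classical
  have hfix : ∀ y : {y : K // y ^ q = y}, φ y.1 = y.1 := fun y => by rw [hφ, y.2]
  let g : K × {y : K // y ^ q = y} × K × K × {y : K // y ^ q = y} × {y : K // y ^ q = y} →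
      ↥(chevD4.posUnipotent K ⊓ twistedD4 K q) := fun p =>
    ⟨pr φ p.1 p.2.1.1 p.2.2.1 p.2.2.2.1 p.2.2.2.2.1.1 p.2.2.2.2.2.1,
      pr_U φ _ _ _ _ _ _, pr_mem hφ3 hρ hτ I _ _ _ (hfix _) (hfix _) (hfix _)⟩
  have hinj : Function.Injective g := by
    rintro ⟨a, b, c, d, e, f⟩ ⟨a', b', c', d', e', f'⟩ h
    have h1 := pr_inj φ (congrArg Subtype.val h)
    obtain ⟨h1, h2, h3, h4, h5, h6⟩ := h1
    simp only [Prod.mk.injEq]
    exact ⟨h1, Subtype.ext h2, h3, h4, Subtype.ext h5, Subtype.ext h6⟩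
  have hcard : Nat.card ↥(chevD4.posUnipotent K ⊓ twistedD4 K q) ≤
      Nat.card (K × {y : K // y ^ q = y} × K × K × {y : K // y ^ q = y} × {y : K // y ^ q = y}) := by
    rw [card_U hq hK]
    simp only [Nat.card_prod, Nat.card_eq_fintype_card (α := K), hK, card_fixed_pow hq.two_le hK]
    apply le_of_eq
    ring
  have hb := hinj.bijective_of_nat_card_le hcard
  obtain ⟨⟨a, b, c, d, e, f⟩, hp⟩ := hb.2 ⟨x, hx⟩
  exact ⟨a, b.1, c, d, e.1, f.1, hfix b, hfix e, hfix f, (congrArg Subtype.val hp).symm⟩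

end Main

section Frob

open Cfsg.Agent.Lib.ChevBN.Fix

/-- The entrywise action on the normal form. -/
theorem map_pr (φ σ : K →+* K) (hc : ∀ t, σ (φ t) = φ (σ t)) (a b c d e f : K) :
    mapG chevD4 σ (pr φ a b c d e f) = pr φ (σ a) (σ b) (σ c) (σ d) (σ e) (σ f) := by
  simp only [pr, map_mul, map_one, mapG_X σ (sys (F := K)).toAddRel (sys (F := K)).toAddRel, map_neg, hc]

end Frob

end Cfsg.Agent.Lib.Tw3D4Max
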