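import Cfsg.Agent.Lib.Tw3D4Max.Stab
import Cfsg.Agent.Lib.ChevBN.ParabCent

/-!
# The centraliser in `³D₄(q)` of the long root elements of the small group is trivial
-/

set_option autoImplicit false
set_option maxRecDepth 1000000
set_option linter.unusedSectionVars false
set_option linter.unusedVariables false
set_option linter.unusedSimpArgs false

namespace Cfsg.Agent.Lib.Tw3D4Max

open Cfsg.Lie Cfsg.Agent.Lib.ChevBN.Elem Cfsg.Agent.Lib.ChevBN.Table Cfsg.Agent.Lib.ChevBN.Rel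
open Cfsg.Agent.Lib.ChevBN.FastData Cfsg.Agent.Lib.ChevBN.Collect Cfsg.Agent.Lib.ChevBN.Opp
open Cfsg.Agent.Lib.Twisted Cfsg.Agent.Lib.Twisted.D4
open Cfsg.Agent.Lib.Chevalley.Tbl.D4 (sys)
open Cfsg.Agent.Lib.Tw3D4 (pos_all)
open Cfsg.Agent.Lib.Chevalley.Reflect
open Cfsg.Agent.Lib.ChevBN.Monomial Cfsg.Agent.Lib.ChevBN.Pair Cfsg.Agent.Lib.ChevBN.Torus
open Cfsg.Agent.Lib.ChevBN.Core Cfsg.Agent.Lib.ChevBN.Stmts
open Cfsg.Agent.Lib.ChevOrder.Chev Cfsg.Agent.Lib.BNPair.Basic Cfsg.Agent.Lib.BNPair.Parabolic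
open Cfsg.Agent.Lib.ChevBN.BruhatForm Cfsg.Agent.Lib.ChevBN.Fix

variable {K : Type*} [Field K]

set_option quotPrecheck false in
/-- The root elements. -/
local notation "Xr" => X (sys (F := _)).toAddRel

/-- An element of `H` centralising the fundamental root elements is trivial. -/
theorem H_eq_one {h : GL chevD4.Idx K} (hh : h ∈ chevD4.diagonalSubgroup K)
    (hs : ∀ i < chevD4.rank, h * Xr (chevD4.simple i) 1 * h⁻¹ = Xr (chevD4.simple i) 1) : h = 1 := by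
  rw [diagonal_eq sys tbl_chevD4] at hh
  obtain ⟨c, hc, rfl⟩ := hh
  have key2 : ∀ j < chevD4.rank, chi chevD4 c (chevD4.simple j) = 1 := by
    intro j hj
    have h1 := hs j hj
    rw [hP_conj sys hc (tbl_chevD4.simple_lt hj)] at h1
    have h2 := X_inj sys tbl_chevD4 (tbl_chevD4.simple_pos j hj) h1
    simpa using h2
  apply Units.ext
  rw [coe_hP sys hc, Units.val_one, ← dgMat_one]
  congr 1
  funext s
  exact Cfsg.Agent.Lib.ChevBN.ParabCent.chi_all c hc tbl_chevD4 key2 s.isLt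

/-- A word for the longest element. -/
def lstar : List ℕ := [0, 2, 3, 1, 0, 2, 3, 1, 0, 2, 3, 1]

theorem lstar_lt : ∀ i ∈ lstar, i < chevD4.rank := by decide +kernel

theorem lstar_neg : ∀ r < chevD4.nroots, chevD4.IsPosRoot r → chevD4.IsNegRoot (lstar.foldr chevD4.reflectRoot r) := by
  decide +kernel

/-- The longest element. -/
noncomputable abbrev Ns : GL chevD4.Idx K := prodA sys lstar

theorem Ns_N : (Ns : GL chevD4.Idx K) ∈ chevD4.monomialSubgroup K := prodA_mem_N sys tbl_chevD4 lstar_lt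

theorem Ns_fix (σ : K →+* K) : mapG chevD4 σ (Ns : GL chevD4.Idx K) = Ns := by
  apply fix_of_mem_fixL sys σ
  apply Subgroup.list_prod_mem
  intro x hx
  obtain ⟨i, hi, rfl⟩ := List.mem_map.mp hx
  exact A_mem_fixL sys tbl_chevD4 σ (lstar_lt i hi)

theorem Ns_U {u : GL chevD4.Idx K} (hu : u ∈ chevD4.posUnipotent K) : Ns * u * Ns⁻¹ ∈ chevD4.negUnipotent K := by
  rw [posUnipotent_eq (sys (F := K)).toAddRel] at hu
  refine gen_induction (sys (F := K)).toAddRel (P := fun u => Ns * u * Ns⁻¹ ∈ chevD4.negUnipotent K) (by simp) ?_ ?_ hu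
  · intro r hr t
    rw [cP lstar lstar_lt hr.1, negUnipotent_eq (sys (F := K)).toAddRel]
    exact X_mem_gen _ (lstar_neg r hr.1 hr) _
  · intro a b ha hb
    have e : Ns * (a * b) * Ns⁻¹ = (Ns * a * Ns⁻¹) * (Ns * b * Ns⁻¹) := by group
    rw [e]
    exact Subgroup.mul_mem _ ha hb

theorem Ns_eq : (Ns : GL chevD4.Idx K) = Na * Nb * (Na * Nb) * (Na * Nb) := by
  simp [lstar, prodA, mul_assoc]

section Main

variable [Fintype K] {q : ℕ} {φ : K →+* K} {T : Tw (sys (F := K)).toAddRel}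
  (hφ : ∀ t, φ t = t ^ q) (hφ3 : ∀ t, φ (φ (φ t)) = t) (hρ : T.ρ = ρ0)
  (hτ : ∀ r t, T.τ r t = ((ε0 r : ℤ) : K) * φ t)
  (I : Inst sys tbl_chevD4 T Js cl (twistedD4 K q))

include hφ hφ3 hρ hτ I

/-- An element commuting with two long root elements lies in `B`. -/
theorem c_mem_B (hq : IsPrimePow q) (hK : Fintype.card K = q ^ 3) {c : GL chevD4.Idx K} (hc : c ∈ twistedD4 K q)
    (h14 : c * Xr 14 1 = Xr 14 1 * c) (h22 : c * Xr 22 1 = Xr 22 1 * c) : c ∈ chevD4.borelSubgroup K := by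
  obtain ⟨b₀, hb₀, n, hn, v, hv, hb₀s, hvs, em⟩ := tnf hφ3 hτ I hc
  have hvU := Un_le_U sys tbl_chevD4 _ hv
  have hvG : v ∈ twistedD4 K q := I.U_le ⟨hvU, Tw.U_le_group (sys (F := K)).toAddRel hvU, hvs⟩
  obtain ⟨a, b₁, c₁, d₁, e₁, f₁, hb₁, he₁, hf₁, hvE⟩ := exists_pr hφ hφ3 hρ hτ I hq hK ⟨hvU, hvG⟩
  have hnN := W0_N I hn
  have hnG := W0_G I hn
  have hnfix : T.s n = n := (I.fix hnG).2
  have h1F : φ (1 : K) = 1 := map_one φ
  have h0F : φ (0 : K) = 0 := map_zero φ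
  have hX14G : Xr 14 (1 : K) ∈ twistedD4 K q := X14_mem hφ h1F
  -- the conjugate of `X₁₄`
  have hz1U : v * Xr 14 1 * v⁻¹ ∈ chevD4.posUnipotent K ⊓ twistedD4 K q := by
    refine ⟨?_, Subgroup.mul_mem _ (Subgroup.mul_mem _ hvG hX14G) (Subgroup.inv_mem _ hvG)⟩
    exact Subgroup.mul_mem _ (Subgroup.mul_mem _ hvU (X_mem_U sys tbl_chevD4 (pos_all _ (by simp)) _)) (Subgroup.inv_mem _ hvU)
  obtain ⟨a₂, b₂, c₂, d₂, e₂, f₂, hb₂, he₂, hf₂, hz1⟩ := exists_pr hφ hφ3 hρ hτ I hq hK hz1U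
  have e1 : pr φ a₂ b₂ c₂ d₂ e₂ f₂ * v = v * Xr 14 1 := by
    rw [← hz1]
    group
  rw [hvE, X14_eq φ, pr_mul φ hφ3 hb₂, pr_mul φ hφ3 hb₁] at e1
  obtain ⟨e11, e12, -, -, -, -⟩ := pr_inj φ e1
  have ea₂ : a₂ = 0 := by linear_combination e11
  have eb₂ : b₂ = 1 := by linear_combination e12
  subst ea₂
  subst eb₂
  have hU1 : n * pr φ 0 1 c₂ d₂ e₂ f₂ * n⁻¹ ∈ chevD4.posUnipotent K := by
    rw [← hz1]
    have e2 : n * (v * Xr 14 1 * v⁻¹) * n⁻¹ = b₀⁻¹ * (c * Xr 14 1 * c⁻¹) * b₀⁻¹⁻¹ := by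
      rw [em]
      group
    rw [e2, h14, mul_inv_cancel_right]
    exact B_conj_U (Subgroup.inv_mem _ hb₀) (X_mem_U sys tbl_chevD4 (pos_all _ (by simp)) _)
  have hp14 := pos14' hnN one_ne_zero hU1
  -- the conjugate of `X₂₂`
  have hX22G : Xr 22 (1 : K) ∈ twistedD4 K q := by
    rw [X22_eq φ]
    exact pr_mem hφ3 hρ hτ I _ _ _ h0F h1F h0F
  have hz2U : v * Xr 22 1 * v⁻¹ ∈ chevD4.posUnipotent K ⊓ twistedD4 K q := by
    refine ⟨?_, Subgroup.mul_mem _ (Subgroup.mul_mem _ hvG hX22G) (Subgroup.inv_mem _ hvG)⟩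
    exact Subgroup.mul_mem _ (Subgroup.mul_mem _ hvU (X_mem_U sys tbl_chevD4 (pos_all _ (by simp)) _)) (Subgroup.inv_mem _ hvU)
  obtain ⟨a₃, b₃, c₃, d₃, e₃, f₃, hb₃, he₃, hf₃, hz2⟩ := exists_pr hφ hφ3 hρ hτ I hq hK hz2U
  have e3 : pr φ a₃ b₃ c₃ d₃ e₃ f₃ * v = v * Xr 22 1 := by
    rw [← hz2]
    group
  rw [hvE, X22_eq φ, pr_mul φ hφ3 hb₃, pr_mul φ hφ3 hb₁] at e3
  obtain ⟨e31, e32, e33, e34, e35, -⟩ := pr_inj φ e3
  have ea₃ : a₃ = 0 := by linear_combination e31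
  have eb₃ : b₃ = 0 := by linear_combination e32
  subst ea₃
  subst eb₃
  have ec₃ : c₃ = 0 := by
    simp only [zero_mul, add_zero, mul_zero] at e33
    linear_combination e33
  subst ec₃
  have ed₃ : d₃ = 0 := by
    simp only [lawD, map_zero, zero_mul, mul_zero, add_zero, zero_add] at e34
    linear_combination e34
  subst ed₃
  have ee₃ : e₃ = 1 := by
    simp only [lawE, map_zero, zero_mul, mul_zero, add_zero, zero_add] at e35
    linear_combination e35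
  subst ee₃
  have hU2 : n * pr φ 0 0 0 0 1 f₃ * n⁻¹ ∈ chevD4.posUnipotent K := by
    rw [← hz2]
    have e2 : n * (v * Xr 22 1 * v⁻¹) * n⁻¹ = b₀⁻¹ * (c * Xr 22 1 * c⁻¹) * b₀⁻¹⁻¹ := by
      rw [em]
      group
    rw [e2, h22, mul_inv_cancel_right]
    exact B_conj_U (Subgroup.inv_mem _ hb₀) (X_mem_U sys tbl_chevD4 (pos_all _ (by simp)) _)
  have hp22 := pos22 hφ3 hnN (one_ne_zero) hU2
  rcases class_n hρ hnN hnfix I hp14 hp22 with hA | hA
  · rw [em]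
    exact Subgroup.mul_mem _ (Subgroup.mul_mem _ hb₀ (H_le_B sys tbl_chevD4 hA)) (U_le_B sys tbl_chevD4 hvU)
  · exfalso
    have hNaG : (Na : GL chevD4.Idx K) ∈ twistedD4 K q := W0_G I (Na_W0 I)
    have hkG : n * Na⁻¹ ∈ twistedD4 K q := Subgroup.mul_mem _ hnG (Subgroup.inv_mem _ hNaG)
    have hb3 : b₀ * (n * Na⁻¹) ∈ chevD4.borelSubgroup K := Subgroup.mul_mem _ hb₀ (H_le_B sys tbl_chevD4 hA)
    have hb₀G := (Cfsg.Agent.Lib.ChevBN.Stmts.B_N_G (sys (F := K)) tbl_chevD4).1 hb₀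
    have hb3s : T.s (b₀ * (n * Na⁻¹)) = b₀ * (n * Na⁻¹) := by
      rw [T.s_mul _ hb₀G _ (I.fix hkG).1, hb₀s, (I.fix hkG).2]
    -- split
    obtain ⟨u, hu, h, hh, rfl'⟩ := (mem_B_iff sys tbl_chevD4).1 hb3
    have huG := Tw.U_le_group (sys (F := K)).toAddRel hu
    have hhG := H_le_G sys tbl_chevD4 hh
    obtain ⟨h5, h6⟩ := T.fix_split (Tw.U_le_group (sys (F := K)).toAddRel) (H_le_G sys tbl_chevD4) (fun a ha => T.s_U ha)
      (fun a ha => s_H sys tbl_chevD4 T ha) (U_inf_H sys tbl_chevD4) hu hh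
      (⟨Subgroup.mul_mem _ huG hhG, by rw [← rfl']; exact hb3s⟩ : u * h ∈ T.Fx)
    have huG' : u ∈ twistedD4 K q := I.U_le ⟨hu, h5⟩
    obtain ⟨a₄, b₄, c₄, d₄, e₄, f₄, hb₄, he₄, hf₄, hu4⟩ := exists_pr hφ hφ3 hρ hτ I hq hK ⟨hu, huG'⟩
    obtain ⟨κ, k0, k1, k2⟩ := H_data hρ hτ hh h6.2
    have k14 : φ (κ 14) = κ 14 := by
      rw [← k1 14 (pos_all _ (by simp)), (by decide +kernel : ρ0 14 = 14)]
    -- the relation
    have e5 : c * Xr 22 1 * c⁻¹ = Xr 22 1 := by rw [h22, mul_inv_cancel_right]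
    have e6 : Na * pr φ 0 0 0 0 1 f₃ * Na⁻¹ = pr φ 0 1 0 0 0 f₃ := by
      rw [conj_a φ hφ3]
      simp
    have e7 : h * pr φ 0 1 0 0 0 f₃ * h⁻¹ = pr φ 0 (κ 14) 0 0 0 (κ 23 * f₃) := by
      have e8 : pr φ 0 1 0 0 0 f₃ = Xr 14 1 * Xr 23 f₃ := by
        rw [X14_eq φ, pr_X23 hφ3 h1F, zero_add]
      have e9 : h * (Xr 14 1 * Xr 23 f₃) * h⁻¹ = (h * Xr 14 1 * h⁻¹) * (h * Xr 23 f₃ * h⁻¹) := by group
      rw [e8, e9, k2 14 (by decide) 1, k2 23 (by decide) f₃, mul_one, X14_eq φ, pr_X23 hφ3 k14, zero_add]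
    have e10 : c = u * h * (Na * v) := by
      rw [← rfl', em]
      group
    have e11 : u * pr φ 0 (κ 14) 0 0 0 (κ 23 * f₃) * u⁻¹ = Xr 22 1 := by
      calc _ = u * h * (Na * v) * Xr 22 1 * (u * h * (Na * v))⁻¹ := by
            rw [← e7, ← e6, ← hz2]
            group
        _ = c * Xr 22 1 * c⁻¹ := by rw [e10]
        _ = _ := e5
    have e12 : u * pr φ 0 (κ 14) 0 0 0 (κ 23 * f₃) = Xr 22 1 * u := by
      rw [← e11]
      group
    rw [hu4, X22_eq φ, pr_mul φ hφ3 hb₄, pr_mul φ hφ3 h0F] at e12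
    obtain ⟨-, e13, -⟩ := pr_inj φ e12
    exact k0 14 (by linear_combination e13)

/-- The centraliser of the long root elements of the small group in the big group. -/
theorem cent_one (hq : IsPrimePow q) (hK : Fintype.card K = q ^ 3) {c : GL chevD4.Idx K} (hc : c ∈ twistedD4 K q)
    (hcomm : ∀ m ∈ twistedD4 K q, mapG chevD4 φ m = m → ∀ t : K, φ t = t →
      c * (m * Xr 23 t * m⁻¹) = (m * Xr 23 t * m⁻¹) * c) : c = 1 := by
  have h1F : φ (1 : K) = 1 := map_one φ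
  have h0F : φ (0 : K) = 0 := map_zero φ
  have hm1F : φ (-1 : K) = -1 := by simp
  have hNaG : (Na : GL chevD4.Idx K) ∈ twistedD4 K q := W0_G I (Na_W0 I)
  have hNbG : (Nb : GL chevD4.Idx K) ∈ twistedD4 K q := W0_G I (Nb_W0 I)
  have hNaf : mapG chevD4 φ (Na : GL chevD4.Idx K) = Na := W0_fix I (Na_W0 I) φ
  have hNbf : mapG chevD4 φ (Nb : GL chevD4.Idx K) = Nb := W0_fix I (Nb_W0 I) φ
  have hNsG : (Ns : GL chevD4.Idx K) ∈ twistedD4 K q := by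
    rw [Ns_eq]
    exact Subgroup.mul_mem _ (Subgroup.mul_mem _ (Subgroup.mul_mem _ hNaG hNbG) (Subgroup.mul_mem _ hNaG hNbG))
      (Subgroup.mul_mem _ hNaG hNbG)
  have hNsf : mapG chevD4 φ (Ns : GL chevD4.Idx K) = Ns := Ns_fix φ
  have a22 : Nb * Xr 23 (-1 : K) * Nb⁻¹ = Xr 22 (1 : K) := by
    have := rb_23 (K := K) (-1)
    rw [MulAut.conj_apply, neg_neg] at this
    exact this
  have a14 : (Na * Nb) * Xr 23 (-1 : K) * (Na * Nb)⁻¹ = Xr 14 (1 : K) := by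
    have := ra_22 (K := K) 1
    rw [MulAut.conj_apply, ← a22] at this
    rw [← this]
    group
  have azz : (xh φ 1 * (Na * Nb)) * Xr 23 (-1 : K) * (xh φ 1 * (Na * Nb))⁻¹ = zz φ 1 1 := by
    rw [← zz_eq hφ3 h1F 1, ← a14]
    group
  have hxG : xh φ (1 : K) ∈ twistedD4 K q := pr_mem hφ3 hρ hτ I _ _ _ h0F h0F h0F
  have hxf : mapG chevD4 φ (xh φ (1 : K)) = xh φ 1 := by
    rw [xh, map_pr φ φ (fun _ => rfl)]
    simp
  have c22 : c * Xr 22 1 = Xr 22 1 * c := by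
    have := hcomm Nb hNbG hNbf (-1) hm1F
    rwa [a22] at this
  have c14 : c * Xr 14 1 = Xr 14 1 * c := by
    have := hcomm (Na * Nb) (Subgroup.mul_mem _ hNaG hNbG) (by rw [map_mul, hNaf, hNbf]) (-1) hm1F
    rwa [a14] at this
  have czz : c * zz φ 1 1 = zz φ 1 1 * c := by
    have := hcomm (xh φ 1 * (Na * Nb)) (Subgroup.mul_mem _ hxG (Subgroup.mul_mem _ hNaG hNbG))
      (by rw [map_mul, map_mul, hxf, hNaf, hNbf]) (-1) hm1F
    rwa [azz] at this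
  have hB : c ∈ chevD4.borelSubgroup K := c_mem_B hφ hφ3 hρ hτ I hq hK hc c14 c22
  have hc' : Ns⁻¹ * c * Ns ∈ twistedD4 K q :=
    Subgroup.mul_mem _ (Subgroup.mul_mem _ (Subgroup.inv_mem _ hNsG) hc) hNsG
  have c22' : Ns⁻¹ * c * Ns * Xr 22 1 = Xr 22 1 * (Ns⁻¹ * c * Ns) := by
    have := hcomm (Ns * Nb) (Subgroup.mul_mem _ hNsG hNbG) (by rw [map_mul, hNsf, hNbf]) (-1) hm1F
    have e : (Ns * Nb) * Xr 23 (-1 : K) * (Ns * Nb)⁻¹ = Ns * Xr 22 1 * Ns⁻¹ := by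
      rw [← a22]
      group
    rw [e] at this
    calc _ = Ns⁻¹ * (c * (Ns * Xr 22 1 * Ns⁻¹)) * Ns := by group
      _ = Ns⁻¹ * ((Ns * Xr 22 1 * Ns⁻¹) * c) * Ns := by rw [this]
      _ = _ := by group
  have c14' : Ns⁻¹ * c * Ns * Xr 14 1 = Xr 14 1 * (Ns⁻¹ * c * Ns) := by
    have := hcomm (Ns * (Na * Nb)) (Subgroup.mul_mem _ hNsG (Subgroup.mul_mem _ hNaG hNbG))
      (by rw [map_mul, map_mul, hNsf, hNaf, hNbf]) (-1) hm1F
    have e : (Ns * (Na * Nb)) * Xr 23 (-1 : K) * (Ns * (Na * Nb))⁻¹ = Ns * Xr 14 1 * Ns⁻¹ := by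
      rw [← a14]
      group
    rw [e] at this
    calc _ = Ns⁻¹ * (c * (Ns * Xr 14 1 * Ns⁻¹)) * Ns := by group
      _ = Ns⁻¹ * ((Ns * Xr 14 1 * Ns⁻¹) * c) * Ns := by rw [this]
      _ = _ := by group
  have hB' : Ns⁻¹ * c * Ns ∈ chevD4.borelSubgroup K := c_mem_B hφ hφ3 hρ hτ I hq hK hc' c14' c22'
  have hVH : c ∈ chevD4.negUnipotent K ⊔ chevD4.diagonalSubgroup K := by
    obtain ⟨u, hu, k, hk, e⟩ := (mem_B_iff sys tbl_chevD4).mp hB'
    have e2 : c = (Ns * u * Ns⁻¹) * (Ns * k * Ns⁻¹) := by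
      have : c = Ns * (Ns⁻¹ * c * Ns) * Ns⁻¹ := by group
      rw [this, e]
      group
    rw [e2]
    exact Subgroup.mul_mem_sup (Ns_U hu) (H_norm_N sys tbl_chevD4 Ns_N hk)
  have hH : c ∈ chevD4.diagonalSubgroup K := by
    rw [← B_inf_VH sys tbl_chevD4]
    exact ⟨hB, hVH⟩
  obtain ⟨κ, k0, k1, k2⟩ := H_data hρ hτ hH (I.fix hc).2
  have hconj : ∀ r, c * Xr r 1 = Xr r 1 * c → c * Xr r 1 * c⁻¹ = Xr r 1 := by
    intro r h
    rw [h, mul_inv_cancel_right]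
  have k14 : κ 14 = 1 := by
    have e1 := k2 14 (by decide) 1
    rw [hconj 14 c14] at e1
    have := X_inj sys tbl_chevD4 (pos_all _ (by simp)) e1
    simpa using this.symm
  have k18 : κ 18 = 1 := by
    have e1 := h_zz hφ3 k1 k2 h1F 1
    rw [czz, mul_inv_cancel_right, k14, mul_one, mul_one] at e1
    have e2 : zz φ 1 1 * Xr 23 0 = zz φ (κ 18) 1 * Xr 23 0 := by rw [← e1]
    obtain ⟨e3, -⟩ := zz_inj hφ3 one_ne_zero h1F h1F e2
    exact e3.symm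
  have k13 : κ 13 = 1 := by
    rw [← (by decide +kernel : ρ0 18 = 13), k1 18 (pos_all _ (by simp)), k18, h1F]
  have k12 : κ 12 = 1 := by
    rw [← (by decide +kernel : ρ0 13 = 12), k1 13 (pos_all _ (by simp)), k13, h1F]
  apply H_eq_one hH
  intro i hi
  have hi' : i < 4 := hi
  have h4 : ∀ r < chevD4.nroots, κ r = 1 → c * Xr r 1 * c⁻¹ = Xr r 1 := by
    intro r hr h
    rw [k2 r hr 1, h, mul_one]
  interval_cases i
  · exact h4 _ (by decide +kernel) (by simpa [(by decide +kernel : chevD4.simple 0 = 18)] using k18)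
  · exact h4 _ (by decide +kernel) (by simpa [(by decide +kernel : chevD4.simple 1 = 14)] using k14)
  · exact h4 _ (by decide +kernel) (by simpa [(by decide +kernel : chevD4.simple 2 = 13)] using k13)
  · exact h4 _ (by decide +kernel) (by simpa [(by decide +kernel : chevD4.simple 3 = 12)] using k12)

end Main

end Cfsg.Agent.Lib.Tw3D4Max
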