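import Mathlib

/-!
# Counting two double cosets
-/

set_option autoImplicit false

namespace Cfsg.Agent.Lib.Tw3D4Max

variable {Γ : Type*} [Group Γ]

/-- The double coset. -/
def DC (M P : Subgroup Γ) (g : Γ) : Set Γ := {x | ∃ m ∈ M, ∃ p ∈ P, x = m * g * p}

/-- The stabiliser. -/
def St (M P : Subgroup Γ) (g : Γ) : Set Γ := {m | m ∈ M ∧ g⁻¹ * m * g ∈ P}

variable [Finite Γ]

/-- The size of a double coset. -/
theorem card_DC (M P : Subgroup Γ) (g : Γ) :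
    Nat.card M * Nat.card P ≤ Nat.card (St M P g) * Nat.card (DC M P g) := by
  classical
  have hex : ∀ x : DC M P g, ∃ m : Γ, m ∈ M ∧ ∃ p ∈ P, x.1 = m * g * p := fun x => x.2
  choose r hr hp using hex
  rw [← Nat.card_prod, ← Nat.card_prod]
  let Φ : M × P → St M P g × DC M P g := fun a =>
    let x : DC M P g := ⟨a.1.1 * g * a.2.1, a.1.1, a.1.2, a.2.1, a.2.2, rfl⟩
    (⟨(r x)⁻¹ * a.1.1, Subgroup.mul_mem _ (Subgroup.inv_mem _ (hr x)) a.1.2, by
      obtain ⟨p, hpP, e⟩ := hp x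
      have e1 : a.1.1 * g * a.2.1 = r x * g * p := e
      have e2 : g⁻¹ * ((r x)⁻¹ * a.1.1) * g = p * (a.2.1)⁻¹ := by
        have : a.1.1 = r x * g * p * (a.2.1)⁻¹ * g⁻¹ := by
          rw [← e1]
          group
        rw [this]
        group
      rw [e2]
      exact Subgroup.mul_mem _ hpP (Subgroup.inv_mem _ a.2.2)⟩, x)
  apply Nat.card_le_card_of_injective Φ
  rintro ⟨⟨m, hm⟩, ⟨p, hp'⟩⟩ ⟨⟨m', hm'⟩, ⟨p', hp''⟩⟩ h
  have h2 := congrArg (fun z => z.2) h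
  have h1 := congrArg (fun z => z.1) h
  simp only [Φ] at h1 h2
  have h3 : m * g * p = m' * g * p' := congrArg Subtype.val h2
  have h4 := congrArg Subtype.val h1
  simp only [h2, mul_right_inj] at h4
  subst h4
  have h5 : p = p' := by simpa using h3
  subst h5
  rfl

/-- Two double cosets fill up the group. -/
theorem two_cosets {G M P : Subgroup Γ} (hM : M ≤ G) (hP : P ≤ G) {g : Γ} (hg : g ∈ G)
    (hd : g ∉ DC M P 1) {N₀ N₁ M₀ P₀ a₀ s₀ N : ℕ} (ha : 0 < a₀) (hs : 0 < s₀)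
    (h1 : M₀ ≤ Nat.card M) (h2 : P₀ ≤ Nat.card P) (h3 : Nat.card (St M P 1) ≤ a₀)
    (h4 : Nat.card (St M P g) ≤ s₀) (h5 : M₀ = N₀ * a₀) (h6 : M₀ = N₁ * s₀)
    (h7 : Nat.card G = N * P₀) (h8 : N = N₀ + N₁) :
    ∀ x ∈ G, x ∈ DC M P 1 ∨ x ∈ DC M P g := by
  have c1 : N₀ * Nat.card P ≤ Nat.card (DC M P 1) := by
    have e := card_DC M P 1
    have e1 : a₀ * (N₀ * Nat.card P) ≤ a₀ * Nat.card (DC M P 1) :=
      calc a₀ * (N₀ * Nat.card P) = M₀ * Nat.card P := by rw [h5]; ring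
        _ ≤ Nat.card M * Nat.card P := Nat.mul_le_mul_right _ h1
        _ ≤ _ := e
        _ ≤ _ := Nat.mul_le_mul_right _ h3
    exact Nat.le_of_mul_le_mul_left e1 ha
  have c2 : N₁ * Nat.card P ≤ Nat.card (DC M P g) := by
    have e := card_DC M P g
    have e1 : s₀ * (N₁ * Nat.card P) ≤ s₀ * Nat.card (DC M P g) :=
      calc s₀ * (N₁ * Nat.card P) = M₀ * Nat.card P := by rw [h6]; ring
        _ ≤ Nat.card M * Nat.card P := Nat.mul_le_mul_right _ h1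
        _ ≤ _ := e
        _ ≤ _ := Nat.mul_le_mul_right _ h4
    exact Nat.le_of_mul_le_mul_left e1 hs
  have hdisj : Disjoint (DC M P 1) (DC M P g) := by
    rw [Set.disjoint_left]
    rintro x ⟨m, hm, p, hp, e⟩ ⟨m', hm', p', hp', e'⟩
    apply hd
    refine ⟨m'⁻¹ * m, Subgroup.mul_mem _ (Subgroup.inv_mem _ hm') hm, p * p'⁻¹, Subgroup.mul_mem _ hp (Subgroup.inv_mem _ hp'), ?_⟩
    have : g = m'⁻¹ * x * p'⁻¹ := by
      rw [e']
      group
    rw [this, e]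
    group
  have hsub : DC M P 1 ∪ DC M P g ⊆ (G : Set Γ) := by
    rintro x (⟨m, hm, p, hp, rfl⟩ | ⟨m, hm, p, hp, rfl⟩)
    · simpa using Subgroup.mul_mem _ (hM hm) (hP hp)
    · exact Subgroup.mul_mem _ (Subgroup.mul_mem _ (hM hm) hg) (hP hp)
  have hcard : (G : Set Γ).ncard ≤ (DC M P 1 ∪ DC M P g).ncard := by
    rw [Set.ncard_union_eq hdisj (Set.toFinite _) (Set.toFinite _), ← Nat.card_coe_set_eq, ← Nat.card_coe_set_eq,
      ← Nat.card_coe_set_eq]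
    have e : Nat.card (G : Set Γ) = Nat.card G := rfl
    rw [e, h7, h8, add_mul]
    have e2 : P₀ ≤ Nat.card P := h2
    calc (N₀ * P₀ + N₁ * P₀) ≤ N₀ * Nat.card P + N₁ * Nat.card P :=
          Nat.add_le_add (Nat.mul_le_mul_left _ e2) (Nat.mul_le_mul_left _ e2)
      _ ≤ _ := Nat.add_le_add c1 c2
  have heq := Set.eq_of_subset_of_ncard_le hsub hcard (Set.toFinite _)
  intro x hx
  have : x ∈ DC M P 1 ∪ DC M P g := by
    rw [heq]
    exact hx
  exact this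

end Cfsg.Agent.Lib.Tw3D4Max
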