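import Cfsg.Agent.Lib.Tw3D4Max.Order
import Cfsg.Agent.Lib.Tw3D4Max.Cosets

/-!
# Counting the stabilisers of the long root subgroups
-/

set_option autoImplicit false
set_option maxRecDepth 1000000
set_option linter.unusedSectionVars false
set_option linter.unusedVariables false
set_option linter.unusedSimpArgs false

namespace Cfsg.Agent.Lib.Tw3D4Max

open Cfsg.Lie Cfsg.Agent.Lib.ChevBN.Elem Cfsg.Agent.Lib.ChevBN.Table Cfsg.Agent.Lib.ChevBN.Rel
open Cfsg.Agent.Lib.ChevBN.FastData Cfsg.Agent.Lib.ChevBN.Collect Cfsg.Agent.Lib.ChevBN.Opp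
open Cfsg.Agent.Lib.Twisted Cfsg.Agent.Lib.Twisted.D4
open Cfsg.Agent.Lib.Chevalley.Tbl.D4 (sys)
open Cfsg.Agent.Lib.Tw3D4 (pos_all)
open Cfsg.Agent.Lib.Chevalley.Reflect
open Cfsg.Agent.Lib.ChevBN.Monomial Cfsg.Agent.Lib.ChevBN.Pair Cfsg.Agent.Lib.ChevBN.Torus
open Cfsg.Agent.Lib.ChevBN.Core Cfsg.Agent.Lib.ChevBN.Stmts
open Cfsg.Agent.Lib.ChevOrder.Chev Cfsg.Agent.Lib.BNPair.Basic Cfsg.Agent.Lib.BNPair.Parabolic
open Cfsg.Agent.Lib.ChevBN.BruhatForm Cfsg.Agent.Lib.ChevBN.Fix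

variable {K : Type*} [Field K]

set_option quotPrecheck false in
/-- The root elements. -/
local notation "Xr" => X (sys (F := _)).toAddRel

/-- The stabiliser of the long root subgroup of the small group. -/
noncomputable def PP (q : ℕ) (φ : K →+* K) : Subgroup (GL chevD4.Idx K) where
  carrier := {g | g ∈ twistedD4 K q ∧ ∃ κ : K, κ ≠ 0 ∧ φ κ = κ ∧ ∀ t : K, g * Xr 23 t * g⁻¹ = Xr 23 (κ * t)}
  mul_mem' := by
    rintro a b ⟨ha, κ, h0, h1, h2⟩ ⟨hb, κ', h0', h1', h2'⟩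
    refine ⟨Subgroup.mul_mem _ ha hb, κ * κ', mul_ne_zero h0 h0', by rw [map_mul, h1, h1'], fun t => ?_⟩
    have e : a * b * Xr 23 t * (a * b)⁻¹ = a * (b * Xr 23 t * b⁻¹) * a⁻¹ := by group
    rw [e, h2', h2, mul_assoc]
  one_mem' := ⟨Subgroup.one_mem _, 1, one_ne_zero, map_one φ, fun t => by simp⟩
  inv_mem' := by
    rintro a ⟨ha, κ, h0, h1, h2⟩
    refine ⟨Subgroup.inv_mem _ ha, κ⁻¹, inv_ne_zero h0, by rw [map_inv₀, h1], fun t => ?_⟩
    have e := h2 (κ⁻¹ * t)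
    rw [← mul_assoc, mul_inv_cancel₀ h0, one_mul] at e
    rw [← e]
    group

theorem mem_PP {q : ℕ} {φ : K →+* K} {g : GL chevD4.Idx K} :
    g ∈ PP q φ ↔ g ∈ twistedD4 K q ∧ ∃ κ : K, κ ≠ 0 ∧ φ κ = κ ∧ ∀ t : K, g * Xr 23 t * g⁻¹ = Xr 23 (κ * t) :=
  Iff.rfl

/-- Rational parameters. -/
abbrev Ra (φ : K →+* K) : Type _ := {y : K // φ y = y}

/-- Non-zero rational parameters. -/
abbrev Ru (φ : K →+* K) : Type _ := {y : K // φ y = y ∧ y ≠ 0}

theorem Na_neg {r : ℕ} (hr : r < chevD4.nroots) (hn : chevD4.IsNegRoot ([0, 2, 3].foldr chevD4.reflectRoot r)) (t : K) :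
    Na * Xr r t * Na⁻¹ ∈ chevD4.negUnipotent K := by
  rw [cP [0, 2, 3] Na_lt hr, negUnipotent_eq (sys (F := K)).toAddRel]
  exact X_mem_gen _ hn _

theorem Na_xh_neg (φ : K →+* K) (δ : K) : Na * xh φ δ * Na⁻¹ ∈ chevD4.negUnipotent K := by
  have e : xh φ δ = Xr 18 δ * (Xr 13 (φ δ) * Xr 12 (φ (φ δ))) := by
    simp [xh, pr, X_zero]
  have e2 : Na * (Xr 18 δ * (Xr 13 (φ δ) * Xr 12 (φ (φ δ)))) * Na⁻¹ =
      (Na * Xr 18 δ * Na⁻¹) * ((Na * Xr 13 (φ δ) * Na⁻¹) * (Na * Xr 12 (φ (φ δ)) * Na⁻¹)) := by group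
  rw [e, e2]
  exact Subgroup.mul_mem _ (Na_neg (by decide +kernel) (by decide +kernel) _)
    (Subgroup.mul_mem _ (Na_neg (by decide +kernel) (by decide +kernel) _) (Na_neg (by decide +kernel) (by decide +kernel) _))

theorem Na_not_B : (Na : GL chevD4.Idx K) ∉ chevD4.borelSubgroup K := by
  intro h
  have h1 := B_conj_U h (X_mem_U sys tbl_chevD4 (pos_all 18 (by simp)) (1 : K))
  rw [cP [0, 2, 3] Na_lt (by decide +kernel)] at h1
  have h2 : [0, 2, 3].foldr chevD4.reflectRoot 18 = chevD4.neg 18 := by decide +kernel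
  rw [h2] at h1
  refine X_neg_not_mem_B sys tbl_chevD4 (pos_all 18 (by simp)) ?_ (U_le_B sys tbl_chevD4 h1)
  have h3 : sgn [0, 2, 3] 18 = 1 ∨ sgn [0, 2, 3] 18 = -1 := by decide +kernel
  rcases h3 with h3 | h3 <;> simp [h3]

section Main

variable [Fintype K] {q : ℕ} {φ : K →+* K} {T : Tw (sys (F := K)).toAddRel}
  (hφ : ∀ t, φ t = t ^ q) (hφ3 : ∀ t, φ (φ (φ t)) = t) (hρ : T.ρ = ρ0)
  (hτ : ∀ r t, T.τ r t = ((ε0 r : ℤ) : K) * φ t)
  (I : Inst sys tbl_chevD4 T Js cl (twistedD4 K q))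

include hφ hφ3 hρ hτ I

theorem B_le_PP {b : GL chevD4.Idx K} (hb : b ∈ chevD4.borelSubgroup K) (hbG : b ∈ twistedD4 K q) : b ∈ PP q φ := by
  have hbs := (I.fix hbG).2
  obtain ⟨u, hu, h, hh, rfl⟩ := (mem_B_iff sys tbl_chevD4).1 hb
  have huG := Tw.U_le_group (sys (F := K)).toAddRel hu
  have hhG := H_le_G sys tbl_chevD4 hh
  obtain ⟨h5, h6⟩ := T.fix_split (Tw.U_le_group (sys (F := K)).toAddRel) (H_le_G sys tbl_chevD4) (fun a ha => T.s_U ha)
    (fun a ha => s_H sys tbl_chevD4 T ha) (U_inf_H sys tbl_chevD4) hu hh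
    (⟨Subgroup.mul_mem _ huG hhG, hbs⟩ : u * h ∈ T.Fx)
  obtain ⟨κ, k0, k1, k2⟩ := H_data hρ hτ hh h6.2
  have k23 : φ (κ 23) = κ 23 := by
    rw [← k1 23 (pos_all _ (by simp)), (by decide +kernel : ρ0 23 = 23)]
  refine ⟨hbG, κ 23, k0 23, k23, fun t => ?_⟩
  have e : u * h * Xr 23 t * (u * h)⁻¹ = u * (h * Xr 23 t * h⁻¹) * u⁻¹ := by group
  rw [e, k2 23 (by decide) t, U_comm_23 hu, mul_inv_cancel_right]

theorem Na_PP : (Na : GL chevD4.Idx K) ∈ PP q φ :=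
  ⟨W0_G I (Na_W0 I), 1, one_ne_zero, map_one φ, fun t => by
    rw [one_mul]
    exact ra_23 t⟩

theorem xh_mem (β : K) : xh φ β ∈ twistedD4 K q :=
  pr_mem hφ3 hρ hτ I _ _ _ (map_zero φ) (map_zero φ) (map_zero φ)

theorem xh_PP (β : K) : xh φ β ∈ PP q φ :=
  ⟨xh_mem hφ hφ3 hρ hτ I β, 1, one_ne_zero, map_one φ, fun t => by
    rw [one_mul, X23_comm hφ3 (map_zero φ), mul_inv_cancel_right]⟩

/-- The order of the stabiliser in the big group. -/
theorem card_PP (hq : IsPrimePow q) (hK : Fintype.card K = q ^ 3) :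
    q ^ 12 * ((q - 1) ^ 2 * (q ^ 2 + q + 1)) * (q ^ 3 + 1) ≤ Nat.card ↥(PP q φ) := by
  classical
  have hB : Nat.card ↥(chevD4.borelSubgroup K ⊓ twistedD4 K q) = q ^ 12 * ((q - 1) ^ 2 * (q ^ 2 + q + 1)) := by
    rw [I.fd.card_B1 I.fix I.U_le, ← I.U_inf_eq, card_U hq hK, card_H1 hq hK]
  have hO : Nat.card (Option K) = q ^ 3 + 1 := by
    rw [Finite.card_option, Nat.card_eq_fintype_card, hK]
  rw [← hB, ← hO, ← Nat.card_prod]
  have hmem : ∀ p : ↥(chevD4.borelSubgroup K ⊓ twistedD4 K q) × Option K,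
      (match p.2 with
        | none => (p.1 : GL chevD4.Idx K)
        | some β => (p.1 : GL chevD4.Idx K) * (Na * xh φ β)) ∈ PP q φ := by
    rintro ⟨b, o⟩
    have hb := B_le_PP hφ hφ3 hρ hτ I b.2.1 b.2.2
    cases o with
    | none => exact hb
    | some β => exact Subgroup.mul_mem _ hb (Subgroup.mul_mem _ (Na_PP hφ hφ3 hρ hτ I) (xh_PP hφ hφ3 hρ hτ I β))
  refine Nat.card_le_card_of_injective (fun p => ⟨_, hmem p⟩) ?_
  have hnB : ∀ β : K, (Na : GL chevD4.Idx K) * xh φ β ∉ chevD4.borelSubgroup K := by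
    intro β h
    apply Na_not_B (K := K)
    have h2 : xh φ β ∈ chevD4.borelSubgroup K := U_le_B sys tbl_chevD4 (pr_U φ _ _ _ _ _ _)
    have := Subgroup.mul_mem _ h (Subgroup.inv_mem _ h2)
    rwa [mul_inv_cancel_right] at this
  rintro ⟨b, o⟩ ⟨b', o'⟩ h
  have h1 := congrArg Subtype.val h
  cases o with
  | none =>
    cases o' with
    | none =>
      have : b = b' := Subtype.ext h1
      rw [this]
    | some β =>
      exfalso
      have h2 : (b : GL chevD4.Idx K) = (b' : GL chevD4.Idx K) * (Na * xh φ β) := h1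
      apply hnB β
      have h3 : (Na : GL chevD4.Idx K) * xh φ β = (b' : GL chevD4.Idx K)⁻¹ * (b : GL chevD4.Idx K) := by
        rw [h2]
        group
      rw [h3]
      exact Subgroup.mul_mem _ (Subgroup.inv_mem _ b'.2.1) b.2.1
  | some β =>
    cases o' with
    | none =>
      exfalso
      have h2 : (b : GL chevD4.Idx K) * (Na * xh φ β) = (b' : GL chevD4.Idx K) := h1
      apply hnB β
      have h3 : (Na : GL chevD4.Idx K) * xh φ β = (b : GL chevD4.Idx K)⁻¹ * (b' : GL chevD4.Idx K) := by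
        rw [← h2]
        group
      rw [h3]
      exact Subgroup.mul_mem _ (Subgroup.inv_mem _ b.2.1) b'.2.1
    | some β' =>
      have h2 : (b : GL chevD4.Idx K) * (Na * xh φ β) = (b' : GL chevD4.Idx K) * (Na * xh φ β') := h1
      have h3 : Na * xh φ (β' - β) * Na⁻¹ = (b' : GL chevD4.Idx K)⁻¹ * (b : GL chevD4.Idx K) := by
        have e1 : xh φ (β' - β) = xh φ β' * (xh φ β)⁻¹ := by
          rw [xh_inv hφ3, xh_mul hφ3, sub_eq_add_neg]
        have e2 : (b : GL chevD4.Idx K) = (b' : GL chevD4.Idx K) * (Na * xh φ β') * (Na * xh φ β)⁻¹ := by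
          rw [← h2]
          group
        rw [e1, e2]
        group
      have h4 : Na * xh φ (β' - β) * Na⁻¹ ∈ chevD4.borelSubgroup K ⊓ chevD4.negUnipotent K := by
        refine ⟨?_, Na_xh_neg φ _⟩
        rw [h3]
        exact Subgroup.mul_mem _ (Subgroup.inv_mem _ b'.2.1) b.2.1
      rw [B_inf_V sys tbl_chevD4, Subgroup.mem_bot] at h4
      have h5 : xh φ (β' - β) = xh φ 0 := by
        have : xh φ (β' - β) = 1 := by
          have h6 := congrArg (fun x => (Na : GL chevD4.Idx K)⁻¹ * x * Na) h4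
          simpa [mul_assoc] using h6
        rw [this]
        exact (pr_zero φ).symm
      obtain ⟨h6, -⟩ := pr_inj φ h5
      have h7 : β = β' := by
        rw [sub_eq_zero] at h6
        exact h6.symm
      subst h7
      have h8 : b = b' := Subtype.ext (mul_right_cancel h2)
      rw [h8]

end Main

end Cfsg.Agent.Lib.Tw3D4Max
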