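import Cfsg.Agent.Lib.Tw3D4Max.Stabs

/-!
# Maximality of the rational points in `³D₄(q)`
-/

set_option autoImplicit false
set_option maxRecDepth 1000000
set_option linter.unusedSectionVars false
set_option linter.unusedVariables false
set_option linter.unusedSimpArgs false

namespace Cfsg.Agent.Lib.Tw3D4Max

open Cfsg.Lie Cfsg.Agent.Lib.ChevBN.Elem Cfsg.Agent.Lib.ChevBN.Table Cfsg.Agent.Lib.ChevBN.Rel
open Cfsg.Agent.Lib.ChevBN.FastData Cfsg.Agent.Lib.ChevBN.Collect Cfsg.Agent.Lib.ChevBN.Opp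
open Cfsg.Agent.Lib.Twisted Cfsg.Agent.Lib.Twisted.D4
open Cfsg.Agent.Lib.Chevalley.Tbl.D4 (sys)
open Cfsg.Agent.Lib.Tw3D4 (pos_all)
open Cfsg.Agent.Lib.Chevalley.Reflect
open Cfsg.Agent.Lib.ChevBN.Monomial Cfsg.Agent.Lib.ChevBN.Pair Cfsg.Agent.Lib.ChevBN.Torus
open Cfsg.Agent.Lib.ChevBN.Core Cfsg.Agent.Lib.ChevBN.Stmts
open Cfsg.Agent.Lib.ChevOrder.Chev Cfsg.Agent.Lib.BNPair.Basic Cfsg.Agent.Lib.BNPair.Parabolic
open Cfsg.Agent.Lib.ChevBN.BruhatForm Cfsg.Agent.Lib.ChevBN.Fix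

variable {K : Type*} [Field K]

set_option quotPrecheck false in
/-- The root elements. -/
local notation "Xr" => X (sys (F := _)).toAddRel

/-- The numbers. -/
theorem nums {q : ℕ} (hq : 2 ≤ q) :
    q ^ 6 * (q ^ 2 - 1) * (q ^ 6 - 1) = (q ^ 5 + q ^ 4 + q ^ 3 + q ^ 2 + q + 1) * (q ^ 6 * (q - 1) ^ 2 * (q + 1)) ∧
    q ^ 6 * (q ^ 2 - 1) * (q ^ 6 - 1) = (q ^ 2 * (q + 1) * (q ^ 6 - 1)) * (q ^ 4 * (q - 1)) ∧
    q ^ 12 * (q ^ 2 - 1) * (q ^ 6 - 1) * (q ^ 8 + q ^ 4 + 1) =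
      ((q + 1) * (q ^ 8 + q ^ 4 + 1)) * (q ^ 12 * ((q - 1) ^ 2 * (q ^ 2 + q + 1)) * (q ^ 3 + 1)) ∧
    (q + 1) * (q ^ 8 + q ^ 4 + 1) = (q ^ 5 + q ^ 4 + q ^ 3 + q ^ 2 + q + 1) + q ^ 2 * (q + 1) * (q ^ 6 - 1) := by
  obtain ⟨k, rfl⟩ : ∃ k, q = k + 1 := ⟨q - 1, by omega⟩
  have e1 : (k + 1) ^ 2 - 1 = k * (k + 2) := by
    rw [Nat.sub_eq_iff_eq_add (Nat.one_le_pow _ _ (by omega))]
    ring
  have e2 : (k + 1) ^ 6 - 1 = k * ((k + 1) ^ 5 + (k + 1) ^ 4 + (k + 1) ^ 3 + (k + 1) ^ 2 + (k + 1) + 1) := by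
    rw [Nat.sub_eq_iff_eq_add (Nat.one_le_pow _ _ (by omega))]
    ring
  have e3 : k + 1 - 1 = k := by omega
  rw [e1, e2, e3]
  refine ⟨by ring, by ring, by ring, by ring⟩

section Main

variable [Fintype K] {q : ℕ} {φ : K →+* K} {T : Tw (sys (F := K)).toAddRel}
  (hφ : ∀ t, φ t = t ^ q) (hφ3 : ∀ t, φ (φ (φ t)) = t) (hρ : T.ρ = ρ0)
  (hτ : ∀ r t, T.τ r t = ((ε0 r : ℤ) : K) * φ t)
  (I : Inst sys tbl_chevD4 T Js cl (twistedD4 K q))

include hφ in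
theorem exists_mu (hq : IsPrimePow q) (hK : Fintype.card K = q ^ 3) : ∃ μ, φ μ ≠ μ := by
  by_contra hc
  push Not at hc
  have h1 := card_Ra hφ hq hK
  have h2 : Nat.card (Ra φ) = Nat.card K := Nat.card_congr (Equiv.subtypeUnivEquiv hc)
  rw [h1, Nat.card_eq_fintype_card, hK] at h2
  have h3 := hq.two_le
  have h4 : q ^ 3 = q * q ^ 2 := by ring
  have h5 : 1 < q ^ 2 := Nat.one_lt_pow (by norm_num) (by omega)
  rw [h4] at h2
  nlinarith

include hφ hφ3 hρ hτ I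

/-- The two double cosets cover the group. -/
theorem cover (hq : IsPrimePow q) (hK : Fintype.card K = q ^ 3) {μ : K} (hμ : φ μ ≠ μ) :
    ∀ x ∈ twistedD4 K q, x ∈ DC (MM q φ) (PP q φ) 1 ∨ x ∈ DC (MM q φ) (PP q φ) (xh φ μ * (Na * Nb)) := by
  have hq2 := hq.two_le
  obtain ⟨n1, n2, n3, n4⟩ := nums hq2
  have h1q : 0 < q - 1 := by omega
  refine two_cosets (M := MM q φ) (P := PP q φ) (G := twistedD4 K q) inf_le_left (fun x hx => hx.1)
    (gg_mem hφ hφ3 hρ hτ I μ) (gg_not hφ hφ3 hρ hτ I hμ) (a₀ := q ^ 6 * (q - 1) ^ 2 * (q + 1)) (s₀ := q ^ 4 * (q - 1))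
    (by positivity) (by positivity) (card_MM hφ hq hK) (card_PP hφ hφ3 hρ hτ I hq hK)
    (card_MP hφ hφ3 hρ hτ I hq hK) (card_St hφ hφ3 hρ hτ I hq hK hμ) n1 n2 ?_ n4
  rw [card_main' hq hK, n3]

omit hφ3 hρ hτ I in
/-- The Frobenius map preserves the group. -/
theorem map_G {g : GL chevD4.Idx K} (hg : g ∈ twistedD4 K q) : mapG chevD4 φ g ∈ twistedD4 K q := by
  have hle : twistedD4 K q ≤ (twistedD4 K q).comap (mapG chevD4 φ) := by
    refine (Subgroup.closure_le _).2 ?_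
    intro g hg
    have hw : ∀ a b c t, mapG chevD4 φ (w3 φ a b c t) = w3 φ a b c (φ t) := by
      intro a b c t
      simp only [w3, map_mul, map_one, mapG_X φ (sys (F := K)).toAddRel (sys (F := K)).toAddRel]
    show mapG chevD4 φ g ∈ twistedD4 K q
    rcases gen_form hφ hg with ⟨t, ht, rfl | rfl⟩ | ⟨t, rfl | rfl⟩
    · rw [mapG_X φ (sys (F := K)).toAddRel (sys (F := K)).toAddRel, ht]
      exact X14_mem hφ ht
    · rw [mapG_X φ (sys (F := K)).toAddRel (sys (F := K)).toAddRel, ht]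
      exact X9_mem hφ ht
    · rw [hw]
      exact w3p_mem hφ _
    · rw [hw]
      exact w3n_mem hφ _
  exact hle hg

/-- The rational long root elements lie in the group of rational points. -/
theorem X23_MM {s : K} (hs : φ s = s) : Xr 23 s ∈ MM q φ := by
  refine ⟨?_, ?_⟩
  · rw [X23_eq φ]
    exact pr_mem hφ3 hρ hτ I _ _ _ (map_zero φ) (map_zero φ) hs
  · show mapG chevD4 φ _ = _
    rw [mapG_X φ (sys (F := K)).toAddRel (sys (F := K)).toAddRel, hs]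
    rfl

/-- The maximality. -/
theorem max_main (hq : IsPrimePow q) (hK : Fintype.card K = q ^ 3) {H : Subgroup (GL chevD4.Idx K)}
    (h1 : MM q φ ≤ H) (h2 : H ≤ twistedD4 K q) : H = MM q φ ∨ H = twistedD4 K q := by
  obtain ⟨μ, hμ⟩ := exists_mu hφ hq hK
  have hcov := cover hφ hφ3 hρ hτ I hq hK hμ
  by_cases hA : ∀ h ∈ H, h ∈ DC (MM q φ) (PP q φ) 1
  · left
    refine le_antisymm ?_ h1
    intro g hg
    have hgG := h2 hg
    have hg' : mapG chevD4 φ g ∈ twistedD4 K q := map_G hφ hgG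
    have hc : g⁻¹ * mapG chevD4 φ g = 1 := by
      apply cent_one hφ hφ3 hρ hτ I hq hK (Subgroup.mul_mem _ (Subgroup.inv_mem _ hgG) hg')
      intro m hmG hmf t ht
      obtain ⟨m', hm', p, hp, e⟩ := hA (g * m) (Subgroup.mul_mem _ hg (h1 ⟨hmG, hmf⟩))
      obtain ⟨-, κ, k0, k1, k2⟩ := hp
      have e2 : (g * m) * Xr 23 t * (g * m)⁻¹ = m' * Xr 23 (κ * t) * m'⁻¹ := by
        rw [e, ← k2 t]
        group
      have hm'f : mapG chevD4 φ m' = m' := hm'.2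
      have e3 : mapG chevD4 φ ((g * m) * Xr 23 t * (g * m)⁻¹) = (g * m) * Xr 23 t * (g * m)⁻¹ := by
        rw [e2, map_mul, map_mul, map_inv, hm'f, mapG_X φ (sys (F := K)).toAddRel (sys (F := K)).toAddRel,
          map_mul, k1, ht]
      rw [map_mul, map_mul, map_inv, map_mul, hmf, mapG_X φ (sys (F := K)).toAddRel (sys (F := K)).toAddRel, ht] at e3
      calc g⁻¹ * mapG chevD4 φ g * (m * Xr 23 t * m⁻¹) =
            g⁻¹ * ((mapG chevD4 φ g * m) * Xr 23 t * (mapG chevD4 φ g * m)⁻¹) * mapG chevD4 φ g := by group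
        _ = g⁻¹ * ((g * m) * Xr 23 t * (g * m)⁻¹) * mapG chevD4 φ g := by rw [e3]
        _ = _ := by group
    rw [inv_mul_eq_one] at hc
    exact ⟨hgG, hc.symm⟩
  · right
    push Not at hA
    obtain ⟨h, hh, hnd⟩ := hA
    refine le_antisymm h2 ?_
    obtain ⟨m, hm, p, hp, e⟩ := (hcov h (h2 hh)).resolve_left hnd
    have hg₂ : xh φ μ * (Na * Nb) * p ∈ H := by
      have : xh φ μ * (Na * Nb) * p = m⁻¹ * h := by
        rw [e]
        group
      rw [this]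
      exact Subgroup.mul_mem _ (Subgroup.inv_mem _ (h1 hm)) hh
    have hHP : ∀ x ∈ twistedD4 K q, ∃ h' ∈ H, ∃ p' ∈ PP q φ, x = h' * p' := by
      intro x hx
      rcases hcov x hx with ⟨m', hm', p', hp', rfl⟩ | ⟨m', hm', p', hp', rfl⟩
      · exact ⟨m', h1 hm', p', hp', by simp⟩
      · refine ⟨m' * (xh φ μ * (Na * Nb) * p), Subgroup.mul_mem _ (h1 hm') hg₂, p⁻¹ * p',
          Subgroup.mul_mem _ (Subgroup.inv_mem _ hp) hp', ?_⟩
        group
    have hconj : ∀ x ∈ twistedD4 K q, x * Xr 23 1 * x⁻¹ ∈ H := by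
      intro x hx
      obtain ⟨h', hh', p', ⟨-, κ, k0, k1, k2⟩, rfl⟩ := hHP x hx
      have e1 : (h' * p') * Xr 23 1 * (h' * p')⁻¹ = h' * (p' * Xr 23 1 * p'⁻¹) * h'⁻¹ := by group
      rw [e1, k2 1]
      refine Subgroup.mul_mem _ (Subgroup.mul_mem _ hh' (h1 (X23_MM hφ hφ3 hρ hτ I ?_))) (Subgroup.inv_mem _ hh')
      simp [k1]
    have hS := (simple_main hq hK).1
    let x₀ : ↥(twistedD4 K q) := ⟨Xr 23 1, (X23_MM hφ hφ3 hρ hτ I (map_one φ)).1⟩
    have hL : Subgroup.normalClosure {x₀} ≤ H.subgroupOf (twistedD4 K q) := by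
      rw [Subgroup.normalClosure, Subgroup.closure_le]
      intro y hy
      obtain ⟨a, ha, hc⟩ := Group.mem_conjugatesOfSet_iff.1 hy
      rw [Set.mem_singleton_iff] at ha
      subst ha
      obtain ⟨c, rfl⟩ := isConj_iff.1 hc
      show ((c * x₀ * c⁻¹ : ↥(twistedD4 K q)) : GL chevD4.Idx K) ∈ H
      exact hconj c.1 c.2
    have hne : Subgroup.normalClosure {x₀} ≠ ⊥ := by
      intro hb
      have h3 : x₀ ∈ Subgroup.normalClosure {x₀} := Subgroup.subset_normalClosure rfl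
      rw [hb, Subgroup.mem_bot] at h3
      have h4 : Xr 23 (1 : K) = 1 := congrArg Subtype.val h3
      have h5 : Xr 23 (1 : K) = Xr 23 0 := by rw [h4, X_zero]
      exact one_ne_zero (X_inj sys tbl_chevD4 (pos_all _ (by simp)) h5)
    have htop := (IsSimpleGroup.eq_bot_or_eq_top_of_normal _ (Subgroup.normalClosure_normal)).resolve_left hne
    intro g hg
    have := hL (htop ▸ Subgroup.mem_top (⟨g, hg⟩ : ↥(twistedD4 K q)))
    exact this

end Main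

end Cfsg.Agent.Lib.Tw3D4Max
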