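import Cfsg.Agent.Lib.Tw3D4Max.Weyl

/-!
# Normal forms in `³D₄(q)`, fixed by the field automorphism
-/

set_option autoImplicit false
set_option maxRecDepth 1000000
set_option linter.unusedSectionVars false
set_option linter.unusedVariables false
set_option linter.unusedSimpArgs false

namespace Cfsg.Agent.Lib.Tw3D4Max

open Cfsg.Lie Cfsg.Agent.Lib.ChevBN.Elem Cfsg.Agent.Lib.ChevBN.Table Cfsg.Agent.Lib.ChevBN.Rel
open Cfsg.Agent.Lib.ChevBN.FastData Cfsg.Agent.Lib.ChevBN.Collect Cfsg.Agent.Lib.ChevBN.Opp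
open Cfsg.Agent.Lib.Twisted Cfsg.Agent.Lib.Twisted.D4
open Cfsg.Agent.Lib.Chevalley.Tbl.D4 (sys)
open Cfsg.Agent.Lib.Tw3D4 (pos_all)
open Cfsg.Agent.Lib.Chevalley.Reflect
open Cfsg.Agent.Lib.ChevBN.Monomial Cfsg.Agent.Lib.ChevBN.Pair Cfsg.Agent.Lib.ChevBN.Torus
open Cfsg.Agent.Lib.ChevBN.Core Cfsg.Agent.Lib.ChevBN.Stmts
open Cfsg.Agent.Lib.ChevOrder.Chev Cfsg.Agent.Lib.BNPair.Basic Cfsg.Agent.Lib.BNPair.Parabolic
open Cfsg.Agent.Lib.ChevBN.BruhatForm Cfsg.Agent.Lib.ChevBN.Fix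

variable {K : Type*} [Field K]

set_option quotPrecheck false in
/-- The root elements. -/
local notation "Xr" => X (sys (F := _)).toAddRel

section S

variable {φ : K →+* K} {T : Tw (sys (F := K)).toAddRel} (hρ : T.ρ = ρ0)
  (hτ : ∀ r t, T.τ r t = ((ε0 r : ℤ) : K) * φ t) (hφ3 : ∀ t, φ (φ (φ t)) = t)

theorem eps_all : ∀ r < chevD4.nroots, ε0 r = 1 ∨ ε0 r = -1 := by decide +kernel

include hτ hφ3 in
theorem tau_surj {r : ℕ} (hr : r < chevD4.nroots) (t : K) : ∃ t', T.τ r t' = t := by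
  refine ⟨φ (φ (((ε0 r : ℤ) : K) * t)), ?_⟩
  rw [hτ, hφ3]
  rcases eps_all r hr with h | h <;> rw [h] <;> simp

include hτ hφ3 in
/-- The twisting map preserves `Un n`, for `n` fixed. -/
theorem s_Un {n x : GL chevD4.Idx K} (hn : n ∈ chevD4.monomialSubgroup K) (hfix : T.s n = n)
    (hx : x ∈ Un chevD4 K n) : T.s x ∈ Un chevD4 K n ∧ x ∈ chevD4.group K := by
  have hnG := N_le_G sys tbl_chevD4 hn
  rw [Un] at hx ⊢
  induction hx using Subgroup.closure_induction with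
  | mem x hx =>
    obtain ⟨r, t, hr, hle, hx⟩ := hx
    rw [eq_X (sys (F := K)).toAddRel] at hx
    subst hx
    refine ⟨?_, Tw.X_mem_group hr.1 t⟩
    rw [T.s_X r hr.1]
    refine Subgroup.subset_closure ⟨T.ρ r, T.τ r t, T.ρ_pos r hr, ?_, rfl⟩
    rw [Subgroup.map_le_iff_le_comap, rootSubgroup_eq (sys (F := K)).toAddRel]
    refine gen_le _ ?_
    rintro s rfl t'
    obtain ⟨t'', ht''⟩ := tau_surj hτ hφ3 hr.1 t'
    rw [Subgroup.mem_comap, ← ht'', ← T.s_X r hr.1]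
    have h1 : n * X (sys (F := K)).toAddRel r t'' * n⁻¹ ∈ chevD4.negUnipotent K := by
      apply hle
      refine ⟨X (sys (F := K)).toAddRel r t'', ?_, rfl⟩
      rw [rootSubgroup_eq (sys (F := K)).toAddRel]
      exact X_mem_gen _ (Set.mem_singleton _) t''
    have h2 := Tw.s_V T tbl_chevD4 h1
    have hxG : X (sys (F := K)).toAddRel r t'' ∈ chevD4.group K := Tw.X_mem_group hr.1 t''
    rw [T.s_mul _ (Subgroup.mul_mem _ hnG hxG) _ (Subgroup.inv_mem _ hnG), T.s_mul _ hnG _ hxG, T.s_inv hnG, hfix] at h2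
    exact h2
  | one =>
    rw [T.s_one]
    exact ⟨Subgroup.one_mem _, Subgroup.one_mem _⟩
  | mul a b _ _ ha hb =>
    refine ⟨?_, Subgroup.mul_mem _ ha.2 hb.2⟩
    rw [T.s_mul a ha.2 b hb.2]
    exact Subgroup.mul_mem _ ha.1 hb.1
  | inv a _ ha =>
    refine ⟨?_, Subgroup.inv_mem _ ha.2⟩
    rw [T.s_inv ha.2]
    exact Subgroup.inv_mem _ ha.1

theorem s_B {T : Tw (sys (F := K)).toAddRel} {b : GL chevD4.Idx K} (hb : b ∈ chevD4.borelSubgroup K) :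
    T.s b ∈ chevD4.borelSubgroup K := by
  obtain ⟨u, hu, h, hh, rfl⟩ := (mem_B_iff sys tbl_chevD4).1 hb
  rw [T.s_mul _ (Tw.U_le_group (sys (F := K)).toAddRel hu) _ (H_le_G sys tbl_chevD4 hh)]
  exact Subgroup.mul_mem _ (U_le_B sys tbl_chevD4 (T.s_U hu)) (H_le_B sys tbl_chevD4 (s_H sys tbl_chevD4 T hh))

end S

section Main

variable [Fintype K] {q : ℕ} {φ : K →+* K} {T : Tw (sys (F := K)).toAddRel}
  (hφ : ∀ t, φ t = t ^ q) (hφ3 : ∀ t, φ (φ (φ t)) = t) (hρ : T.ρ = ρ0)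
  (hτ : ∀ r t, T.τ r t = ((ε0 r : ℤ) : K) * φ t)
  (I : Inst sys tbl_chevD4 T Js cl (twistedD4 K q))

/-- The Weyl group of the twisted group. -/
noncomputable def W0 (I : Inst sys tbl_chevD4 T Js cl (twistedD4 K q)) : Subgroup (GL chevD4.Idx K) :=
  Subgroup.closure (Set.range I.fd.n)

theorem W0_G : W0 I ≤ twistedD4 K q := by
  rw [W0, Subgroup.closure_le]
  rintro _ ⟨j, rfl⟩
  exact I.fd.n_G1 j

theorem W0_fix {n : GL chevD4.Idx K} (hn : n ∈ W0 I) (σ : K →+* K) : mapG chevD4 σ n = n := by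
  apply fix_of_mem_fixL sys σ
  have hle : W0 I ≤ fixL sys σ := by
    rw [W0, Subgroup.closure_le]
    rintro _ ⟨⟨J, hJ⟩, rfl⟩
    show prodA sys J ∈ fixL sys σ
    apply Subgroup.list_prod_mem
    intro x hx
    obtain ⟨i, hi, rfl⟩ := List.mem_map.mp hx
    exact A_mem_fixL sys tbl_chevD4 σ (I.orth.lt J hJ i hi)
  exact hle hn

theorem W0_N : W0 I ≤ chevD4.monomialSubgroup K := by
  rw [W0, Subgroup.closure_le]
  rintro _ ⟨j, rfl⟩
  exact I.fd.n_N j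

include hτ hφ3 in
/-- The normal form of an element of the twisted group. -/
theorem tnf {g : GL chevD4.Idx K} (hg : g ∈ twistedD4 K q) :
    ∃ b ∈ chevD4.borelSubgroup K, ∃ n ∈ W0 I, ∃ v ∈ Un chevD4 K n, T.s b = b ∧ T.s v = v ∧ g = b * n * v := by
  obtain ⟨P, hB, hN, -⟩ := I.exists_pair
  obtain ⟨n₀, hn₀, hm⟩ := bruhat_exists (P := P) (⟨g, hg⟩ : ↥(twistedD4 K q))
  obtain ⟨b₁, hb₁, b₂, hb₂, e⟩ := mem_C.1 hm
  rw [hB] at hb₁ hb₂
  rw [hN] at hn₀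
  have hb₁' := (Subgroup.mem_subgroupOf.1 hb₁).1
  have hb₂' := (Subgroup.mem_subgroupOf.1 hb₂).1
  have hn₀' := Subgroup.mem_subgroupOf.1 hn₀
  have h0 := I.fd.gen_N' I.fix hn₀'
  rw [sup_comm, mem_sup_iff_of_norm] at h0
  rotate_left
  · intro n hn k hk
    refine ⟨H_norm_N sys tbl_chevD4 (W0_N I hn) hk.1, ?_⟩
    exact Subgroup.mul_mem _ (Subgroup.mul_mem _ (W0_G I hn) hk.2) (Subgroup.inv_mem _ (W0_G I hn))
  obtain ⟨k, hk, n, hn, en⟩ := h0
  obtain ⟨u₂, hu₂, k₂, hk₂, e₂⟩ := (mem_B_iff sys tbl_chevD4).1 hb₂'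
  have hnN : n ∈ chevD4.monomialSubgroup K := W0_N I hn
  have hnfix : T.s n = n := (I.fix (W0_G I hn)).2
  have hge : g = (b₁ : GL chevD4.Idx K) * (k * n) * (u₂ * k₂) := by
    have := congrArg Subtype.val e
    simp only [Subgroup.coe_mul] at this
    rw [this, e₂, en]
  have hku : k₂⁻¹ * u₂ * k₂ ∈ chevD4.posUnipotent K := by
    have := H_norm_U sys tbl_chevD4 (Subgroup.inv_mem _ hk₂) hu₂
    simpa using this
  obtain ⟨a, w, hw, ha, e3⟩ := factor_U sys tbl_chevD4 hnN hku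
  set b := (b₁ : GL chevD4.Idx K) * k * (n * k₂ * n⁻¹) * (n * a * n⁻¹) with hbd
  have hbB : b ∈ chevD4.borelSubgroup K := by
    refine Subgroup.mul_mem _ (Subgroup.mul_mem _ (Subgroup.mul_mem _ hb₁' (H_le_B sys tbl_chevD4 hk.1))
      (H_le_B sys tbl_chevD4 (H_norm_N sys tbl_chevD4 hnN hk₂))) (U_le_B sys tbl_chevD4 ha)
  have e4 : g = b * n * w := by
    rw [hge, hbd]
    have e5 : u₂ * k₂ = k₂ * (k₂⁻¹ * u₂ * k₂) := by group
    rw [e5, e3]
    group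
  -- uniqueness
  have hBG : b ∈ chevD4.group K := (B_N_G sys tbl_chevD4).1 hbB
  have hnG : n ∈ chevD4.group K := N_le_G sys tbl_chevD4 hnN
  obtain ⟨hsw, hwG⟩ := s_Un hτ hφ3 hnN hnfix hw
  have hfix : T.s g = g := (I.fix hg).2
  have e6 : T.s b * n * T.s w = b * n * w := by
    have := hfix
    rw [e4, T.s_mul _ (Subgroup.mul_mem _ hBG hnG) _ hwG, T.s_mul _ hBG _ hnG, hnfix] at this
    exact this
  obtain ⟨-, h7⟩ := normal_form_unique sys tbl_chevD4 (s_B hbB) hbB hnN hnN hsw hw e6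
  obtain ⟨h8, h9⟩ := h7 rfl
  exact ⟨b, hbB, n, hn, w, hw, h8, h9, e4⟩

/-- The components of the normal form of a fixed element are fixed. -/
theorem tnf_fix {b n v g : GL chevD4.Idx K} (hb : b ∈ chevD4.borelSubgroup K) (hn : n ∈ W0 I)
    (hv : v ∈ Un chevD4 K n) (e : g = b * n * v) (hfix : mapG chevD4 φ g = g) :
    mapG chevD4 φ b = b ∧ mapG chevD4 φ v = v := by
  have hnN : n ∈ chevD4.monomialSubgroup K := W0_N I hn
  have e2 : mapG chevD4 φ b * n * mapG chevD4 φ v = b * n * v := by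
    have := hfix
    rw [e, map_mul, map_mul, W0_fix I hn φ] at this
    exact this
  obtain ⟨-, h3⟩ := normal_form_unique sys tbl_chevD4 (mapG_B sys tbl_chevD4 φ hb) hb hnN hnN
    (mapG_Un sys tbl_chevD4 φ hv) hv e2
  exact h3 rfl

include hφ3 hρ hτ hφ I in
/-- The form of a fixed element of `U`. -/
theorem U_form (hq : IsPrimePow q) (hK : Fintype.card K = q ^ 3) {x : GL chevD4.Idx K}
    (hx : x ∈ chevD4.posUnipotent K) (hs : T.s x = x) (hf : mapG chevD4 φ x = x) :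
    ∃ a b c d e f, φ a = a ∧ φ b = b ∧ φ c = c ∧ φ d = d ∧ φ e = e ∧ φ f = f ∧ x = pr φ a b c d e f := by
  have hxG : x ∈ twistedD4 K q := I.U_le ⟨hx, Tw.U_le_group (sys (F := K)).toAddRel hx, hs⟩
  obtain ⟨a, b, c, d, e, f, -, -, -, rfl⟩ := exists_pr hφ hφ3 hρ hτ I hq hK ⟨hx, hxG⟩
  rw [map_pr φ φ (fun _ => rfl)] at hf
  obtain ⟨h1, h2, h3, h4, h5, h6⟩ := pr_inj φ hf
  exact ⟨a, b, c, d, e, f, h1, h2, h3, h4, h5, h6, rfl⟩

/-- A fixed element of `B` splits. -/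
theorem B_split {b : GL chevD4.Idx K} (hb : b ∈ chevD4.borelSubgroup K) (hs : T.s b = b)
    (hf : mapG chevD4 φ b = b) : ∃ u ∈ chevD4.posUnipotent K, ∃ h ∈ chevD4.diagonalSubgroup K,
      T.s u = u ∧ mapG chevD4 φ u = u ∧ T.s h = h ∧ mapG chevD4 φ h = h ∧ b = u * h := by
  obtain ⟨u, hu, h, hh, rfl⟩ := (mem_B_iff sys tbl_chevD4).1 hb
  have huG := Tw.U_le_group (sys (F := K)).toAddRel hu
  have hhG := H_le_G sys tbl_chevD4 hh
  have key : ∀ (u' h' : GL chevD4.Idx K), u' ∈ chevD4.posUnipotent K → h' ∈ chevD4.diagonalSubgroup K →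
      u' * h' = u * h → u' = u ∧ h' = h := by
    intro u' h' hu' hh' e
    have e5 : u⁻¹ * u' = h * h'⁻¹ := by
      rw [inv_mul_eq_iff_eq_mul, ← mul_assoc, eq_mul_inv_iff_mul_eq]
      exact e
    have h6 : u⁻¹ * u' ∈ chevD4.posUnipotent K ⊓ chevD4.diagonalSubgroup K := by
      refine ⟨Subgroup.mul_mem _ (Subgroup.inv_mem _ hu) hu', ?_⟩
      rw [e5]
      exact Subgroup.mul_mem _ hh (Subgroup.inv_mem _ hh')
    rw [U_inf_H sys tbl_chevD4, Subgroup.mem_bot] at h6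
    have h7 : u' = u := by
      rw [inv_mul_eq_iff_eq_mul, mul_one] at h6
      exact h6
    subst h7
    exact ⟨rfl, mul_left_cancel e⟩
  obtain ⟨h1, h2⟩ := key (T.s u) (T.s h) (T.s_U hu) (s_H sys tbl_chevD4 T hh) (by
    rw [← T.s_mul _ huG _ hhG, hs])
  obtain ⟨h3, h4⟩ := key (mapG chevD4 φ u) (mapG chevD4 φ h) (mapG_U sys tbl_chevD4 φ hu) (mapG_H sys tbl_chevD4 φ hh) (by
    rw [← map_mul, hf])
  exact ⟨u, hu, h, hh, h1, h3, h2, h4, rfl⟩

end Main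

end Cfsg.Agent.Lib.Tw3D4Max
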