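import Cfsg.Agent.Lib.Tw3D4.Law

/-!
# The group law of the unipotent subgroup of `³D₄(q)`, in all characteristics
-/

set_option autoImplicit false
set_option maxRecDepth 1000000
set_option linter.unusedSectionVars false
set_option linter.unreachableTactic false
set_option linter.unusedTactic false
set_option linter.unusedVariables false

namespace Cfsg.Agent.Lib.Tw3D4Max

open Cfsg.Lie Cfsg.Agent.Lib.ChevBN.Elem Cfsg.Agent.Lib.ChevBN.Table Cfsg.Agent.Lib.ChevBN.Fast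
open Cfsg.Agent.Lib.ChevBN.FastData Cfsg.Agent.Lib.ChevBN.Collect Cfsg.Agent.Lib.ChevBN.Rel
open Cfsg.Agent.Lib.Chevalley.Tbl.D4 (sys)
open Cfsg.Agent.Lib.Tw3D4 (pos_all)

variable {K : Type*} [Field K]

set_option quotPrecheck false in
/-- The root elements. -/
local notation "Xr" => X (sys (F := _)).toAddRel

theorem mg (r : ℕ) (s t : K) (R : GL chevD4.Idx K) : Xr r s * (Xr r t * R) = Xr r (s + t) * R := by
  rw [← mul_assoc, X_mul]

theorem cX {r : ℕ} {s t : K} {R R' : GL chevD4.Idx K} (h : s = t) (h' : R = R') : Xr r s * R = Xr r t * R' := by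
  rw [h, h']

theorem sw_nil {a κ : ℕ} (ha : chevD4.IsPosRoot a) (hκ : chevD4.IsPosRoot κ) (h : a ≠ κ)
    (hn : chevD4.commTerms κ a = []) (t u : K) (R : GL chevD4.Idx K) :
    Xr a t * (Xr κ u * R) = Xr κ u * (Xr a t * R) := by
  have h1 := commPos sys κ a hκ ha h u t
  rw [ChevalleyDatum.commWord, hn] at h1
  simp only [List.map_nil, W_nil, mul_one] at h1
  rw [← mul_assoc, h1, mul_assoc]

theorem sw_pos {a κ c : ℕ} (ha : chevD4.IsPosRoot a) (hκ : chevD4.IsPosRoot κ) (h : a ≠ κ)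
    (hn : chevD4.commTerms κ a = [(c, -1, 1, 1)]) (t u : K) (R : GL chevD4.Idx K) :
    Xr a t * (Xr κ u * R) = Xr κ u * (Xr a t * (Xr c (u * t) * R)) := by
  have h1 := commPos sys κ a hκ ha h u t
  rw [ChevalleyDatum.commWord, hn] at h1
  simp only [List.map_cons, List.map_nil, W_cons, W_nil, mul_one, pow_one, Int.cast_one, one_mul, neg_neg, neg_mul, Int.cast_neg] at h1
  rw [← mul_assoc, h1, mul_assoc, mul_assoc]

theorem sw_neg {a κ c : ℕ} (ha : chevD4.IsPosRoot a) (hκ : chevD4.IsPosRoot κ) (h : a ≠ κ)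
    (hn : chevD4.commTerms κ a = [(c, 1, 1, 1)]) (t u : K) (R : GL chevD4.Idx K) :
    Xr a t * (Xr κ u * R) = Xr κ u * (Xr a t * (Xr c (-(u * t)) * R)) := by
  have h1 := commPos sys κ a hκ ha h u t
  rw [ChevalleyDatum.commWord, hn] at h1
  simp only [List.map_cons, List.map_nil, W_cons, W_nil, mul_one, pow_one, Int.cast_neg, Int.cast_one, neg_mul, one_mul, neg_neg] at h1
  rw [← mul_assoc, h1, mul_assoc, mul_assoc]

theorem sw_13_18 (t u : K) (R : GL chevD4.Idx K) : Xr 13 t * (Xr 18 u * R) = Xr 18 u * (Xr 13 t * R) :=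
  sw_nil (pos_all _ (by simp)) (pos_all _ (by simp)) (by decide) (by decide +kernel) t u R

theorem sw_12_18 (t u : K) (R : GL chevD4.Idx K) : Xr 12 t * (Xr 18 u * R) = Xr 18 u * (Xr 12 t * R) :=
  sw_nil (pos_all _ (by simp)) (pos_all _ (by simp)) (by decide) (by decide +kernel) t u R

theorem sw_12_13 (t u : K) (R : GL chevD4.Idx K) : Xr 12 t * (Xr 13 u * R) = Xr 13 u * (Xr 12 t * R) :=
  sw_nil (pos_all _ (by simp)) (pos_all _ (by simp)) (by decide) (by decide +kernel) t u R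

theorem sw_14_18 (t u : K) (R : GL chevD4.Idx K) : Xr 14 t * (Xr 18 u * R) = Xr 18 u * (Xr 14 t * (Xr 19 (u * t) * R)) :=
  sw_pos (pos_all _ (by simp)) (pos_all _ (by simp)) (by decide) (by decide +kernel) t u R

theorem sw_14_13 (t u : K) (R : GL chevD4.Idx K) : Xr 14 t * (Xr 13 u * R) = Xr 13 u * (Xr 14 t * (Xr 16 (-(u * t)) * R)) :=
  sw_neg (pos_all _ (by simp)) (pos_all _ (by simp)) (by decide) (by decide +kernel) t u R

theorem sw_14_12 (t u : K) (R : GL chevD4.Idx K) : Xr 14 t * (Xr 12 u * R) = Xr 12 u * (Xr 14 t * (Xr 15 (-(u * t)) * R)) :=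
  sw_neg (pos_all _ (by simp)) (pos_all _ (by simp)) (by decide) (by decide +kernel) t u R

theorem sw_19_18 (t u : K) (R : GL chevD4.Idx K) : Xr 19 t * (Xr 18 u * R) = Xr 18 u * (Xr 19 t * R) :=
  sw_nil (pos_all _ (by simp)) (pos_all _ (by simp)) (by decide) (by decide +kernel) t u R

theorem sw_19_13 (t u : K) (R : GL chevD4.Idx K) : Xr 19 t * (Xr 13 u * R) = Xr 13 u * (Xr 19 t * (Xr 21 (-(u * t)) * R)) :=
  sw_neg (pos_all _ (by simp)) (pos_all _ (by simp)) (by decide) (by decide +kernel) t u R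

theorem sw_19_12 (t u : K) (R : GL chevD4.Idx K) : Xr 19 t * (Xr 12 u * R) = Xr 12 u * (Xr 19 t * (Xr 20 (-(u * t)) * R)) :=
  sw_neg (pos_all _ (by simp)) (pos_all _ (by simp)) (by decide) (by decide +kernel) t u R

theorem sw_19_14 (t u : K) (R : GL chevD4.Idx K) : Xr 19 t * (Xr 14 u * R) = Xr 14 u * (Xr 19 t * R) :=
  sw_nil (pos_all _ (by simp)) (pos_all _ (by simp)) (by decide) (by decide +kernel) t u R

theorem sw_16_18 (t u : K) (R : GL chevD4.Idx K) : Xr 16 t * (Xr 18 u * R) = Xr 18 u * (Xr 16 t * (Xr 21 (u * t) * R)) :=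
  sw_pos (pos_all _ (by simp)) (pos_all _ (by simp)) (by decide) (by decide +kernel) t u R

theorem sw_16_13 (t u : K) (R : GL chevD4.Idx K) : Xr 16 t * (Xr 13 u * R) = Xr 13 u * (Xr 16 t * R) :=
  sw_nil (pos_all _ (by simp)) (pos_all _ (by simp)) (by decide) (by decide +kernel) t u R

theorem sw_16_12 (t u : K) (R : GL chevD4.Idx K) : Xr 16 t * (Xr 12 u * R) = Xr 12 u * (Xr 16 t * (Xr 17 (-(u * t)) * R)) :=
  sw_neg (pos_all _ (by simp)) (pos_all _ (by simp)) (by decide) (by decide +kernel) t u R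

theorem sw_16_14 (t u : K) (R : GL chevD4.Idx K) : Xr 16 t * (Xr 14 u * R) = Xr 14 u * (Xr 16 t * R) :=
  sw_nil (pos_all _ (by simp)) (pos_all _ (by simp)) (by decide) (by decide +kernel) t u R

theorem sw_16_19 (t u : K) (R : GL chevD4.Idx K) : Xr 16 t * (Xr 19 u * R) = Xr 19 u * (Xr 16 t * R) :=
  sw_nil (pos_all _ (by simp)) (pos_all _ (by simp)) (by decide) (by decide +kernel) t u R

theorem sw_15_18 (t u : K) (R : GL chevD4.Idx K) : Xr 15 t * (Xr 18 u * R) = Xr 18 u * (Xr 15 t * (Xr 20 (u * t) * R)) :=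
  sw_pos (pos_all _ (by simp)) (pos_all _ (by simp)) (by decide) (by decide +kernel) t u R

theorem sw_15_13 (t u : K) (R : GL chevD4.Idx K) : Xr 15 t * (Xr 13 u * R) = Xr 13 u * (Xr 15 t * (Xr 17 (-(u * t)) * R)) :=
  sw_neg (pos_all _ (by simp)) (pos_all _ (by simp)) (by decide) (by decide +kernel) t u R

theorem sw_15_12 (t u : K) (R : GL chevD4.Idx K) : Xr 15 t * (Xr 12 u * R) = Xr 12 u * (Xr 15 t * R) :=
  sw_nil (pos_all _ (by simp)) (pos_all _ (by simp)) (by decide) (by decide +kernel) t u R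

theorem sw_15_14 (t u : K) (R : GL chevD4.Idx K) : Xr 15 t * (Xr 14 u * R) = Xr 14 u * (Xr 15 t * R) :=
  sw_nil (pos_all _ (by simp)) (pos_all _ (by simp)) (by decide) (by decide +kernel) t u R

theorem sw_15_19 (t u : K) (R : GL chevD4.Idx K) : Xr 15 t * (Xr 19 u * R) = Xr 19 u * (Xr 15 t * R) :=
  sw_nil (pos_all _ (by simp)) (pos_all _ (by simp)) (by decide) (by decide +kernel) t u R

theorem sw_15_16 (t u : K) (R : GL chevD4.Idx K) : Xr 15 t * (Xr 16 u * R) = Xr 16 u * (Xr 15 t * R) :=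
  sw_nil (pos_all _ (by simp)) (pos_all _ (by simp)) (by decide) (by decide +kernel) t u R

theorem sw_17_18 (t u : K) (R : GL chevD4.Idx K) : Xr 17 t * (Xr 18 u * R) = Xr 18 u * (Xr 17 t * (Xr 22 (u * t) * R)) :=
  sw_pos (pos_all _ (by simp)) (pos_all _ (by simp)) (by decide) (by decide +kernel) t u R

theorem sw_17_13 (t u : K) (R : GL chevD4.Idx K) : Xr 17 t * (Xr 13 u * R) = Xr 13 u * (Xr 17 t * R) :=
  sw_nil (pos_all _ (by simp)) (pos_all _ (by simp)) (by decide) (by decide +kernel) t u R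

theorem sw_17_12 (t u : K) (R : GL chevD4.Idx K) : Xr 17 t * (Xr 12 u * R) = Xr 12 u * (Xr 17 t * R) :=
  sw_nil (pos_all _ (by simp)) (pos_all _ (by simp)) (by decide) (by decide +kernel) t u R

theorem sw_17_14 (t u : K) (R : GL chevD4.Idx K) : Xr 17 t * (Xr 14 u * R) = Xr 14 u * (Xr 17 t * R) :=
  sw_nil (pos_all _ (by simp)) (pos_all _ (by simp)) (by decide) (by decide +kernel) t u R

theorem sw_17_19 (t u : K) (R : GL chevD4.Idx K) : Xr 17 t * (Xr 19 u * R) = Xr 19 u * (Xr 17 t * (Xr 23 (u * t) * R)) :=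
  sw_pos (pos_all _ (by simp)) (pos_all _ (by simp)) (by decide) (by decide +kernel) t u R

theorem sw_17_16 (t u : K) (R : GL chevD4.Idx K) : Xr 17 t * (Xr 16 u * R) = Xr 16 u * (Xr 17 t * R) :=
  sw_nil (pos_all _ (by simp)) (pos_all _ (by simp)) (by decide) (by decide +kernel) t u R

theorem sw_17_15 (t u : K) (R : GL chevD4.Idx K) : Xr 17 t * (Xr 15 u * R) = Xr 15 u * (Xr 17 t * R) :=
  sw_nil (pos_all _ (by simp)) (pos_all _ (by simp)) (by decide) (by decide +kernel) t u R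

theorem sw_20_18 (t u : K) (R : GL chevD4.Idx K) : Xr 20 t * (Xr 18 u * R) = Xr 18 u * (Xr 20 t * R) :=
  sw_nil (pos_all _ (by simp)) (pos_all _ (by simp)) (by decide) (by decide +kernel) t u R

theorem sw_20_13 (t u : K) (R : GL chevD4.Idx K) : Xr 20 t * (Xr 13 u * R) = Xr 13 u * (Xr 20 t * (Xr 22 (-(u * t)) * R)) :=
  sw_neg (pos_all _ (by simp)) (pos_all _ (by simp)) (by decide) (by decide +kernel) t u R

theorem sw_20_12 (t u : K) (R : GL chevD4.Idx K) : Xr 20 t * (Xr 12 u * R) = Xr 12 u * (Xr 20 t * R) :=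
  sw_nil (pos_all _ (by simp)) (pos_all _ (by simp)) (by decide) (by decide +kernel) t u R

theorem sw_20_14 (t u : K) (R : GL chevD4.Idx K) : Xr 20 t * (Xr 14 u * R) = Xr 14 u * (Xr 20 t * R) :=
  sw_nil (pos_all _ (by simp)) (pos_all _ (by simp)) (by decide) (by decide +kernel) t u R

theorem sw_20_19 (t u : K) (R : GL chevD4.Idx K) : Xr 20 t * (Xr 19 u * R) = Xr 19 u * (Xr 20 t * R) :=
  sw_nil (pos_all _ (by simp)) (pos_all _ (by simp)) (by decide) (by decide +kernel) t u R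

theorem sw_20_16 (t u : K) (R : GL chevD4.Idx K) : Xr 20 t * (Xr 16 u * R) = Xr 16 u * (Xr 20 t * (Xr 23 (u * t) * R)) :=
  sw_pos (pos_all _ (by simp)) (pos_all _ (by simp)) (by decide) (by decide +kernel) t u R

theorem sw_20_15 (t u : K) (R : GL chevD4.Idx K) : Xr 20 t * (Xr 15 u * R) = Xr 15 u * (Xr 20 t * R) :=
  sw_nil (pos_all _ (by simp)) (pos_all _ (by simp)) (by decide) (by decide +kernel) t u R

theorem sw_20_17 (t u : K) (R : GL chevD4.Idx K) : Xr 20 t * (Xr 17 u * R) = Xr 17 u * (Xr 20 t * R) :=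
  sw_nil (pos_all _ (by simp)) (pos_all _ (by simp)) (by decide) (by decide +kernel) t u R

theorem sw_21_18 (t u : K) (R : GL chevD4.Idx K) : Xr 21 t * (Xr 18 u * R) = Xr 18 u * (Xr 21 t * R) :=
  sw_nil (pos_all _ (by simp)) (pos_all _ (by simp)) (by decide) (by decide +kernel) t u R

theorem sw_21_13 (t u : K) (R : GL chevD4.Idx K) : Xr 21 t * (Xr 13 u * R) = Xr 13 u * (Xr 21 t * R) :=
  sw_nil (pos_all _ (by simp)) (pos_all _ (by simp)) (by decide) (by decide +kernel) t u R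

theorem sw_21_12 (t u : K) (R : GL chevD4.Idx K) : Xr 21 t * (Xr 12 u * R) = Xr 12 u * (Xr 21 t * (Xr 22 (-(u * t)) * R)) :=
  sw_neg (pos_all _ (by simp)) (pos_all _ (by simp)) (by decide) (by decide +kernel) t u R

theorem sw_21_14 (t u : K) (R : GL chevD4.Idx K) : Xr 21 t * (Xr 14 u * R) = Xr 14 u * (Xr 21 t * R) :=
  sw_nil (pos_all _ (by simp)) (pos_all _ (by simp)) (by decide) (by decide +kernel) t u R

theorem sw_21_19 (t u : K) (R : GL chevD4.Idx K) : Xr 21 t * (Xr 19 u * R) = Xr 19 u * (Xr 21 t * R) :=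
  sw_nil (pos_all _ (by simp)) (pos_all _ (by simp)) (by decide) (by decide +kernel) t u R

theorem sw_21_16 (t u : K) (R : GL chevD4.Idx K) : Xr 21 t * (Xr 16 u * R) = Xr 16 u * (Xr 21 t * R) :=
  sw_nil (pos_all _ (by simp)) (pos_all _ (by simp)) (by decide) (by decide +kernel) t u R

theorem sw_21_15 (t u : K) (R : GL chevD4.Idx K) : Xr 21 t * (Xr 15 u * R) = Xr 15 u * (Xr 21 t * (Xr 23 (u * t) * R)) :=
  sw_pos (pos_all _ (by simp)) (pos_all _ (by simp)) (by decide) (by decide +kernel) t u R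

theorem sw_21_17 (t u : K) (R : GL chevD4.Idx K) : Xr 21 t * (Xr 17 u * R) = Xr 17 u * (Xr 21 t * R) :=
  sw_nil (pos_all _ (by simp)) (pos_all _ (by simp)) (by decide) (by decide +kernel) t u R

theorem sw_21_20 (t u : K) (R : GL chevD4.Idx K) : Xr 21 t * (Xr 20 u * R) = Xr 20 u * (Xr 21 t * R) :=
  sw_nil (pos_all _ (by simp)) (pos_all _ (by simp)) (by decide) (by decide +kernel) t u R

theorem sw_22_18 (t u : K) (R : GL chevD4.Idx K) : Xr 22 t * (Xr 18 u * R) = Xr 18 u * (Xr 22 t * R) :=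
  sw_nil (pos_all _ (by simp)) (pos_all _ (by simp)) (by decide) (by decide +kernel) t u R

theorem sw_22_13 (t u : K) (R : GL chevD4.Idx K) : Xr 22 t * (Xr 13 u * R) = Xr 13 u * (Xr 22 t * R) :=
  sw_nil (pos_all _ (by simp)) (pos_all _ (by simp)) (by decide) (by decide +kernel) t u R

theorem sw_22_12 (t u : K) (R : GL chevD4.Idx K) : Xr 22 t * (Xr 12 u * R) = Xr 12 u * (Xr 22 t * R) :=
  sw_nil (pos_all _ (by simp)) (pos_all _ (by simp)) (by decide) (by decide +kernel) t u R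

theorem sw_22_14 (t u : K) (R : GL chevD4.Idx K) : Xr 22 t * (Xr 14 u * R) = Xr 14 u * (Xr 22 t * (Xr 23 (-(u * t)) * R)) :=
  sw_neg (pos_all _ (by simp)) (pos_all _ (by simp)) (by decide) (by decide +kernel) t u R

theorem sw_22_19 (t u : K) (R : GL chevD4.Idx K) : Xr 22 t * (Xr 19 u * R) = Xr 19 u * (Xr 22 t * R) :=
  sw_nil (pos_all _ (by simp)) (pos_all _ (by simp)) (by decide) (by decide +kernel) t u R

theorem sw_22_16 (t u : K) (R : GL chevD4.Idx K) : Xr 22 t * (Xr 16 u * R) = Xr 16 u * (Xr 22 t * R) :=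
  sw_nil (pos_all _ (by simp)) (pos_all _ (by simp)) (by decide) (by decide +kernel) t u R

theorem sw_22_15 (t u : K) (R : GL chevD4.Idx K) : Xr 22 t * (Xr 15 u * R) = Xr 15 u * (Xr 22 t * R) :=
  sw_nil (pos_all _ (by simp)) (pos_all _ (by simp)) (by decide) (by decide +kernel) t u R

theorem sw_22_17 (t u : K) (R : GL chevD4.Idx K) : Xr 22 t * (Xr 17 u * R) = Xr 17 u * (Xr 22 t * R) :=
  sw_nil (pos_all _ (by simp)) (pos_all _ (by simp)) (by decide) (by decide +kernel) t u R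

theorem sw_22_20 (t u : K) (R : GL chevD4.Idx K) : Xr 22 t * (Xr 20 u * R) = Xr 20 u * (Xr 22 t * R) :=
  sw_nil (pos_all _ (by simp)) (pos_all _ (by simp)) (by decide) (by decide +kernel) t u R

theorem sw_22_21 (t u : K) (R : GL chevD4.Idx K) : Xr 22 t * (Xr 21 u * R) = Xr 21 u * (Xr 22 t * R) :=
  sw_nil (pos_all _ (by simp)) (pos_all _ (by simp)) (by decide) (by decide +kernel) t u R

theorem sw_23_18 (t u : K) (R : GL chevD4.Idx K) : Xr 23 t * (Xr 18 u * R) = Xr 18 u * (Xr 23 t * R) :=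
  sw_nil (pos_all _ (by simp)) (pos_all _ (by simp)) (by decide) (by decide +kernel) t u R

theorem sw_23_13 (t u : K) (R : GL chevD4.Idx K) : Xr 23 t * (Xr 13 u * R) = Xr 13 u * (Xr 23 t * R) :=
  sw_nil (pos_all _ (by simp)) (pos_all _ (by simp)) (by decide) (by decide +kernel) t u R

theorem sw_23_12 (t u : K) (R : GL chevD4.Idx K) : Xr 23 t * (Xr 12 u * R) = Xr 12 u * (Xr 23 t * R) :=
  sw_nil (pos_all _ (by simp)) (pos_all _ (by simp)) (by decide) (by decide +kernel) t u R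

theorem sw_23_14 (t u : K) (R : GL chevD4.Idx K) : Xr 23 t * (Xr 14 u * R) = Xr 14 u * (Xr 23 t * R) :=
  sw_nil (pos_all _ (by simp)) (pos_all _ (by simp)) (by decide) (by decide +kernel) t u R

theorem sw_23_19 (t u : K) (R : GL chevD4.Idx K) : Xr 23 t * (Xr 19 u * R) = Xr 19 u * (Xr 23 t * R) :=
  sw_nil (pos_all _ (by simp)) (pos_all _ (by simp)) (by decide) (by decide +kernel) t u R

theorem sw_23_16 (t u : K) (R : GL chevD4.Idx K) : Xr 23 t * (Xr 16 u * R) = Xr 16 u * (Xr 23 t * R) :=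
  sw_nil (pos_all _ (by simp)) (pos_all _ (by simp)) (by decide) (by decide +kernel) t u R

theorem sw_23_15 (t u : K) (R : GL chevD4.Idx K) : Xr 23 t * (Xr 15 u * R) = Xr 15 u * (Xr 23 t * R) :=
  sw_nil (pos_all _ (by simp)) (pos_all _ (by simp)) (by decide) (by decide +kernel) t u R

theorem sw_23_17 (t u : K) (R : GL chevD4.Idx K) : Xr 23 t * (Xr 17 u * R) = Xr 17 u * (Xr 23 t * R) :=
  sw_nil (pos_all _ (by simp)) (pos_all _ (by simp)) (by decide) (by decide +kernel) t u R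

theorem sw_23_20 (t u : K) (R : GL chevD4.Idx K) : Xr 23 t * (Xr 20 u * R) = Xr 20 u * (Xr 23 t * R) :=
  sw_nil (pos_all _ (by simp)) (pos_all _ (by simp)) (by decide) (by decide +kernel) t u R

theorem sw_23_21 (t u : K) (R : GL chevD4.Idx K) : Xr 23 t * (Xr 21 u * R) = Xr 21 u * (Xr 23 t * R) :=
  sw_nil (pos_all _ (by simp)) (pos_all _ (by simp)) (by decide) (by decide +kernel) t u R

theorem sw_23_22 (t u : K) (R : GL chevD4.Idx K) : Xr 23 t * (Xr 22 u * R) = Xr 22 u * (Xr 23 t * R) :=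
  sw_nil (pos_all _ (by simp)) (pos_all _ (by simp)) (by decide) (by decide +kernel) t u R

/-- The normal form of an element of the unipotent subgroup of `³D₄(q)`. -/
noncomputable def pr (φ : K →+* K) (a b c d e f : K) : GL chevD4.Idx K :=
  Xr 18 a * (Xr 13 (φ a) * (Xr 12 (φ (φ a)) * (Xr 14 b * (Xr 19 c * (Xr 16 (-(φ c)) * (Xr 15 (-(φ (φ c))) *
    (Xr 17 d * (Xr 20 (-(φ d)) * (Xr 21 (-(φ (φ d))) * (Xr 22 e * (Xr 23 f * 1)))))))))))

theorem pr_congr {φ : K →+* K} {a b c d e f a' b' c' d' e' f' : K} (h1 : a = a') (h2 : b = b') (h3 : c = c')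
    (h4 : d = d') (h5 : e = e') (h6 : f = f') : pr φ a b c d e f = pr φ a' b' c' d' e' f' := by
  rw [h1, h2, h3, h4, h5, h6]

/-- The polynomial of the last coordinate. -/
noncomputable def lawF (φ : K →+* K) (a b c d e f a' b' c' d' e' f' : K) : K :=
  (b * b * a' * (φ a') * (φ (φ a'))) + (b * c * (φ a') * (φ (φ a'))) + (b * (φ c) * a' * (φ (φ a'))) + (b * (φ (φ c)) * a' * (φ a')) + (-(b * a' * (φ a') * (φ (φ a')) * b')) + (b * a' * (φ a') * (φ (φ c'))) + (b * a' * (φ (φ a')) * (φ c')) + (b * (φ a') * (φ (φ a')) * c') + (c * (φ c) * (φ (φ a'))) + (c * (φ (φ c)) * (φ a')) + (-(c * (φ a') * (φ (φ a')) * b')) + (c * (φ a') * (φ (φ c'))) + (c * (φ (φ a')) * (φ c')) + ((φ c) * (φ (φ c)) * a') + (-((φ c) * a' * (φ (φ a')) * b')) + ((φ c) * a' * (φ (φ c'))) + ((φ c) * (φ (φ a')) * c') + (-((φ (φ c)) * a' * (φ a') * b')) + ((φ (φ c)) * a' * (φ c')) + ((φ (φ c)) * (φ a') * c') + (-(d * a' * b')) + (d * c') + (-((φ d) * (φ a') * b'))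 + ((φ d) * (φ c')) + (-((φ (φ d)) * (φ (φ a')) * b')) + ((φ (φ d)) * (φ (φ c'))) + (-(e * b')) + (f) + (f')

/-- The polynomial of the fifth coordinate. -/
noncomputable def lawE (φ : K →+* K) (a b c d e a' b' c' d' e' : K) : K :=
  (b * a' * (φ a') * (φ (φ a'))) + (c * (φ a') * (φ (φ a'))) + ((φ c) * a' * (φ (φ a'))) + ((φ (φ c)) * a' * (φ a')) + (d * a') + ((φ d) * (φ a')) + ((φ (φ d)) * (φ (φ a'))) + (e) + (e')

/-- The polynomial of the fourth coordinate. -/
noncomputable def lawD (φ : K →+* K) (b c d a' d' : K) : K :=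
  (b * (φ a') * (φ (φ a'))) + ((φ c) * (φ (φ a'))) + ((φ (φ c)) * (φ a')) + (d) + (d')

/-- The group law. -/
theorem pr_mul (φ : K →+* K) (hφ3 : ∀ t, φ (φ (φ t)) = t) {b : K} (hb : φ b = b) (a c d e f a' b' c' d' e' f' : K) :
    pr φ a b c d e f * pr φ a' b' c' d' e' f' =
      pr φ (a + a') (b + b') (c + c' + b * a') (lawD φ b c d a' d') (lawE φ a b c d e a' b' c' d' e')
        (lawF φ a b c d e f a' b' c' d' e' f') := by
  unfold pr lawD lawE lawF
  simp only [mul_assoc, one_mul, mg, sw_13_18, sw_12_18, sw_12_13, sw_14_18, sw_14_13, sw_14_12, sw_19_18, sw_19_13, sw_19_12, sw_19_14, sw_16_18, sw_16_13, sw_16_12, sw_16_14, sw_16_19, sw_15_18, sw_15_13, sw_15_12, sw_15_14, sw_15_19, sw_15_16, sw_17_18, sw_17_13, sw_17_12, sw_17_14, sw_17_19, sw_17_16, sw_17_15, sw_20_18, sw_20_13, sw_20_12, sw_20_14, sw_20_19, sw_20_16, sw_20_15, sw_20_17, sw_21_18, sw_21_13, sw_21_12, sw_21_14, sw_21_19, sw_21_16, sw_21_15, sw_21_17, sw_21_20,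 sw_22_18, sw_22_13, sw_22_12, sw_22_14, sw_22_19, sw_22_16, sw_22_15, sw_22_17, sw_22_20, sw_22_21, sw_23_18, sw_23_13, sw_23_12, sw_23_14, sw_23_19, sw_23_16, sw_23_15, sw_23_17, sw_23_20, sw_23_21, sw_23_22]
  refine cX ?_ (cX ?_ (cX ?_ (cX ?_ (cX ?_ (cX ?_ (cX ?_ (cX ?_ (cX ?_ (cX ?_ (cX ?_ (cX ?_ rfl)))))))))))
  all_goals (try simp only [map_add, map_mul, map_neg, map_sub, hb, hφ3])
  all_goals ring

end Cfsg.Agent.Lib.Tw3D4Max
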