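import Cfsg.Agent.Lib.Tw3D4Max.Cent
import Cfsg.Agent.Lib.ChevBN.GraphFixD4
import Cfsg.Agent.Lib.ChevOrder.Cert.G2
import Cfsg.Agent.Lib.Chevalley.Tbl.G2Sys

/-!
# The rational points of `³D₄(q)` have at least `|G₂(q)|` elements
-/

set_option autoImplicit false
set_option maxRecDepth 1000000
set_option linter.unusedSectionVars false
set_option linter.unusedVariables false
set_option linter.unusedSimpArgs false

namespace Cfsg.Agent.Lib.Tw3D4Max

open Cfsg.Lie Cfsg.Agent.Lib.ChevBN.Elem Cfsg.Agent.Lib.ChevBN.Table Cfsg.Agent.Lib.ChevBN.Rel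
open Cfsg.Agent.Lib.ChevBN.FastData Cfsg.Agent.Lib.ChevBN.Collect Cfsg.Agent.Lib.ChevBN.Opp
open Cfsg.Agent.Lib.Twisted Cfsg.Agent.Lib.Twisted.D4
open Cfsg.Agent.Lib.Chevalley.Tbl.D4 (sys)
open Cfsg.Agent.Lib.ChevBN.Fix Cfsg.Agent.Lib.Chevalley.Graph Cfsg.Agent.Lib.Chevalley.Reflect
open Cfsg.Agent.Lib.ChevBN.GraphFixChk Cfsg.Agent.Lib.ChevBN.GraphFixD4

variable {K : Type*} [Field K]

set_option quotPrecheck false in
/-- The root elements. -/
local notation "Xr" => X (sys (F := _)).toAddRel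

/-- The rational points of the twisted group. -/
noncomputable def MM (q : ℕ) (φ : K →+* K) : Subgroup (GL chevD4.Idx K) :=
  twistedD4 K q ⊓ (mapG chevD4 φ).eqLocus (MonoidHom.id _)

theorem mem_MM {q : ℕ} {φ : K →+* K} {g : GL chevD4.Idx K} :
    g ∈ MM q φ ↔ g ∈ twistedD4 K q ∧ mapG chevD4 φ g = g := Iff.rfl

/-- The intertwiner. -/
noncomputable abbrev JJ (K : Type*) [Field K] : Matrix chevD4.Idx chevG2.Idx K := rMat chevD4 chevG2 K (Tr.find [] JT)

/-- Its left inverse. -/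
noncomputable abbrev JJ0 (K : Type*) [Field K] : Matrix chevG2.Idx chevD4.Idx K := rMat chevG2 chevD4 K (Tr.find [] J0T)

set_option quotPrecheck false in
/-- The product of matrices. -/
local infixl:70 " ⋆ " => @HMul.hMul _ _ _ Matrix.instHMulOfFintypeOfMulOfAddCommMonoid

theorem JJ_left : JJ0 K ⋆ JJ K = 1 := rMat_left_inv Jf_ok J0f_ok J0_check

theorem JJ_conj {r : ℕ} (hr : r < chevG2.nroots) (t : K) :
    chevD4.wordMat K ((Tr.find [] OlT r).map fun p => (p, ((Tr.find 0 κT p : ℤ) : K) * t)) ⋆ JJ K =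
      JJ K ⋆ chevG2.x K r t :=
  rMat_conj Chevalley.Tbl.D4.colOK Chevalley.Tbl.G2.colOK Jf_ok J_check
    (fun r hr q hq => ((good_of_B tab₁_B).Ol_spec r hr q hq).1) hr t

section Lift

variable {q : ℕ} {φ : K →+* K} (hφ : ∀ t, φ t = t ^ q)

include hφ

theorem gen_p0 {t : K} (ht : φ t = t) :
    ∃ a ∈ MM q φ, (a : Matrix chevD4.Idx chevD4.Idx K) ⋆ JJ K = JJ K ⋆ chevG2.x K (chevG2.simple 0) t := by
  refine ⟨w3 φ 18 13 12 t, ⟨w3p_mem hφ t, ?_⟩, ?_⟩
  · show mapG chevD4 φ _ = _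
    simp only [w3, map_mul, map_one, mapG_X φ (sys (F := K)).toAddRel (sys (F := K)).toAddRel, ht, MonoidHom.id_apply]
  · have h := JJ_conj (K := K) (r := chevG2.simple 0) (by decide +kernel) t
    rw [(by decide +kernel : Tr.find [] OlT (chevG2.simple 0) = [18, 13, 12])] at h
    rw [← h]
    congr 1
    rw [← coe_W (sys (F := K)).toAddRel]
    congr 1
    simp [W, w3, ht, (by decide +kernel : Tr.find 0 κT 18 = 1), (by decide +kernel : Tr.find 0 κT 13 = 1),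
      (by decide +kernel : Tr.find 0 κT 12 = 1)]

theorem gen_n0 {t : K} (ht : φ t = t) :
    ∃ a ∈ MM q φ, (a : Matrix chevD4.Idx chevD4.Idx K) ⋆ JJ K = JJ K ⋆ chevG2.x K (chevG2.neg (chevG2.simple 0)) t := by
  refine ⟨w3 φ 5 10 11 t, ⟨w3n_mem hφ t, ?_⟩, ?_⟩
  · show mapG chevD4 φ _ = _
    simp only [w3, map_mul, map_one, mapG_X φ (sys (F := K)).toAddRel (sys (F := K)).toAddRel, ht, MonoidHom.id_apply]
  · have h := JJ_conj (K := K) (r := chevG2.neg (chevG2.simple 0)) (by decide +kernel) t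
    rw [(by decide +kernel : Tr.find [] OlT (chevG2.neg (chevG2.simple 0)) = [5, 10, 11])] at h
    rw [← h]
    congr 1
    rw [← coe_W (sys (F := K)).toAddRel]
    congr 1
    simp [W, w3, ht, (by decide +kernel : Tr.find 0 κT 5 = 1), (by decide +kernel : Tr.find 0 κT 10 = 1),
      (by decide +kernel : Tr.find 0 κT 11 = 1)]

theorem gen_p1 {t : K} (ht : φ t = t) :
    ∃ a ∈ MM q φ, (a : Matrix chevD4.Idx chevD4.Idx K) ⋆ JJ K = JJ K ⋆ chevG2.x K (chevG2.simple 1) t := by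
  refine ⟨Xr 14 t, ⟨X14_mem hφ ht, ?_⟩, ?_⟩
  · show mapG chevD4 φ _ = _
    simp only [mapG_X φ (sys (F := K)).toAddRel (sys (F := K)).toAddRel, ht, MonoidHom.id_apply]
  · have h := JJ_conj (K := K) (r := chevG2.simple 1) (by decide +kernel) t
    rw [(by decide +kernel : Tr.find [] OlT (chevG2.simple 1) = [14])] at h
    rw [← h]
    congr 1
    rw [← coe_W (sys (F := K)).toAddRel]
    congr 1
    simp [W, (by decide +kernel : Tr.find 0 κT 14 = 1)]

theorem gen_n1 {t : K} (ht : φ t = t) :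
    ∃ a ∈ MM q φ, (a : Matrix chevD4.Idx chevD4.Idx K) ⋆ JJ K = JJ K ⋆ chevG2.x K (chevG2.neg (chevG2.simple 1)) t := by
  refine ⟨Xr 9 t, ⟨X9_mem hφ ht, ?_⟩, ?_⟩
  · show mapG chevD4 φ _ = _
    simp only [mapG_X φ (sys (F := K)).toAddRel (sys (F := K)).toAddRel, ht, MonoidHom.id_apply]
  · have h := JJ_conj (K := K) (r := chevG2.neg (chevG2.simple 1)) (by decide +kernel) t
    rw [(by decide +kernel : Tr.find [] OlT (chevG2.neg (chevG2.simple 1)) = [9])] at h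
    rw [← h]
    congr 1
    rw [← coe_W (sys (F := K)).toAddRel]
    congr 1
    simp [W, (by decide +kernel : Tr.find 0 κT 9 = 1)]

theorem exists_lift' {F₀ : Subfield K} (hF : ∀ x ∈ F₀, φ x = x) {b : GL chevG2.Idx F₀}
    (hb' : b ∈ Chevalley.SimpleGen.simpleGen chevG2 F₀) :
    ∃ a ∈ MM q φ, (a : Matrix chevD4.Idx chevD4.Idx K) ⋆ JJ K =
      JJ K ⋆ ((mapG chevG2 F₀.subtype b : GL chevG2.Idx K) : Matrix chevG2.Idx chevG2.Idx K) := by
  induction hb' using Subgroup.closure_induction with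
  | mem g hg =>
    obtain ⟨i, t, h⟩ := hg
    have ht : φ (F₀.subtype t) = F₀.subtype t := hF _ t.2
    have hi : i.val = 0 ∨ i.val = 1 := by
      have hi' : i.val < 2 := i.isLt
      omega
    rcases h with h | h <;> rw [coe_mapG, h, map_x] <;> rcases hi with hi | hi <;> rw [hi]
    · exact gen_p0 hφ ht
    · exact gen_p1 hφ ht
    · exact gen_n0 hφ ht
    · exact gen_n1 hφ ht
  | one =>
    refine ⟨1, Subgroup.one_mem _, ?_⟩
    rw [map_one, Units.val_one, Units.val_one, Matrix.one_mul, Matrix.mul_one]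
  | mul x y hx hy ihx ihy =>
    obtain ⟨a, ha, h1⟩ := ihx
    obtain ⟨a', ha', h2⟩ := ihy
    refine ⟨a * a', Subgroup.mul_mem _ ha ha', ?_⟩
    rw [map_mul, Units.val_mul, Units.val_mul, Matrix.mul_assoc, h2, ← Matrix.mul_assoc, h1, Matrix.mul_assoc]
  | inv x hx ih =>
    obtain ⟨a, ha, h1⟩ := ih
    refine ⟨a⁻¹, Subgroup.inv_mem _ ha, ?_⟩
    rw [map_inv]
    set b := mapG chevG2 F₀.subtype x with hb
    calc ((a⁻¹ : GL chevD4.Idx K) : Matrix chevD4.Idx chevD4.Idx K) ⋆ JJ K =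
          ((a⁻¹ : GL chevD4.Idx K) : Matrix chevD4.Idx chevD4.Idx K) ⋆ JJ K ⋆
            ((b : Matrix chevG2.Idx chevG2.Idx K) * ((b⁻¹ : GL chevG2.Idx K) : Matrix chevG2.Idx chevG2.Idx K)) := by
          rw [Units.mul_inv, Matrix.mul_one]
      _ = ((a⁻¹ : GL chevD4.Idx K) : Matrix chevD4.Idx chevD4.Idx K) ⋆ (JJ K ⋆ (b : Matrix chevG2.Idx chevG2.Idx K)) ⋆
            ((b⁻¹ : GL chevG2.Idx K) : Matrix chevG2.Idx chevG2.Idx K) := by
          simp only [Matrix.mul_assoc]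
      _ = ((a⁻¹ : GL chevD4.Idx K) : Matrix chevD4.Idx chevD4.Idx K) ⋆ ((a : Matrix chevD4.Idx chevD4.Idx K) ⋆ JJ K) ⋆
            ((b⁻¹ : GL chevG2.Idx K) : Matrix chevG2.Idx chevG2.Idx K) := by rw [h1]
      _ = _ := by
          rw [← Matrix.mul_assoc _ _ (JJ K), Units.inv_mul, Matrix.one_mul]

/-- The order of the rational points. -/
theorem card_MM [Fintype K] (hq : IsPrimePow q) (hK : Fintype.card K = q ^ 3) :
    q ^ 6 * (q ^ 2 - 1) * (q ^ 6 - 1) ≤ Nat.card ↥(MM q φ) := by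
  classical
  let F₀ : Subfield K := RingHom.eqLocusField φ (RingHom.id K)
  have hF : ∀ x ∈ F₀, φ x = x := fun x hx => hx
  have hcard : Nat.card F₀ = q := by
    rw [← card_fixed_pow hq.two_le hK]
    refine Nat.card_congr (Equiv.subtypeEquivRight fun x => ?_)
    rw [← hφ]
    exact Iff.rfl
  have hord := Cfsg.Agent.Lib.ChevOrder.Cert.G2.order tbl_chevG2 (Chevalley.Tbl.G2.sys (F := F₀)) hcard
  rw [one_mul] at hord
  rw [← hord]
  have hlift : ∀ b : ↥(chevG2.group F₀), ∃ a : ↥(MM q φ), (a.1 : Matrix chevD4.Idx chevD4.Idx K) ⋆ JJ K =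
      JJ K ⋆ ((mapG chevG2 F₀.subtype b.1 : GL chevG2.Idx K) : Matrix chevG2.Idx chevG2.Idx K) := by
    intro b
    obtain ⟨a, ha, h⟩ := exists_lift' hφ hF (Chevalley.SimpleGen.group_le (Chevalley.Tbl.G2.sys (F := F₀)) tbl_chevG2 b.2)
    exact ⟨⟨a, ha⟩, h⟩
  choose f hf using hlift
  apply Nat.card_le_card_of_injective f
  intro b b' hbb
  have e : ∀ b : ↥(chevG2.group F₀), ((mapG chevG2 F₀.subtype b.1 : GL chevG2.Idx K) : Matrix chevG2.Idx chevG2.Idx K) =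
      JJ0 K ⋆ ((f b).1 : Matrix chevD4.Idx chevD4.Idx K) ⋆ JJ K := by
    intro b
    rw [Matrix.mul_assoc, hf b, ← Matrix.mul_assoc, JJ_left, Matrix.one_mul]
  have e2 : ((mapG chevG2 F₀.subtype b.1 : GL chevG2.Idx K) : Matrix chevG2.Idx chevG2.Idx K) =
      ((mapG chevG2 F₀.subtype b'.1 : GL chevG2.Idx K) : Matrix chevG2.Idx chevG2.Idx K) := by
    rw [e b, e b', hbb]
  have e3 : mapG chevG2 F₀.subtype b.1 = mapG chevG2 F₀.subtype b'.1 := Units.ext e2
  exact Subtype.ext (mapG_inj _ F₀.subtype_injective e3)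

end Lift

end Cfsg.Agent.Lib.Tw3D4Max
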