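import Cfsg.Agent.Lib.Tw3D4Max.Act
import Cfsg.Agent.Lib.ChevBN.RootCent

/-!
# Stabilisers in the subgroup of entries in the small field of `³D₄(q)`
-/

set_option autoImplicit false
set_option maxRecDepth 1000000
set_option linter.unusedSectionVars false
set_option linter.unusedVariables false
set_option linter.unusedSimpArgs false

namespace Cfsg.Agent.Lib.Tw3D4Max

open Cfsg.Lie Cfsg.Agent.Lib.ChevBN.Elem Cfsg.Agent.Lib.ChevBN.Table Cfsg.Agent.Lib.ChevBN.Rel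
open Cfsg.Agent.Lib.ChevBN.FastData Cfsg.Agent.Lib.ChevBN.Collect Cfsg.Agent.Lib.ChevBN.Opp
open Cfsg.Agent.Lib.Twisted Cfsg.Agent.Lib.Twisted.D4
open Cfsg.Agent.Lib.Chevalley.Tbl.D4 (sys)
open Cfsg.Agent.Lib.Tw3D4 (pos_all)
open Cfsg.Agent.Lib.Chevalley.Reflect
open Cfsg.Agent.Lib.ChevBN.Monomial Cfsg.Agent.Lib.ChevBN.Pair Cfsg.Agent.Lib.ChevBN.Torus
open Cfsg.Agent.Lib.ChevBN.Core Cfsg.Agent.Lib.ChevBN.Stmts
open Cfsg.Agent.Lib.ChevOrder.Chev Cfsg.Agent.Lib.BNPair.Basic Cfsg.Agent.Lib.BNPair.Parabolic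
open Cfsg.Agent.Lib.ChevBN.BruhatForm Cfsg.Agent.Lib.ChevBN.Fix

variable {K : Type*} [Field K]

set_option quotPrecheck false in
/-- The root elements. -/
local notation "Xr" => X (sys (F := _)).toAddRel

section Torus

variable {φ : K →+* K} {T : Tw (sys (F := K)).toAddRel} (hρ : T.ρ = ρ0)
  (hτ : ∀ r t, T.τ r t = ((ε0 r : ℤ) : K) * φ t) (hφ3 : ∀ t, φ (φ (φ t)) = t)

include hρ hτ in
/-- The characters of a fixed element of `H`. -/
theorem H_data {h : GL chevD4.Idx K} (hh : h ∈ chevD4.diagonalSubgroup K) (hs : T.s h = h) :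
    ∃ κ : ℕ → K, (∀ r, κ r ≠ 0) ∧ (∀ r, chevD4.IsPosRoot r → κ (ρ0 r) = φ (κ r)) ∧
      ∀ r < chevD4.nroots, ∀ t : K, h * Xr r t * h⁻¹ = Xr r (κ r * t) := by
  obtain ⟨κ, h0, -, h2⟩ := exists_of_mem_H sys tbl_chevD4 hh
  refine ⟨κ, h0, ?_, h2⟩
  intro r hr
  have hG := H_le_G sys tbl_chevD4 hh
  have hxG : Xr r (1 : K) ∈ chevD4.group K := Tw.X_mem_group hr.1 1
  have e1 := congrArg T.s (h2 r hr.1 1)
  rw [T.s_mul _ (Subgroup.mul_mem _ hG hxG) _ (Subgroup.inv_mem _ hG), T.s_mul _ hG _ hxG, T.s_inv hG, hs,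
    T.s_X r hr.1, T.s_X r hr.1, h2 _ (T.ρ_lt r hr.1)] at e1
  have e2 := X_inj sys tbl_chevD4 (T.ρ_pos r hr) e1
  rw [hτ, hτ, hρ] at e2
  simp only [mul_one, map_one] at e2
  have hε : ((ε0 r : ℤ) : K) ≠ 0 := by
    rcases eps_all r hr.1 with h | h <;> rw [h] <;> simp
  exact mul_right_cancel₀ hε (by rw [e2, mul_comm])

theorem H_rat {h : GL chevD4.Idx K} (hf : mapG chevD4 φ h = h) {κ : ℕ → K}
    (h2 : ∀ r < chevD4.nroots, ∀ t : K, h * Xr r t * h⁻¹ = Xr r (κ r * t)) {r : ℕ} (hr : chevD4.IsPosRoot r) :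
    φ (κ r) = κ r := by
  have e1 := congrArg (mapG chevD4 φ) (h2 r hr.1 1)
  rw [map_mul, map_mul, map_inv, hf, mapG_X φ (sys (F := K)).toAddRel (sys (F := K)).toAddRel,
    mapG_X φ (sys (F := K)).toAddRel (sys (F := K)).toAddRel, map_one, h2 r hr.1] at e1
  have e2 := X_inj sys tbl_chevD4 hr e1
  simp only [mul_one, map_mul, map_one] at e2
  exact e2.symm

include hφ3 in
/-- The action of a fixed element of `H` on `zz`. -/
theorem h_zz {h : GL chevD4.Idx K} {κ : ℕ → K} (h1 : ∀ r, chevD4.IsPosRoot r → κ (ρ0 r) = φ (κ r))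
    (h2 : ∀ r < chevD4.nroots, ∀ t : K, h * Xr r t * h⁻¹ = Xr r (κ r * t)) {s : K} (hs : φ s = s) (μ : K) :
    h * zz φ μ s * h⁻¹ = zz φ (κ 18 * μ) (κ 14 * s) := by
  have c : ∀ r < chevD4.nroots, ∀ t : K, MulAut.conj h (Xr r t) = Xr r (κ r * t) := fun r hr t => by
    rw [MulAut.conj_apply, h2 r hr t]
  have k13 : κ 13 = φ (κ 18) := by
    rw [← h1 18 (pos_all _ (by simp)), (by decide +kernel : ρ0 18 = 13)]
  have k12 : κ 12 = φ (φ (κ 18)) := by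
    rw [← k13, ← h1 13 (pos_all _ (by simp)), (by decide +kernel : ρ0 13 = 12)]
  have k14 : φ (κ 14) = κ 14 := by
    rw [← h1 14 (pos_all _ (by simp)), (by decide +kernel : ρ0 14 = 14)]
  have hs' : φ (κ 14 * s) = κ 14 * s := by rw [map_mul, k14, hs]
  have hx : ∀ a : K, MulAut.conj h (xh φ a) = xh φ (κ 18 * a) := by
    intro a
    simp only [pr, map_zero, neg_zero, X_zero, one_mul, map_mul, map_one, mul_one]
    rw [c 18 (by decide +kernel), c 13 (by decide +kernel), c 12 (by decide +kernel), k13, k12]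
  rw [← zz_eq hφ3 hs, ← zz_eq hφ3 hs', ← MulAut.conj_apply, map_mul, map_mul, map_inv, hx, c 14 (by decide +kernel)]

include hφ3 in
/-- The action of a fixed element of `U`. -/
theorem U_zz {b' s : K} (hb' : φ b' = b') (hs : φ s = s) (α c d e f μ δ : K) :
    ∃ δ', pr φ α b' c d e f * (zz φ μ s * Xr 23 δ) * (pr φ α b' c d e f)⁻¹ = zz φ (α + μ) s * Xr 23 δ' := by
  have h1 : ∃ t, pr φ 0 b' c d e f * zz φ μ s * (pr φ 0 b' c d e f)⁻¹ = zz φ μ s * Xr 23 t := by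
    unfold zz
    exact ⟨_, w_conj hφ3 hb' hs _ _ _ _ _ _ _ _⟩
  obtain ⟨t, ht⟩ := h1
  refine ⟨t + δ, ?_⟩
  rw [pr_split hφ3 α b' c d e f]
  have hc : pr φ 0 b' c d e f * Xr 23 δ = Xr 23 δ * pr φ 0 b' c d e f := X23_comm hφ3 hb' _ _ _ _ _ _
  have e1 : (xh φ α * pr φ 0 b' c d e f) * (zz φ μ s * Xr 23 δ) * (xh φ α * pr φ 0 b' c d e f)⁻¹ =
      xh φ α * ((pr φ 0 b' c d e f * zz φ μ s * (pr φ 0 b' c d e f)⁻¹) *
        ((pr φ 0 b' c d e f * Xr 23 δ) * (pr φ 0 b' c d e f)⁻¹)) * (xh φ α)⁻¹ := by group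
  rw [e1, ht, hc, mul_inv_cancel_right, mul_assoc (zz φ μ s), X_mul, xh_zz hφ3 hs]

include hφ3 in
/-- The action of a fixed element of `B`. -/
theorem B_zz {b' s : K} (hb' : φ b' = b') (hs : φ s = s) {h : GL chevD4.Idx K} {κ : ℕ → K}
    (h1 : ∀ r, chevD4.IsPosRoot r → κ (ρ0 r) = φ (κ r))
    (h2 : ∀ r < chevD4.nroots, ∀ t : K, h * Xr r t * h⁻¹ = Xr r (κ r * t)) (α c d e f μ δ : K) :
    ∃ δ', (pr φ α b' c d e f * h) * (zz φ μ s * Xr 23 δ) * (pr φ α b' c d e f * h)⁻¹ =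
      zz φ (α + κ 18 * μ) (κ 14 * s) * Xr 23 δ' := by
  have k14 : φ (κ 14) = κ 14 := by
    rw [← h1 14 (pos_all _ (by simp)), (by decide +kernel : ρ0 14 = 14)]
  have hs' : φ (κ 14 * s) = κ 14 * s := by rw [map_mul, k14, hs]
  obtain ⟨δ', he⟩ := U_zz hφ3 hb' hs' α c d e f (κ 18 * μ) (κ 23 * δ)
  refine ⟨δ', ?_⟩
  rw [← he]
  have e2 : (pr φ α b' c d e f * h) * (zz φ μ s * Xr 23 δ) * (pr φ α b' c d e f * h)⁻¹ =
      pr φ α b' c d e f * ((h * zz φ μ s * h⁻¹) * (h * Xr 23 δ * h⁻¹)) * (pr φ α b' c d e f)⁻¹ := by group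
  rw [e2, h_zz hφ3 h1 h2 hs, h2 23 (by decide +kernel)]

end Torus

/-- The conjugate of an element of `U` by an element of `B`. -/
theorem B_conj_U {b u : GL chevD4.Idx K} (hb : b ∈ chevD4.borelSubgroup K) (hu : u ∈ chevD4.posUnipotent K) :
    b * u * b⁻¹ ∈ chevD4.posUnipotent K := by
  obtain ⟨u₁, hu₁, h, hh, rfl⟩ := (mem_B_iff sys tbl_chevD4).1 hb
  have h1 := H_norm_U sys tbl_chevD4 hh hu
  have e2 : u₁ * h * u * (u₁ * h)⁻¹ = u₁ * (h * u * h⁻¹) * u₁⁻¹ := by group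
  rw [e2]
  exact Subgroup.mul_mem _ (Subgroup.mul_mem _ hu₁ h1) (Subgroup.inv_mem _ hu₁)

section Main

variable [Fintype K] {q : ℕ} {φ : K →+* K} {T : Tw (sys (F := K)).toAddRel}
  (hφ : ∀ t, φ t = t ^ q) (hφ3 : ∀ t, φ (φ (φ t)) = t) (hρ : T.ρ = ρ0)
  (hτ : ∀ r t, T.τ r t = ((ε0 r : ℤ) : K) * φ t)
  (I : Inst sys tbl_chevD4 T Js cl (twistedD4 K q))

theorem Na_W0 : (Na : GL chevD4.Idx K) ∈ W0 I :=
  Subgroup.subset_closure ⟨⟨[0, 2, 3], by simp [Js]⟩, rfl⟩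

theorem Nb_W0 : (Nb : GL chevD4.Idx K) ∈ W0 I :=
  Subgroup.subset_closure ⟨⟨[1], by simp [Js]⟩, rfl⟩

include hφ hφ3 hρ hτ I

/-- A fixed element of `B`, in coordinates. -/
theorem B_form (hq : IsPrimePow q) (hK : Fintype.card K = q ^ 3) {b : GL chevD4.Idx K}
    (hb : b ∈ chevD4.borelSubgroup K) (hs : T.s b = b) (hf : mapG chevD4 φ b = b) :
    ∃ (α b' c d e f : K) (h : GL chevD4.Idx K) (κ : ℕ → K), φ α = α ∧ φ b' = b' ∧ φ c = c ∧ φ d = d ∧ φ e = e ∧ φ f = f ∧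
      h ∈ chevD4.diagonalSubgroup K ∧ T.s h = h ∧ mapG chevD4 φ h = h ∧
      (∀ r, κ r ≠ 0) ∧ (∀ r, chevD4.IsPosRoot r → κ (ρ0 r) = φ (κ r)) ∧
      (∀ r, chevD4.IsPosRoot r → φ (κ r) = κ r) ∧
      (∀ r < chevD4.nroots, ∀ t : K, h * Xr r t * h⁻¹ = Xr r (κ r * t)) ∧
      b = pr φ α b' c d e f * h := by
  obtain ⟨u, hu, h, hh, h1, h2, h3, h4, rfl⟩ := B_split hb hs hf
  obtain ⟨α, b', c, d, e, f, f1, f2, f3, f4, f5, f6, rfl⟩ := U_form hφ hφ3 hρ hτ I hq hK hu h1 h2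
  obtain ⟨κ, k0, k1, k2⟩ := H_data hρ hτ hh h3
  exact ⟨α, b', c, d, e, f, h, κ, f1, f2, f3, f4, f5, f6, hh, h3, h4, k0, k1, fun r hr => H_rat h4 k2 hr, k2, rfl⟩

/-- The form of an element of the small group mapping `zz φ μ 1` into the same family. -/
theorem stab_form (hq : IsPrimePow q) (hK : Fintype.card K = q ^ 3) {m : GL chevD4.Idx K}
    (hmG : m ∈ twistedD4 K q) (hmf : mapG chevD4 φ m = m) {μ s₀ : K} (hμ : φ μ ≠ μ) (hs₀ : φ s₀ = s₀)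
    (hc : m * zz φ μ 1 * m⁻¹ = zz φ μ s₀) :
    ∃ (b' c d e f : K) (h : GL chevD4.Idx K), φ b' = b' ∧ φ c = c ∧ φ d = d ∧ φ e = e ∧ φ f = f ∧
      h ∈ chevD4.diagonalSubgroup K ∧ T.s h = h ∧ mapG chevD4 φ h = h ∧
      (∀ t : K, h * Xr 18 t * h⁻¹ = Xr 18 t) ∧ m = pr φ 0 b' c d e f * h := by
  obtain ⟨b₀, hb₀, n, hn, v, hv, hb₀s, hvs, em⟩ := tnf hφ3 hτ I hmG
  obtain ⟨hb₀f, hvf⟩ := tnf_fix I hb₀ hn hv em hmf
  have hvU := Un_le_U sys tbl_chevD4 _ hv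
  obtain ⟨β, b₁, c₁, d₁, e₁, f₁, hβ, hb₁, hc₁, hd₁, he₁, hf₁, hvE⟩ := U_form hφ hφ3 hρ hτ I hq hK hvU hvs hvf
  have h1F : φ (1 : K) = 1 := map_one φ
  obtain ⟨δ, hδ⟩ : ∃ δ, v * zz φ μ 1 * v⁻¹ = zz φ (β + μ) 1 * Xr 23 δ := by
    obtain ⟨δ, hδ⟩ := U_zz hφ3 hb₁ h1F β c₁ d₁ e₁ f₁ μ 0
    refine ⟨δ, ?_⟩
    rw [hvE, ← hδ, X_zero, mul_one]
  set μ' := β + μ with hμ'
  have hμ'1 : φ μ' ≠ μ' := by
    intro h
    apply hμ
    have : φ β + φ μ = β + μ := by rw [← map_add]; exact h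
    rw [hβ] at this
    exact add_left_cancel this
  have hμ'0 : μ' ≠ 0 := by
    intro h
    apply hμ'1
    rw [h, map_zero]
  have hφμ : φ μ' ≠ 0 := (map_ne_zero φ).2 hμ'0
  have hφφμ : φ (φ μ') ≠ 0 := (map_ne_zero φ).2 hφμ
  have hn0 : nrm φ μ' ≠ 0 := mul_ne_zero (mul_ne_zero hμ'0 hφμ) hφφμ
  have hnN := W0_N I hn
  have hnG := W0_G I hn
  have hnfix : T.s n = n := (I.fix hnG).2
  have hU : n * (zz φ μ' 1 * Xr 23 δ) * n⁻¹ ∈ chevD4.posUnipotent K := by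
    rw [← hδ]
    have e2 : n * (v * zz φ μ 1 * v⁻¹) * n⁻¹ = b₀⁻¹ * (m * zz φ μ 1 * m⁻¹) * b₀⁻¹⁻¹ := by
      rw [em]
      group
    rw [e2, hc]
    refine B_conj_U (Subgroup.inv_mem _ hb₀) (pr_U φ _ _ _ _ _ _)
  have hU' : n * pr φ 0 1 (-(μ' * 1)) (φ μ' * φ (φ μ') * 1) (-(nrm φ μ' * 1)) (-(nrm φ μ' * 1 * 1) + δ) * n⁻¹ ∈
      chevD4.posUnipotent K := by
    rw [← pr_X23 hφ3 h1F]
    exact hU
  have h14 := pos14' hnN one_ne_zero hU'
  have h22 := pos22 hφ3 hnN (e := -(nrm φ μ' * 1)) (by simpa using hn0) hU'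
  have hsm : T.s m = m := (I.fix hmG).2
  rcases class_n hρ hnN hnfix I h14 h22 with hA | hA
  · -- the element lies in `B`
    have hmB : m ∈ chevD4.borelSubgroup K := by
      rw [em]
      exact Subgroup.mul_mem _ (Subgroup.mul_mem _ hb₀ (H_le_B sys tbl_chevD4 hA)) (U_le_B sys tbl_chevD4 hvU)
    obtain ⟨α, b', c, d, e, f, h, κ, f1, f2, f3, f4, f5, f6, hh, h3, h4, k0, k1, k1', k2, em2⟩ :=
      B_form hφ hφ3 hρ hτ I hq hK hmB hsm hmf
    obtain ⟨δ', hδ'⟩ := B_zz hφ3 f2 h1F k1 k2 α c d e f μ 0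
    rw [← em2, X_zero, mul_one, hc] at hδ'
    have hs00 : zz φ μ s₀ * Xr 23 0 = zz φ (α + κ 18 * μ) (κ 14 * 1) * Xr 23 δ' := by
      rw [X_zero, mul_one]
      exact hδ'
    have k14 : φ (κ 14) = κ 14 := k1' 14 (pos_all _ (by simp))
    have k18 : φ (κ 18) = κ 18 := k1' 18 (pos_all _ (by simp))
    have hsne : s₀ ≠ 0 := by
      intro h0
      have h5 : zz φ (α + κ 18 * μ) (κ 14 * 1) * Xr 23 δ' * Xr 23 0 = zz φ μ s₀ * Xr 23 0 * Xr 23 0 := by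
        rw [hs00]
      have hsym := hs00.symm
      have := zz_inj hφ3 (mul_ne_zero (k0 14) one_ne_zero) (by rw [mul_one]; exact k14) hs₀ hsym
      rw [h0] at this
      exact (mul_ne_zero (k0 14) one_ne_zero) this.2.1
    obtain ⟨e1, -, -⟩ := zz_inj hφ3 hsne hs₀ (by rw [mul_one]; exact k14) hs00
    have hk1 : κ 18 = 1 := by
      by_contra hk
      have hk' : κ 18 - 1 ≠ 0 := sub_ne_zero.2 hk
      have hm' : μ = -α / (κ 18 - 1) := by
        field_simp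
        linear_combination (-1 : K) * e1
      apply hμ
      rw [hm', map_div₀, map_neg, map_sub, map_one, f1, k18]
    have hα : α = 0 := by
      rw [hk1] at e1
      linear_combination (-1 : K) * e1
    subst hα
    refine ⟨b', c, d, e, f, h, f2, f3, f4, f5, f6, hh, h3, h4, ?_, em2⟩
    intro t
    rw [k2 18 (by decide +kernel), hk1, one_mul]
  · -- the element lies in the other double coset: impossible
    exfalso
    have hNaG : (Na : GL chevD4.Idx K) ∈ twistedD4 K q := W0_G I (Na_W0 I)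
    have hkG : n * Na⁻¹ ∈ twistedD4 K q := Subgroup.mul_mem _ hnG (Subgroup.inv_mem _ hNaG)
    have hb3 : b₀ * (n * Na⁻¹) ∈ chevD4.borelSubgroup K := Subgroup.mul_mem _ hb₀ (H_le_B sys tbl_chevD4 hA)
    have hb3s : T.s (b₀ * (n * Na⁻¹)) = b₀ * (n * Na⁻¹) := by
      have hb₀G := (Cfsg.Agent.Lib.ChevBN.Stmts.B_N_G (sys (F := K)) tbl_chevD4).1 hb₀
      rw [T.s_mul _ hb₀G _ (I.fix hkG).1, hb₀s, (I.fix hkG).2]
    have hb3f : mapG chevD4 φ (b₀ * (n * Na⁻¹)) = b₀ * (n * Na⁻¹) := by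
      rw [map_mul, map_mul, map_inv, hb₀f, W0_fix I hn φ, W0_fix I (Na_W0 I) φ]
    obtain ⟨α, b', c, d, e, f, h, κ, f1, f2, f3, f4, f5, f6, hh, h3, h4, k0, k1, k1', k2, em2⟩ :=
      B_form hφ hφ3 hρ hτ I hq hK hb3 hb3s hb3f
    obtain ⟨δ1, hδ1⟩ := Na_zz hφ3 hμ'0 δ
    have hsfix : φ (-(nrm φ μ' * 1)) = -(nrm φ μ' * 1) := by rw [mul_one, map_neg, nrm_fix hφ3]
    obtain ⟨δ2, hδ2⟩ := B_zz hφ3 f2 hsfix k1 k2 α c d e f (-μ'⁻¹) δ1
    rw [← em2, ← hδ1] at hδ2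
    have e5 : (b₀ * (n * Na⁻¹)) * (Na * (zz φ μ' 1 * Xr 23 δ) * Na⁻¹) * (b₀ * (n * Na⁻¹))⁻¹ =
        m * zz φ μ 1 * m⁻¹ := by
      rw [← hδ, em]
      group
    rw [e5, hc] at hδ2
    have hs00 : zz φ μ s₀ * Xr 23 0 = zz φ (α + κ 18 * (-μ'⁻¹)) (κ 14 * (-(nrm φ μ' * 1))) * Xr 23 δ2 := by
      rw [X_zero, mul_one]
      exact hδ2
    have k14 : φ (κ 14) = κ 14 := k1' 14 (pos_all _ (by simp))
    have k18 : φ (κ 18) = κ 18 := k1' 18 (pos_all _ (by simp))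
    have hsne' : κ 14 * (-(nrm φ μ' * 1)) ≠ 0 := mul_ne_zero (k0 14) (by simpa using hn0)
    have hsf' : φ (κ 14 * (-(nrm φ μ' * 1))) = κ 14 * (-(nrm φ μ' * 1)) := by rw [map_mul, k14, hsfix]
    obtain ⟨e1, -, -⟩ := zz_inj hφ3 hsne' hsf' hs₀ hs00.symm
    -- the quadratic equation
    refine no_quad hφ3 (μ := μ) (A := β - α) (C := κ 18 - α * β) hμ (by rw [map_sub, hβ, f1])
      (by rw [map_sub, map_mul, k18, f1, hβ]) ?_
    have e6 : (α + κ 18 * (-μ'⁻¹)) * μ' = μ * μ' := by rw [e1]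
    have e7 : μ'⁻¹ * μ' = 1 := inv_mul_cancel₀ hμ'0
    have hμ'' : μ' = β + μ := hμ'
    clear_value μ'
    linear_combination (-1 : K) * e6 - κ 18 * e7 - (μ - α) * hμ''

omit hφ hφ3 hρ hτ I in
/-- `X₂₃` commutes with the positive root elements. -/
theorem X23_central_pos : ∀ r < chevD4.nroots, chevD4.IsPosRoot r → r ≠ 23 → chevD4.commTerms r 23 = [] := by
  decide +kernel

omit hφ hφ3 hρ hτ I in
theorem comm_23 {r : ℕ} (hr : chevD4.IsPosRoot r) (s t : K) : Xr r s * Xr 23 t = Xr 23 t * Xr r s := by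
  by_cases h : r = 23
  · subst h
    rw [X_mul, X_mul, add_comm]
  · have h2 := comm_p (K := K) (a := r) (b := 23) hr.1 (by decide +kernel) (Ne.symm h) (by
      intro he
      have h3 := tbl_chevD4.neg_of_pos hr
      rw [← he] at h3
      exact tbl_chevD4.not_pos_of_neg h3 (by decide +kernel)) (X23_central_pos r hr.1 hr h) s t
    exact h2

omit hφ hφ3 hρ hτ I in
/-- Non-commuting pairs of root elements. -/
theorem not_comm {r s c : ℕ} {ε : ℤ} (hr : r < chevD4.nroots) (hs : s < chevD4.nroots) (h1 : s ≠ r)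
    (h2 : s ≠ chevD4.neg r) (hn : chevD4.commTerms r s = [(c, ε, 1, 1)]) (hε : ε = 1 ∨ ε = -1)
    (hc : chevD4.IsPosRoot c) : ¬ Commute (Xr r (1 : K)) (Xr s 1) := by
  intro hcm
  have h3 : Xr s (1 : K) * Xr r 1 = Xr r 1 * Xr s 1 * W (sys (F := K)).toAddRel (chevD4.commWord K r s 1 1) := by
    apply Units.ext
    simp only [Units.val_mul, coe_X, coe_W]
    exact Cfsg.Agent.Lib.Chevalley.Tbl.D4.comm r hr s hs h1 h2 1 1
  rw [← hcm.eq, ChevalleyDatum.commWord, hn] at h3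
  have h4 : W (sys (F := K)).toAddRel [(c, -((ε : K) * 1 ^ 1 * 1 ^ 1))] = 1 := by
    have := mul_left_cancel (a := Xr s (1 : K) * Xr r 1) (b := 1) (c := W (sys (F := K)).toAddRel [(c, -((ε : K) * 1 ^ 1 * 1 ^ 1))]) (by
      rw [mul_one]
      simpa using h3)
    exact this.symm
  simp only [W_cons, W_nil, mul_one, one_pow] at h4
  have h5 : -(ε : K) = 0 := X_inj sys tbl_chevD4 hc (h4.trans (X_zero _ _).symm)
  rcases hε with rfl | rfl <;> simp at h5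

omit hφ hφ3 hρ hτ I in
/-- The elements of `N` fixing the highest root. -/
theorem pos_of_fix23 {n : GL chevD4.Idx K} (hn : n ∈ chevD4.monomialSubgroup K)
    (h23 : (pn sys tbl_chevD4 hn ⟨23, by decide +kernel⟩).val = 23) :
    chevD4.IsPosRoot (pn sys tbl_chevD4 hn ⟨14, by decide +kernel⟩) ∧
      chevD4.IsPosRoot (pn sys tbl_chevD4 hn ⟨22, by decide +kernel⟩) := by
  have key : ∀ (a a' : Fin chevD4.nroots), ¬ Commute (Xr a' (1 : K)) (Xr 23 1) → (a' : ℕ) = chevD4.neg a →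
      chevD4.IsPosRoot (pn sys tbl_chevD4 hn a) := by
    intro a a' hnc ha'
    by_contra hneg
    apply hnc
    have h1 : a' = negF tbl_chevD4 a := Fin.ext ha'
    have hp : chevD4.IsPosRoot (pn sys tbl_chevD4 hn a') := by
      rw [h1, pn_neg sys tbl_chevD4 hn]
      rcases tbl_chevD4.pos_or_neg (pn sys tbl_chevD4 hn a).isLt with h | h
      · exact absurd h hneg
      · exact tbl_chevD4.pos_of_neg h
    obtain ⟨κ₁, -, hκ₁⟩ := Cfsg.Agent.Lib.Twisted.pn_conj sys tbl_chevD4 hn a'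
    obtain ⟨κ₂, -, hκ₂⟩ := Cfsg.Agent.Lib.Twisted.pn_conj sys tbl_chevD4 hn ⟨23, by decide +kernel⟩
    have h3 := comm_23 hp (κ₁ * 1) (κ₂ * 1)
    rw [← hκ₁] at h3
    have h4 := hκ₂ 1
    rw [h23] at h4
    simp only at h4
    rw [← h4] at h3
    show Xr a' (1 : K) * Xr 23 1 = Xr 23 1 * Xr a' 1
    have e : n * (Xr a' (1 : K) * Xr 23 1) * n⁻¹ = n * (Xr 23 1 * Xr a' 1) * n⁻¹ := by
      calc n * (Xr a' (1 : K) * Xr 23 1) * n⁻¹ = (n * Xr a' 1 * n⁻¹) * (n * Xr 23 1 * n⁻¹) := by group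
        _ = (n * Xr 23 1 * n⁻¹) * (n * Xr a' 1 * n⁻¹) := h3
        _ = _ := by group
    exact mul_left_cancel (mul_right_cancel e)
  refine ⟨key _ ⟨9, by decide +kernel⟩ ?_ (by decide +kernel), key _ ⟨1, by decide +kernel⟩ ?_ (by decide +kernel)⟩
  · exact not_comm (c := 22) (ε := 1) (by decide +kernel) (by decide +kernel) (by decide +kernel) (by decide +kernel)
      (by decide +kernel) (Or.inl rfl) (pos_all _ (by simp))
  · exact not_comm (c := 14) (ε := -1) (by decide +kernel) (by decide +kernel) (by decide +kernel) (by decide +kernel)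
      (by decide +kernel) (Or.inr rfl) (pos_all _ (by simp))

omit hφ hφ3 hρ hτ I in
theorem U_comm_23 {u : GL chevD4.Idx K} (hu : u ∈ chevD4.posUnipotent K) (t : K) :
    u * Xr 23 t = Xr 23 t * u := by
  rw [posUnipotent_eq (sys (F := K)).toAddRel] at hu
  refine gen_induction (sys (F := K)).toAddRel (P := fun u => u * Xr 23 t = Xr 23 t * u) (by simp) ?_ ?_ hu
  · intro r hr s
    exact comm_23 hr s t
  · intro a b ha hb
    rw [mul_assoc, hb, ← mul_assoc, ha, mul_assoc]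

/-- The form of an element of the small group normalising the long root group. -/
theorem MP_form (hq : IsPrimePow q) (hK : Fintype.card K = q ^ 3) {m : GL chevD4.Idx K}
    (hmG : m ∈ twistedD4 K q) (hmf : mapG chevD4 φ m = m) {t : K}
    (hc : m * Xr 23 1 * m⁻¹ = Xr 23 t) :
    m ∈ chevD4.borelSubgroup K ∨ ∃ β, φ β = β ∧ m * (Na * xh φ β)⁻¹ ∈ chevD4.borelSubgroup K := by
  obtain ⟨b₀, hb₀, n, hn, v, hv, hb₀s, hvs, em⟩ := tnf hφ3 hτ I hmG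
  obtain ⟨hb₀f, hvf⟩ := tnf_fix I hb₀ hn hv em hmf
  have hvU := Un_le_U sys tbl_chevD4 _ hv
  have hnN := W0_N I hn
  have hnG := W0_G I hn
  have hnfix : T.s n = n := (I.fix hnG).2
  -- the root 23 is fixed
  have h23 : (pn sys tbl_chevD4 hnN ⟨23, by decide +kernel⟩).val = 23 := by
    obtain ⟨κ₂, hκ0, hκ₂⟩ := Cfsg.Agent.Lib.Twisted.pn_conj sys tbl_chevD4 hnN ⟨23, by decide +kernel⟩
    have e1 : n * Xr 23 1 * n⁻¹ = b₀⁻¹ * Xr 23 t * b₀⁻¹⁻¹ := by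
      rw [← hc, em]
      have e2 : b₀ * n * v * Xr 23 1 * (b₀ * n * v)⁻¹ = b₀ * n * (v * Xr 23 1) * v⁻¹ * n⁻¹ * b₀⁻¹ := by group
      rw [e2, U_comm_23 hvU]
      group
    obtain ⟨u, hu, h, hh, e3⟩ := (mem_B_iff sys tbl_chevD4).1 (Subgroup.inv_mem _ hb₀)
    obtain ⟨κ, -, -, hκ⟩ := exists_of_mem_H sys tbl_chevD4 hh
    have e4 : b₀⁻¹ * Xr 23 t * b₀⁻¹⁻¹ = Xr 23 (κ 23 * t) := by
      rw [e3]
      have e5 : u * h * Xr 23 t * (u * h)⁻¹ = u * (h * Xr 23 t * h⁻¹) * u⁻¹ := by group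
      rw [e5, hκ 23 (by decide +kernel), U_comm_23 hu]
      group
    rw [e4, hκ₂] at e1
    exact Cfsg.Agent.Lib.ChevBN.RootCent.root_eq_of_X_eq sys tbl_chevD4 (pn sys tbl_chevD4 hnN ⟨23, by decide +kernel⟩).isLt (pos_all _ (by simp))
      (mul_ne_zero hκ0 one_ne_zero) e1
  obtain ⟨h14, h22⟩ := pos_of_fix23 hnN h23
  rcases class_n hρ hnN hnfix I h14 h22 with hA | hA
  · left
    rw [em]
    exact Subgroup.mul_mem _ (Subgroup.mul_mem _ hb₀ (H_le_B sys tbl_chevD4 hA)) (U_le_B sys tbl_chevD4 hvU)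
  · right
    obtain ⟨β, b₁, c₁, d₁, e₁, f₁, hβ, hb₁, hc₁, hd₁, he₁, hf₁, hvE⟩ := U_form hφ hφ3 hρ hτ I hq hK hvU hvs hvf
    have hNa := (Na_N (K := K))
    -- `v` lies in `Un Na`
    have h1 : n⁻¹ * Na ∈ chevD4.diagonalSubgroup K := by
      have h2 := H_norm_N sys tbl_chevD4 (Subgroup.inv_mem _ hnN) (Subgroup.inv_mem _ hA)
      have e : n⁻¹ * (n * Na⁻¹)⁻¹ * n⁻¹⁻¹ = n⁻¹ * Na := by group
      rwa [e] at h2
    have hvNa : v ∈ Un chevD4 K Na := by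
      have h2 := Cfsg.Agent.Lib.ChevBN.GraphFix.Un_mul_H (hR := sys (F := K)) (n := n) tbl_chevD4 h1 hv
      have e : n * (n⁻¹ * Na) = Na := by group
      rwa [e] at h2
    have hV := conj_Un_le sys tbl_chevD4 hvNa
    -- the part in the special group is trivial
    have hxV : Na * xh φ β * Na⁻¹ ∈ chevD4.negUnipotent K := by
      have e : xh φ β = Xr 18 β * (Xr 13 (φ β) * (Xr 12 (φ (φ β)) * 1)) := by
        simp only [pr, map_zero, neg_zero, X_zero, one_mul, mul_one]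
      rw [e, ← MulAut.conj_apply]
      simp only [map_mul, map_one, mul_one]
      rw [ra_neg (r := 18) (r' := 5) (by decide +kernel) (by decide +kernel) (by decide +kernel),
        ra_neg (r := 13) (r' := 10) (by decide +kernel) (by decide +kernel) (by decide +kernel),
        ra_neg (r := 12) (r' := 11) (by decide +kernel) (by decide +kernel) (by decide +kernel),
        negUnipotent_eq (sys (F := K)).toAddRel]
      refine Subgroup.mul_mem _ ?_ (Subgroup.mul_mem _ ?_ ?_) <;> exact X_mem_gen _ (by decide +kernel) _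
    have e6 : v = xh φ β * pr φ 0 b₁ c₁ d₁ e₁ f₁ := by rw [hvE, pr_split hφ3]
    have h3 : Na * pr φ 0 b₁ c₁ d₁ e₁ f₁ * Na⁻¹ ∈ chevD4.negUnipotent K := by
      have e : Na * pr φ 0 b₁ c₁ d₁ e₁ f₁ * Na⁻¹ = (Na * xh φ β * Na⁻¹)⁻¹ * (Na * v * Na⁻¹) := by
        rw [e6]
        group
      rw [e]
      exact Subgroup.mul_mem _ (Subgroup.inv_mem _ hxV) hV
    have h4 : Na * pr φ 0 b₁ c₁ d₁ e₁ f₁ * Na⁻¹ = 1 := by
      have h5 : Na * pr φ 0 b₁ c₁ d₁ e₁ f₁ * Na⁻¹ ∈ chevD4.borelSubgroup K ⊓ chevD4.negUnipotent K := by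
        refine ⟨?_, h3⟩
        rw [conj_a φ hφ3]
        exact U_le_B sys tbl_chevD4 (pr_U φ _ _ _ _ _ _)
      rw [B_inf_V sys tbl_chevD4, Subgroup.mem_bot] at h5
      exact h5
    have h5 : pr φ 0 b₁ c₁ d₁ e₁ f₁ = 1 := by
      have e : pr φ 0 b₁ c₁ d₁ e₁ f₁ = Na⁻¹ * (Na * pr φ 0 b₁ c₁ d₁ e₁ f₁ * Na⁻¹) * Na := by group
      rw [e, h4]
      group
    refine ⟨β, hβ, ?_⟩
    have e7 : m * (Na * xh φ β)⁻¹ = b₀ * (n * Na⁻¹) := by
      rw [em, e6, h5, mul_one]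
      group
    rw [e7]
    exact Subgroup.mul_mem _ hb₀ (H_le_B sys tbl_chevD4 hA)

end Main

end Cfsg.Agent.Lib.Tw3D4Max
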