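import Cfsg.Agent.Lib.Tw3D4Max.Count

/-!
# The stabilisers in the rational points
-/

set_option autoImplicit false
set_option maxRecDepth 1000000
set_option linter.unusedSectionVars false
set_option linter.unusedVariables false
set_option linter.unusedSimpArgs false

namespace Cfsg.Agent.Lib.Tw3D4Max

open Cfsg.Lie Cfsg.Agent.Lib.ChevBN.Elem Cfsg.Agent.Lib.ChevBN.Table Cfsg.Agent.Lib.ChevBN.Rel
open Cfsg.Agent.Lib.ChevBN.FastData Cfsg.Agent.Lib.ChevBN.Collect Cfsg.Agent.Lib.ChevBN.Opp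
open Cfsg.Agent.Lib.Twisted Cfsg.Agent.Lib.Twisted.D4
open Cfsg.Agent.Lib.Chevalley.Tbl.D4 (sys)
open Cfsg.Agent.Lib.Tw3D4 (pos_all)
open Cfsg.Agent.Lib.Chevalley.Reflect
open Cfsg.Agent.Lib.ChevBN.Monomial Cfsg.Agent.Lib.ChevBN.Pair Cfsg.Agent.Lib.ChevBN.Torus
open Cfsg.Agent.Lib.ChevBN.Core Cfsg.Agent.Lib.ChevBN.Stmts
open Cfsg.Agent.Lib.ChevOrder.Chev Cfsg.Agent.Lib.BNPair.Basic Cfsg.Agent.Lib.BNPair.Parabolic
open Cfsg.Agent.Lib.ChevBN.BruhatForm Cfsg.Agent.Lib.ChevBN.Fix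

variable {K : Type*} [Field K]

set_option quotPrecheck false in
/-- The root elements. -/
local notation "Xr" => X (sys (F := _)).toAddRel

/-- Elements of `H` with the same action on two orbits are equal. -/
theorem H_same {φ : K →+* K} {h h' : GL chevD4.Idx K} (hh : h ∈ chevD4.diagonalSubgroup K)
    (hh' : h' ∈ chevD4.diagonalSubgroup K) {κ κ' : ℕ → K}
    (k1 : ∀ r, chevD4.IsPosRoot r → κ (ρ0 r) = φ (κ r))
    (k2 : ∀ r < chevD4.nroots, ∀ t : K, h * Xr r t * h⁻¹ = Xr r (κ r * t))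
    (k1' : ∀ r, chevD4.IsPosRoot r → κ' (ρ0 r) = φ (κ' r))
    (k2' : ∀ r < chevD4.nroots, ∀ t : K, h' * Xr r t * h'⁻¹ = Xr r (κ' r * t))
    (e18 : κ 18 = κ' 18) (e14 : κ 14 = κ' 14) : h = h' := by
  have e13 : κ 13 = κ' 13 := by
    rw [← (by decide +kernel : ρ0 18 = 13), k1 18 (pos_all _ (by simp)), k1' 18 (pos_all _ (by simp)), e18]
  have e12 : κ 12 = κ' 12 := by
    rw [← (by decide +kernel : ρ0 13 = 12), k1 13 (pos_all _ (by simp)), k1' 13 (pos_all _ (by simp)), e13]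
  have key : ∀ r < chevD4.nroots, κ r = κ' r → (h⁻¹ * h') * Xr r 1 * (h⁻¹ * h')⁻¹ = Xr r 1 := by
    intro r hr he
    have e1 : (h⁻¹ * h') * Xr r 1 * (h⁻¹ * h')⁻¹ = h⁻¹ * (h' * Xr r 1 * h'⁻¹) * h := by group
    rw [e1, k2' r hr 1, ← he, ← k2 r hr 1]
    group
  have hc : h⁻¹ * h' = 1 := by
    apply H_eq_one (Subgroup.mul_mem _ (Subgroup.inv_mem _ hh) hh')
    intro i hi
    have hi' : i < 4 := hi
    interval_cases i
    · exact key _ (by decide +kernel) (by simpa [(by decide +kernel : chevD4.simple 0 = 18)] using e18)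
    · exact key _ (by decide +kernel) (by simpa [(by decide +kernel : chevD4.simple 1 = 14)] using e14)
    · exact key _ (by decide +kernel) (by simpa [(by decide +kernel : chevD4.simple 2 = 13)] using e13)
    · exact key _ (by decide +kernel) (by simpa [(by decide +kernel : chevD4.simple 3 = 12)] using e12)
  rw [inv_mul_eq_one] at hc
  exact hc

section Main

variable [Fintype K] {q : ℕ} {φ : K →+* K} {T : Tw (sys (F := K)).toAddRel}
  (hφ : ∀ t, φ t = t ^ q) (hφ3 : ∀ t, φ (φ (φ t)) = t) (hρ : T.ρ = ρ0)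
  (hτ : ∀ r t, T.τ r t = ((ε0 r : ℤ) : K) * φ t)
  (I : Inst sys tbl_chevD4 T Js cl (twistedD4 K q))

omit [Fintype K] in
include hφ in
theorem Ra_mem_iff (y : K) : φ y = y ↔ y ^ q = y := by rw [hφ]

include hφ in
theorem card_Ra (hq : IsPrimePow q) (hK : Fintype.card K = q ^ 3) : Nat.card (Ra φ) = q := by
  rw [← card_fixed_pow hq.two_le hK]
  exact Nat.card_congr (Equiv.subtypeEquivRight (Ra_mem_iff hφ))

include hφ in
theorem card_Ru (hq : IsPrimePow q) (hK : Fintype.card K = q ^ 3) : Nat.card (Ru φ) ≤ q - 1 := by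
  have h := card_Ra hφ hq hK
  have h1 : Nat.card (Option (Ru φ)) ≤ Nat.card (Ra φ) := by
    let f : Option (Ru φ) → Ra φ := fun o => match o with
      | none => ⟨0, map_zero φ⟩
      | some y => ⟨y.1, y.2.1⟩
    apply Nat.card_le_card_of_injective f
    rintro (_ | y) (_ | y') he
    · rfl
    · exfalso
      exact y'.2.2 (congrArg Subtype.val he).symm
    · exfalso
      exact y.2.2 (congrArg Subtype.val he)
    · have he2 : (f (some y)).1 = (f (some y')).1 := congrArg Subtype.val he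
      have : y = y' := Subtype.ext he2
      rw [this]
  rw [Finite.card_option, h] at h1
  omega

include hφ hφ3 hρ hτ I

/-- The rational points of `B`. -/
theorem card_MB (hq : IsPrimePow q) (hK : Fintype.card K = q ^ 3) :
    Nat.card ↥(MM q φ ⊓ chevD4.borelSubgroup K) ≤ q ^ 6 * (q - 1) ^ 2 := by
  classical
  have hex : ∀ x : ↥(MM q φ ⊓ chevD4.borelSubgroup K),
      ∃ d : (Ra φ × Ra φ × Ra φ × Ra φ × Ra φ × Ra φ) × (Ru φ × Ru φ),
        ∃ (h : GL chevD4.Idx K) (κ : ℕ → K), h ∈ chevD4.diagonalSubgroup K ∧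
          (∀ r, chevD4.IsPosRoot r → κ (ρ0 r) = φ (κ r)) ∧
          (∀ r < chevD4.nroots, ∀ t : K, h * Xr r t * h⁻¹ = Xr r (κ r * t)) ∧
          κ 18 = d.2.1.1 ∧ κ 14 = d.2.2.1 ∧
          (x : GL chevD4.Idx K) = pr φ d.1.1.1 d.1.2.1.1 d.1.2.2.1.1 d.1.2.2.2.1.1 d.1.2.2.2.2.1.1 d.1.2.2.2.2.2.1 * h := by
    rintro ⟨x, hxM, hxB⟩
    obtain ⟨α, b', c, d, e, f, h, κ, f1, f2, f3, f4, f5, f6, hh, h3, h4, k0, k1, k3, k2, ex⟩ :=
      B_form hφ hφ3 hρ hτ I hq hK hxB (I.fix hxM.1).2 hxM.2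
    exact ⟨(⟨⟨α, f1⟩, ⟨b', f2⟩, ⟨c, f3⟩, ⟨d, f4⟩, ⟨e, f5⟩, ⟨f, f6⟩⟩,
      ⟨⟨κ 18, k3 18 (pos_all _ (by simp)), k0 18⟩, ⟨κ 14, k3 14 (pos_all _ (by simp)), k0 14⟩⟩),
      h, κ, hh, k1, k2, rfl, rfl, ex⟩
  choose d h κ hh k1 k2 e18 e14 ex using hex
  have hinj : Function.Injective d := by
    intro x x' hd
    have e1 : h x = h x' := H_same (φ := φ) (hh x) (hh x') (k1 x) (k2 x) (k1 x') (k2 x')
      (by rw [e18, e18, hd]) (by rw [e14, e14, hd])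
    apply Subtype.ext
    rw [ex x, ex x', hd, e1]
  have h1 := Nat.card_le_card_of_injective d hinj
  simp only [Nat.card_prod, card_Ra hφ hq hK] at h1
  have hu := card_Ru hφ hq hK
  calc _ ≤ _ := h1
    _ ≤ q * (q * (q * (q * (q * q)))) * ((q - 1) * (q - 1)) := by gcongr
    _ = _ := by ring

/-- The rational points of the stabiliser. -/
theorem card_MP (hq : IsPrimePow q) (hK : Fintype.card K = q ^ 3) :
    Nat.card (St (MM q φ) (PP q φ) 1) ≤ q ^ 6 * (q - 1) ^ 2 * (q + 1) := by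
  classical
  let w : Option (Ra φ) → GL chevD4.Idx K := fun o => match o with
    | none => 1
    | some β => Na * xh φ β.1
  have hw : ∀ o, w o ∈ MM q φ := by
    rintro (_ | β)
    · exact Subgroup.one_mem _
    · refine Subgroup.mul_mem _ ⟨W0_G I (Na_W0 I), W0_fix I (Na_W0 I) φ⟩ ⟨xh_mem hφ hφ3 hρ hτ I _, ?_⟩
      show mapG chevD4 φ (xh φ β.1) = xh φ β.1
      rw [xh, map_pr φ φ (fun _ => rfl)]
      simp [β.2]
  have hex : ∀ x : St (MM q φ) (PP q φ) 1, ∃ p : ↥(MM q φ ⊓ chevD4.borelSubgroup K) × Option (Ra φ),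
      (x : GL chevD4.Idx K) = p.1 * w p.2 := by
    rintro ⟨x, hxM, hxP⟩
    have hxP' : x ∈ PP q φ := by simpa using hxP
    obtain ⟨-, κ, k0, k1, k2⟩ := hxP'
    have hc : x * Xr 23 1 * x⁻¹ = Xr 23 (κ * 1) := k2 1
    rcases MP_form hφ hφ3 hρ hτ I hq hK hxM.1 hxM.2 hc with hB | ⟨β, hβ, hB⟩
    · exact ⟨(⟨x, hxM, hB⟩, none), by simp [w]⟩
    · have hw' := hw (some ⟨β, hβ⟩)
      refine ⟨(⟨x * (Na * xh φ β)⁻¹, Subgroup.mul_mem _ hxM (Subgroup.inv_mem _ hw'), hB⟩, some ⟨β, hβ⟩), ?_⟩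
      show x = x * (Na * xh φ β)⁻¹ * (Na * xh φ β)
      rw [inv_mul_cancel_right]
  choose f hf using hex
  have hinj : Function.Injective f := by
    intro x x' he
    apply Subtype.ext
    rw [hf x, hf x', he]
  have h1 := Nat.card_le_card_of_injective f hinj
  rw [Nat.card_prod, Finite.card_option, card_Ra hφ hq hK] at h1
  exact h1.trans (Nat.mul_le_mul_right _ (card_MB hφ hφ3 hρ hτ I hq hK))

/-- The representative of the other double coset. -/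
theorem gg_mem (μ : K) : xh φ μ * (Na * Nb) ∈ twistedD4 K q :=
  Subgroup.mul_mem _ (xh_mem hφ hφ3 hρ hτ I μ) (Subgroup.mul_mem _ (W0_G I (Na_W0 I)) (W0_G I (Nb_W0 I)))

omit hφ hρ hτ I in
theorem gg_conj {t : K} (ht : φ t = t) (μ : K) :
    (xh φ μ * (Na * Nb)) * Xr 23 t * (xh φ μ * (Na * Nb))⁻¹ = zz φ μ (-t) := by
  have a22 : Nb * Xr 23 t * Nb⁻¹ = Xr 22 (-t) := by
    have := rb_23 (K := K) t
    rwa [MulAut.conj_apply] at this
  have a14 : (Na * Nb) * Xr 23 t * (Na * Nb)⁻¹ = Xr 14 (-t) := by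
    have := ra_22 (K := K) (-t)
    rw [MulAut.conj_apply, ← a22] at this
    rw [← this]
    group
  have hm : φ (-t) = -t := by rw [map_neg, ht]
  rw [← zz_eq hφ3 hm, ← a14]
  group

omit hφ hρ hτ I in
/-- The action of an element of the stabiliser on `zz`. -/
theorem zz_of_St {μ : K} {y : GL chevD4.Idx K} (hy : (xh φ μ * (Na * Nb))⁻¹ * y * (xh φ μ * (Na * Nb)) ∈ PP q φ) :
    ∃ κ : K, φ κ = κ ∧ y * zz φ μ 1 * y⁻¹ = zz φ μ κ := by
  obtain ⟨-, κ, k0, k1, k2⟩ := hy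
  refine ⟨κ, k1, ?_⟩
  set g₁ := xh φ μ * (Na * Nb) with hg
  have hm1 : φ (-1 : K) = -1 := by simp
  have e1 : g₁ * Xr 23 (-1) * g₁⁻¹ = zz φ μ 1 := by
    rw [hg, gg_conj hφ3 hm1, neg_neg]
  have e2 := k2 (-1)
  have hm2 : φ (κ * (-1)) = κ * (-1) := by simp [k1]
  have e3 : g₁ * Xr 23 (κ * (-1)) * g₁⁻¹ = zz φ μ κ := by
    rw [hg, gg_conj hφ3 hm2]
    simp
  rw [← e3, ← e2, ← e1]
  group

theorem gg_not {μ : K} (hμ : φ μ ≠ μ) : xh φ μ * (Na * Nb) ∉ DC (MM q φ) (PP q φ) 1 := by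
  rintro ⟨m, hm, p, hp, e⟩
  obtain ⟨-, κ, k0, k1, k2⟩ := hp
  have hm1 : φ (-1 : K) = -1 := by simp
  have e1 := gg_conj hφ3 hm1 μ
  rw [neg_neg, e, mul_one] at e1
  have e2 : zz φ μ 1 = m * Xr 23 (κ * (-1)) * m⁻¹ := by
    rw [← e1, ← k2 (-1)]
    group
  have hmf : mapG chevD4 φ m = m := hm.2
  have e3 : mapG chevD4 φ (zz φ μ 1) = zz φ μ 1 := by
    rw [e2, map_mul, map_mul, map_inv, hmf, mapG_X φ (sys (F := K)).toAddRel (sys (F := K)).toAddRel, map_mul, k1, hm1]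
  rw [zz, map_pr φ φ (fun _ => rfl)] at e3
  obtain ⟨-, -, e4, -⟩ := pr_inj φ e3
  apply hμ
  simpa using e4

/-- The stabiliser in the rational points of a point in the other orbit. -/
theorem card_St (hq : IsPrimePow q) (hK : Fintype.card K = q ^ 3) {μ : K} (hμ : φ μ ≠ μ) :
    Nat.card (St (MM q φ) (PP q φ) (xh φ μ * (Na * Nb))) ≤ q ^ 4 * (q - 1) := by
  classical
  have h1F : φ (1 : K) = 1 := map_one φ
  have h0F : φ (0 : K) = 0 := map_zero φ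
  have hex : ∀ x : St (MM q φ) (PP q φ) (xh φ μ * (Na * Nb)),
      ∃ d : (Ra φ × Ra φ × Ra φ × Ra φ) × Ru φ,
        ∃ (h : GL chevD4.Idx K) (κ : ℕ → K) (e : K), h ∈ chevD4.diagonalSubgroup K ∧
          (∀ r, chevD4.IsPosRoot r → κ (ρ0 r) = φ (κ r)) ∧
          (∀ r, κ r ≠ 0) ∧
          (∀ r < chevD4.nroots, ∀ t : K, h * Xr r t * h⁻¹ = Xr r (κ r * t)) ∧
          κ 18 = 1 ∧ κ 14 = d.2.1 ∧
          (x : GL chevD4.Idx K) = pr φ 0 d.1.1.1 d.1.2.1.1 d.1.2.2.1.1 e d.1.2.2.2.1 * h := by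
    rintro ⟨x, hxM, hxP⟩
    obtain ⟨κ₀, hκ₀, hc⟩ := zz_of_St hφ3 hxP
    obtain ⟨b', c, d, e, f, h, f1, f2, f3, f4, f5, hh, hs, hf, h18, ex⟩ :=
      stab_form hφ hφ3 hρ hτ I hq hK hxM.1 hxM.2 hμ hκ₀ hc
    obtain ⟨κ, k0, k1, k2⟩ := H_data hρ hτ hh hs
    have k18 : κ 18 = 1 := by
      have e1 := (k2 18 (by decide) 1).symm.trans (h18 1)
      have := X_inj sys tbl_chevD4 (pos_all _ (by simp)) e1
      simpa using this
    have k14 : φ (κ 14) = κ 14 := H_rat hf k2 (pos_all _ (by simp))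
    exact ⟨(⟨⟨b', f1⟩, ⟨c, f2⟩, ⟨d, f3⟩, ⟨f, f5⟩⟩, ⟨κ 14, k14, k0 14⟩), h, κ, e, hh, k1, k0, k2, k18, rfl, ex⟩
  choose d h κ e hh k1 k0 k2 e18 e14 ex using hex
  have hinj : Function.Injective d := by
    intro x x' hd
    have e1 : h x = h x' := H_same (φ := φ) (hh x) (hh x') (k1 x) (k2 x) (k1 x') (k2 x')
      (by rw [e18, e18]) (by rw [e14, e14, hd])
    apply Subtype.ext
    set ε := (κ x 22)⁻¹ * (e x' - e x) with hε
    have e3 : (x' : GL chevD4.Idx K) = x * Xr 22 ε := by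
      have e4 : h x * Xr 22 ε * (h x)⁻¹ = Xr 22 (e x' - e x) := by
        rw [k2 x 22 (by decide), hε, ← mul_assoc, mul_inv_cancel₀ (k0 x 22), one_mul]
      have e5 : h x * Xr 22 ε = Xr 22 (e x' - e x) * h x := by
        rw [← e4]
        group
      have e6 : pr φ 0 (d x).1.1.1 (d x).1.2.1.1 (d x).1.2.2.1.1 (e x') (d x).1.2.2.2.1 =
          pr φ 0 (d x).1.1.1 (d x).1.2.1.1 (d x).1.2.2.1.1 (e x) (d x).1.2.2.2.1 * Xr 22 (e x' - e x) := by
        rw [X22_eq φ, pr0_mul hφ3 (d x).1.1.2]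
        apply pr_congr rfl (add_zero _).symm (add_zero _).symm (add_zero _).symm (by ring)
        simp [tr2]
      rw [ex x', ← hd, ← e1, ex x, mul_assoc, e5, ← mul_assoc, ← e6]
    have hy : (xh φ μ * (Na * Nb))⁻¹ * Xr 22 ε * (xh φ μ * (Na * Nb)) ∈ PP q φ := by
      have e7 : Xr 22 ε = (x : GL chevD4.Idx K)⁻¹ * (x' : GL chevD4.Idx K) := by
        rw [e3]
        group
      have e8 : (xh φ μ * (Na * Nb))⁻¹ * ((x : GL chevD4.Idx K)⁻¹ * (x' : GL chevD4.Idx K)) * (xh φ μ * (Na * Nb)) =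
          ((xh φ μ * (Na * Nb))⁻¹ * (x : GL chevD4.Idx K) * (xh φ μ * (Na * Nb)))⁻¹ *
            ((xh φ μ * (Na * Nb))⁻¹ * (x' : GL chevD4.Idx K) * (xh φ μ * (Na * Nb))) := by group
      rw [e7, e8]
      exact Subgroup.mul_mem _ (Subgroup.inv_mem _ x.2.2) x'.2.2
    obtain ⟨κ₀, hκ₀, hc⟩ := zz_of_St hφ3 hy
    have e9 : Xr 22 ε * zz φ μ 1 * (Xr 22 ε)⁻¹ = zz φ μ 1 * Xr 23 (-ε) := by
      rw [X22_eq φ, zz, w_conj hφ3 h0F h1F]
      simp [tr2]
    rw [e9] at hc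
    have e10 : zz φ μ 1 * Xr 23 (-ε) = zz φ μ κ₀ * Xr 23 0 := by
      rw [hc, X_zero, mul_one]
    obtain ⟨-, -, e11⟩ := zz_inj hφ3 one_ne_zero h1F hκ₀ e10
    have e12 : ε = 0 := by simpa using e11
    rw [e3, e12, X_zero, mul_one]
  have h1 := Nat.card_le_card_of_injective d hinj
  simp only [Nat.card_prod, card_Ra hφ hq hK] at h1
  have hu := card_Ru hφ hq hK
  calc _ ≤ _ := h1
    _ ≤ q * (q * (q * q)) * (q - 1) := by gcongr
    _ = _ := by ring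

end Main

end Cfsg.Agent.Lib.Tw3D4Max
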