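import Cfsg.Agent.Lib.Tw3D4Max.Base

/-!
# The Weyl elements of `³D₄(q)`, all characteristics
-/

set_option autoImplicit false
set_option maxRecDepth 1000000
set_option linter.unusedSectionVars false
set_option linter.unusedVariables false
set_option linter.unusedSimpArgs false

namespace Cfsg.Agent.Lib.Tw3D4Max

open Cfsg.Lie Cfsg.Agent.Lib.ChevBN.Elem Cfsg.Agent.Lib.ChevBN.Table Cfsg.Agent.Lib.ChevBN.Rel
open Cfsg.Agent.Lib.ChevBN.FastData Cfsg.Agent.Lib.ChevBN.Collect Cfsg.Agent.Lib.ChevBN.Opp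
open Cfsg.Agent.Lib.Twisted Cfsg.Agent.Lib.Twisted.D4
open Cfsg.Agent.Lib.Chevalley.Tbl.D4 (sys)
open Cfsg.Agent.Lib.Tw3D4 (pos_all)
open Cfsg.Agent.Lib.Chevalley.Reflect
open Cfsg.Agent.Lib.ChevBN.Monomial Cfsg.Agent.Lib.ChevBN.Pair Cfsg.Agent.Lib.ChevBN.Torus
open Cfsg.Agent.Lib.ChevOrder.Chev Cfsg.Agent.Lib.BNPair.Basic

variable {K : Type*} [Field K]

set_option quotPrecheck false in
/-- The root elements. -/
local notation "Xr" => X (sys (F := _)).toAddRel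

/-- The signs of the Weyl elements. -/
noncomputable def sgn : List ℕ → ℕ → ℤ
  | [], _ => 1
  | i :: l, r => Cfsg.Agent.Lib.Chevalley.SysOf.etaOf Cfsg.Agent.Lib.Chevalley.Tbl.D4.wT i (l.foldr chevD4.reflectRoot r) * sgn l r

theorem cP : ∀ (l : List ℕ), (∀ i ∈ l, i < chevD4.rank) → ∀ {r : ℕ}, r < chevD4.nroots → ∀ t : K,
    prodA sys l * Xr r t * (prodA sys l)⁻¹ = Xr (l.foldr chevD4.reflectRoot r) ((sgn l r : K) * t) := by
  intro l
  induction l with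
  | nil =>
    intro _ r _ t
    simp [prodA, sgn]
  | cons i l ih =>
    intro hl r hr t
    have hl' : ∀ j ∈ l, j < chevD4.rank := fun j hj => hl j (by simp [hj])
    have hi : i < chevD4.rank := hl i (by simp)
    have hr' : l.foldr chevD4.reflectRoot r < chevD4.nroots := by
      clear ih
      induction l with
      | nil => simpa using hr
      | cons j l ih2 =>
        simp only [List.foldr_cons]
        exact tbl_chevD4.w_lt j (hl' j (by simp)) _ (ih2 (by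
          intro k hk
          exact hl k (by
            rcases List.mem_cons.1 hk with h | h
            · simp [h]
            · simp [h])) (fun k hk => hl' k (by simp [hk])))
    have e : prodA (sys (F := K)) (i :: l) = A (sys (F := K)) i * prodA (sys (F := K)) l := by simp [prodA]
    have e2 := ih hl' hr t
    have e3 := A_conj_X (sys (F := K)) hi hr' ((sgn l r : K) * t)
    rw [e, List.foldr_cons, sgn]
    calc A (sys (F := K)) i * prodA (sys (F := K)) l * Xr r t * (A (sys (F := K)) i * prodA (sys (F := K)) l)⁻¹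
        = A (sys (F := K)) i * (prodA (sys (F := K)) l * Xr r t * (prodA (sys (F := K)) l)⁻¹) * (A (sys (F := K)) i)⁻¹ := by group
      _ = _ := by
        rw [e2, e3]
        congr 1
        push_cast
        ring

/-- The Weyl element of the long fundamental root. -/
noncomputable abbrev Nb : GL chevD4.Idx K := prodA sys [1]

/-- The Weyl element of the short fundamental root. -/
noncomputable abbrev Na : GL chevD4.Idx K := prodA sys [0, 2, 3]

theorem Na_lt : ∀ i ∈ [0, 2, 3], i < chevD4.rank := by decide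
theorem Nb_lt : ∀ i ∈ [1], i < chevD4.rank := by decide

theorem Na_N : (Na : GL chevD4.Idx K) ∈ chevD4.monomialSubgroup K := prodA_mem_N sys tbl_chevD4 Na_lt
theorem Nb_N : (Nb : GL chevD4.Idx K) ∈ chevD4.monomialSubgroup K := prodA_mem_N sys tbl_chevD4 Nb_lt

theorem ra_pos {r r' : ℕ} (hr : r < chevD4.nroots) (h1 : [0, 2, 3].foldr chevD4.reflectRoot r = r')
    (h2 : sgn [0, 2, 3] r = 1) (t : K) : MulAut.conj (Na (K := K)) (Xr r t) = Xr r' t := by
  rw [MulAut.conj_apply, cP [0, 2, 3] Na_lt hr, h1, h2]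
  simp

theorem ra_neg {r r' : ℕ} (hr : r < chevD4.nroots) (h1 : [0, 2, 3].foldr chevD4.reflectRoot r = r')
    (h2 : sgn [0, 2, 3] r = -1) (t : K) : MulAut.conj (Na (K := K)) (Xr r t) = Xr r' (-t) := by
  rw [MulAut.conj_apply, cP [0, 2, 3] Na_lt hr, h1, h2]
  simp

theorem rb_pos {r r' : ℕ} (hr : r < chevD4.nroots) (h1 : [1].foldr chevD4.reflectRoot r = r')
    (h2 : sgn [1] r = 1) (t : K) : MulAut.conj (Nb (K := K)) (Xr r t) = Xr r' t := by
  rw [MulAut.conj_apply, cP [1] Nb_lt hr, h1, h2]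
  simp

theorem rb_neg {r r' : ℕ} (hr : r < chevD4.nroots) (h1 : [1].foldr chevD4.reflectRoot r = r')
    (h2 : sgn [1] r = -1) (t : K) : MulAut.conj (Nb (K := K)) (Xr r t) = Xr r' (-t) := by
  rw [MulAut.conj_apply, cP [1] Nb_lt hr, h1, h2]
  simp

theorem ra_14 (t : K) : MulAut.conj (Na (K := K)) (Xr 14 t) = Xr 22 (-t) :=
  ra_neg (by decide +kernel) (by decide +kernel) (by decide +kernel) t
theorem ra_19 (t : K) : MulAut.conj (Na (K := K)) (Xr 19 t) = Xr 17 t :=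
  ra_pos (by decide +kernel) (by decide +kernel) (by decide +kernel) t
theorem ra_16 (t : K) : MulAut.conj (Na (K := K)) (Xr 16 t) = Xr 20 t :=
  ra_pos (by decide +kernel) (by decide +kernel) (by decide +kernel) t
theorem ra_15 (t : K) : MulAut.conj (Na (K := K)) (Xr 15 t) = Xr 21 t :=
  ra_pos (by decide +kernel) (by decide +kernel) (by decide +kernel) t
theorem ra_17 (t : K) : MulAut.conj (Na (K := K)) (Xr 17 t) = Xr 19 (-t) :=
  ra_neg (by decide +kernel) (by decide +kernel) (by decide +kernel) t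
theorem ra_20 (t : K) : MulAut.conj (Na (K := K)) (Xr 20 t) = Xr 16 (-t) :=
  ra_neg (by decide +kernel) (by decide +kernel) (by decide +kernel) t
theorem ra_21 (t : K) : MulAut.conj (Na (K := K)) (Xr 21 t) = Xr 15 (-t) :=
  ra_neg (by decide +kernel) (by decide +kernel) (by decide +kernel) t
theorem ra_22 (t : K) : MulAut.conj (Na (K := K)) (Xr 22 t) = Xr 14 t :=
  ra_pos (by decide +kernel) (by decide +kernel) (by decide +kernel) t
theorem ra_23 (t : K) : MulAut.conj (Na (K := K)) (Xr 23 t) = Xr 23 t :=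
  ra_pos (by decide +kernel) (by decide +kernel) (by decide +kernel) t

theorem rb_14 (t : K) : MulAut.conj (Nb (K := K)) (Xr 14 t) = Xr 9 (-t) :=
  rb_neg (by decide +kernel) (by decide +kernel) (by decide +kernel) t
theorem rb_9 (t : K) : MulAut.conj (Nb (K := K)) (Xr 9 t) = Xr 14 (-t) :=
  rb_neg (by decide +kernel) (by decide +kernel) (by decide +kernel) t
theorem rb_22 (t : K) : MulAut.conj (Nb (K := K)) (Xr 22 t) = Xr 23 t :=
  rb_pos (by decide +kernel) (by decide +kernel) (by decide +kernel) t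
theorem rb_23 (t : K) : MulAut.conj (Nb (K := K)) (Xr 23 t) = Xr 22 (-t) :=
  rb_neg (by decide +kernel) (by decide +kernel) (by decide +kernel) t

/-- The conjugation by the short Weyl element. -/
theorem conj_a (φ : K →+* K) (hφ3 : ∀ t, φ (φ (φ t)) = t) (b c d e f : K) :
    Na * pr φ 0 b c d e f * Na⁻¹ =
      pr φ 0 e (-d) c (-b) (f + b * e - (c * d + φ c * φ d + φ (φ c) * φ (φ d))) := by
  rw [← MulAut.conj_apply]
  simp only [pr, map_mul, map_one, map_zero, X_zero, one_mul, ra_14, ra_19, ra_16, ra_15, ra_17, ra_20, ra_21, ra_22, ra_23,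
    mul_assoc, mg, sw_22_17, sw_22_20, sw_22_21, sw_22_19, sw_22_16, sw_22_15, sw_22_14, sw_17_19, sw_17_16, sw_17_15,
    sw_17_14, sw_20_19, sw_20_16, sw_20_15, sw_20_14, sw_21_19, sw_21_16, sw_21_15, sw_21_14, sw_19_14, sw_16_14, sw_15_14,
    sw_16_19, sw_15_19, sw_15_16, sw_23_14, sw_23_19, sw_23_16, sw_23_15, sw_23_17, sw_23_20, sw_23_21, sw_23_22, sw_20_17, sw_21_17, sw_21_20]
  refine cX ?_ (cX ?_ (cX ?_ (cX ?_ (cX ?_ (cX ?_ (cX ?_ (cX ?_ (cX ?_ rfl))))))))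
  all_goals (try simp only [map_add, map_mul, map_neg, map_sub, hφ3])
  all_goals ring

/-- Double cosets of elements of `N`. -/
theorem nn_H {n₁ n₂ w : GL chevD4.Idx K} (h1 : n₁ ∈ chevD4.monomialSubgroup K) (h2 : n₂ ∈ chevD4.monomialSubgroup K)
    (hw : w ∈ chevD4.borelSubgroup K) (hb : n₁ * w * n₂⁻¹ ∈ chevD4.borelSubgroup K) :
    n₁⁻¹ * n₂ ∈ chevD4.diagonalSubgroup K := by
  have hBG : chevD4.borelSubgroup K ≤ chevD4.group K := (Cfsg.Agent.Lib.ChevBN.Stmts.B_N_G (sys (F := K)) tbl_chevD4).1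
  have hNG : chevD4.monomialSubgroup K ≤ chevD4.group K := (Cfsg.Agent.Lib.ChevBN.Stmts.B_N_G (sys (F := K)) tbl_chevD4).2.1
  let P := pair (sys (F := K)) tbl_chevD4
  let ν₁ : ↥(chevD4.group K) := ⟨n₁, hNG h1⟩
  let ν₂ : ↥(chevD4.group K) := ⟨n₂, hNG h2⟩
  let w' : ↥(chevD4.group K) := ⟨w, hBG hw⟩
  let b' : ↥(chevD4.group K) := ⟨n₁ * w * n₂⁻¹, hBG hb⟩
  have m1 : ν₁ * w' ∈ C P ν₁ := mem_C.2 ⟨1, Subgroup.one_mem _, w', (mem_PB sys tbl_chevD4).2 hw, by simp⟩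
  have m2 : ν₁ * w' ∈ C P ν₂ := mem_C.2 ⟨b', (mem_PB sys tbl_chevD4).2 hb, 1, Subgroup.one_mem _, by
    apply Subtype.ext
    show n₁ * w = n₁ * w * n₂⁻¹ * n₂ * ((1 : ↥(chevD4.group K)) : GL chevD4.Idx K)
    simp⟩
  have h3 := C_eq_of_mem_both m1 m2
  have h4 := (C_eq_iff ((mem_PN sys tbl_chevD4).2 h1) ((mem_PN sys tbl_chevD4).2 h2)).1 h3
  have h5 : n₁⁻¹ * n₂ ∈ chevD4.borelSubgroup K := (mem_PB sys tbl_chevD4).1 h4
  rw [← B_inf_N sys tbl_chevD4]
  exact ⟨h5, Subgroup.mul_mem _ (Subgroup.inv_mem _ h1) h2⟩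

/-- The roots of the subgroup `Yp 14` are moved into it. -/
theorem refl_Yp : ∀ r < chevD4.nroots, chevD4.IsPosRoot r → r ≠ 14 →
    chevD4.IsPosRoot ([1].foldr chevD4.reflectRoot r) ∧ [1].foldr chevD4.reflectRoot r ≠ 14 := by
  decide +kernel

/-- The key lemma: an element with a nonzero coordinate at the fundamental root 14. -/
theorem pos14 {n : GL chevD4.Idx K} (hn : n ∈ chevD4.monomialSubgroup K) {b : K} (hb : b ≠ 0) {y : GL chevD4.Idx K}
    (hy : y ∈ Yp sys 14) (hz : n * (Xr 14 b * y) * n⁻¹ ∈ chevD4.posUnipotent K) :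
    chevD4.IsPosRoot (pn sys tbl_chevD4 hn ⟨14, by decide +kernel⟩) := by
  by_contra hneg
  have hB := (Nb_N (K := K))
  have hn' : n * Nb⁻¹ ∈ chevD4.monomialSubgroup K := Subgroup.mul_mem _ hn (Subgroup.inv_mem _ hB)
  have h14 : (14 : ℕ) < chevD4.nroots := by decide +kernel
  have h9 : (9 : ℕ) < chevD4.nroots := by decide +kernel
  have e1 : ∀ t : K, Nb * Xr 14 t * Nb⁻¹ = Xr 9 (-t) := fun t => by rw [← MulAut.conj_apply, rb_14]
  have e2 : ∀ t : K, Nb⁻¹ * Xr 14 t * Nb = Xr 9 (-t) := fun t => by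
    have := rb_9 (K := K) (-t)
    rw [MulAut.conj_apply, neg_neg] at this
    rw [← this]
    group
  -- the sign at 9
  have hp9 : chevD4.IsPosRoot (pn sys tbl_chevD4 hn ⟨9, h9⟩) := by
    have h1 : (⟨9, h9⟩ : Fin chevD4.nroots) = negF tbl_chevD4 ⟨14, h14⟩ := Fin.ext (by
      show 9 = chevD4.neg 14
      decide +kernel)
    rw [h1, pn_neg sys tbl_chevD4 hn]
    rcases tbl_chevD4.pos_or_neg (pn sys tbl_chevD4 hn ⟨14, h14⟩).isLt with h | h
    · exact absurd h hneg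
    · exact tbl_chevD4.pos_of_neg h
  obtain ⟨κ, -, hκ⟩ := Cfsg.Agent.Lib.Twisted.pn_conj sys tbl_chevD4 hn ⟨9, h9⟩
  have hU0 : ∀ t : K, (n * Nb⁻¹) * Xr 14 t * (n * Nb⁻¹)⁻¹ ∈ chevD4.posUnipotent K := by
    intro t
    have e : (n * Nb⁻¹) * Xr 14 t * (n * Nb⁻¹)⁻¹ = n * (Nb⁻¹ * Xr 14 t * Nb) * n⁻¹ := by group
    rw [e, e2, hκ]
    exact X_mem_U sys tbl_chevD4 hp9 _
  -- the conjugate of `y`
  have hy' : Nb * y * Nb⁻¹ ∈ Yp sys 14 := by
    unfold Yp at hy ⊢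
    refine Cfsg.Agent.Lib.Twisted.conj_gen sys tbl_chevD4 hB (fun r hr => hr.1.1) ?_ hy
    intro r hr
    have h1 := Cfsg.Agent.Lib.Twisted.pn_prodA (sys (F := K)) tbl_chevD4 Nb_lt r
    have h2 := refl_Yp r.val r.isLt hr.1 hr.2
    rw [← h1] at h2
    exact h2
  have hne : b⁻¹ ≠ 0 := inv_ne_zero hb
  -- the rank one identity
  have hν : nG (sys (F := K)).toAddRel 14 b⁻¹ ∈ chevD4.monomialSubgroup K :=
    nG_mem_N sys tbl_chevD4 h14 hne
  have e3 : Xr 9 (-b) = Xr 14 (-b⁻¹) * nG (sys (F := K)).toAddRel 14 b⁻¹ * Xr 14 (-b⁻¹) := by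
    have e9 : chevD4.neg 14 = 9 := by decide +kernel
    rw [nG, e9, inv_inv, ← X_inv (sys (F := K)).toAddRel 14 b⁻¹]
    group
  set ν := nG (sys (F := K)).toAddRel 14 b⁻¹ with hνd
  have hwB : Xr 14 (-b⁻¹) * (Nb * y * Nb⁻¹) ∈ chevD4.borelSubgroup K := by
    apply U_le_B sys tbl_chevD4
    refine Subgroup.mul_mem _ (X_mem_U sys tbl_chevD4 (pos_all _ (by simp)) _) ?_
    have : Yp sys 14 ≤ chevD4.posUnipotent K := by
      rw [posUnipotent_eq (sys (F := K)).toAddRel]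
      exact gen_mono _ fun r hr => hr.1
    exact this hy'
  have hN2 : n * Nb⁻¹ * ν ∈ chevD4.monomialSubgroup K := Subgroup.mul_mem _ hn' hν
  have hb2 : (n * Nb⁻¹ * ν) * (Xr 14 (-b⁻¹) * (Nb * y * Nb⁻¹)) * (n * Nb⁻¹)⁻¹ ∈ chevD4.borelSubgroup K := by
    apply U_le_B sys tbl_chevD4
    have h1 := Subgroup.mul_mem _ (Subgroup.inv_mem _ (hU0 (-b⁻¹))) hz
    have e : ((n * Nb⁻¹) * Xr 14 (-b⁻¹) * (n * Nb⁻¹)⁻¹)⁻¹ * (n * (Xr 14 b * y) * n⁻¹) =
        (n * Nb⁻¹ * ν) * (Xr 14 (-b⁻¹) * (Nb * y * Nb⁻¹)) * (n * Nb⁻¹)⁻¹ := by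
      have e4 : n * (Xr 14 b * y) * n⁻¹ = (n * Nb⁻¹) * ((Nb * Xr 14 b * Nb⁻¹) * (Nb * y * Nb⁻¹)) * (n * Nb⁻¹)⁻¹ := by
        group
      rw [e4, e1, e3]
      group
    rw [e] at h1
    exact h1
  have h5 := nn_H hN2 hn' hwB hb2
  have h6 : (n * Nb⁻¹ * ν)⁻¹ * (n * Nb⁻¹) = ν⁻¹ := by group
  rw [h6] at h5
  have h7 : ν ∈ chevD4.borelSubgroup K := H_le_B sys tbl_chevD4 (by simpa using Subgroup.inv_mem _ h5)
  have h8 : Xr 9 (-b) ∈ chevD4.borelSubgroup K := by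
    rw [e3]
    have hx : ∀ t : K, Xr 14 t ∈ chevD4.borelSubgroup K := fun t =>
      U_le_B sys tbl_chevD4 (X_mem_U sys tbl_chevD4 (pos_all _ (by simp)) _)
    exact Subgroup.mul_mem _ (Subgroup.mul_mem _ (hx _) h7) (hx _)
  have h9' := X_neg_not_mem_B sys tbl_chevD4 (r := 14) (pos_all _ (by simp)) (t := -b) (neg_ne_zero.2 hb)
  apply h9'
  have e9 : chevD4.neg 14 = 9 := by decide +kernel
  rw [e9]
  exact h8

theorem X_mem_Yp {r : ℕ} (h1 : chevD4.IsPosRoot r) (h2 : r ≠ 14) (t : K) : Xr r t ∈ Yp (sys (F := K)) 14 := by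
  have hm : r ∈ {s | chevD4.IsPosRoot s ∧ s ≠ 14} := ⟨h1, h2⟩
  exact X_mem_gen _ hm t

/-- The element `pr φ 0 b c d e f`, in terms of `Yp 14`. -/
theorem pr_Yp (φ : K →+* K) (b c d e f : K) : ∃ y ∈ Yp sys 14, pr φ 0 b c d e f = Xr 14 b * y := by
  refine ⟨Xr 19 c * (Xr 16 (-(φ c)) * (Xr 15 (-(φ (φ c))) *
    (Xr 17 d * (Xr 20 (-(φ d)) * (Xr 21 (-(φ (φ d))) * (Xr 22 e * (Xr 23 f * 1))))))), ?_, ?_⟩
  · (repeat' apply Subgroup.mul_mem) <;> first
      | exact Subgroup.one_mem _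
      | exact X_mem_Yp (pos_all _ (by simp)) (by decide) _
  · simp only [pr, map_zero, X_zero, one_mul]

theorem pos14' {φ : K →+* K} {n : GL chevD4.Idx K} (hn : n ∈ chevD4.monomialSubgroup K) {b c d e f : K} (hb : b ≠ 0)
    (hz : n * pr φ 0 b c d e f * n⁻¹ ∈ chevD4.posUnipotent K) :
    chevD4.IsPosRoot (pn sys tbl_chevD4 hn ⟨14, by decide +kernel⟩) := by
  obtain ⟨y, hy, e⟩ := pr_Yp φ b c d e f
  rw [e] at hz
  exact pos14 hn hb hy hz

theorem pn_Na_22 : (pn sys tbl_chevD4 (Na_N (K := K)) ⟨22, by decide +kernel⟩) = ⟨14, by decide +kernel⟩ := by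
  apply Fin.ext
  rw [Cfsg.Agent.Lib.Twisted.pn_prodA sys tbl_chevD4 Na_lt]
  decide +kernel

/-- The sign at the root 22. -/
theorem pos22 {φ : K →+* K} (hφ3 : ∀ t, φ (φ (φ t)) = t) {n : GL chevD4.Idx K} (hn : n ∈ chevD4.monomialSubgroup K)
    {b c d e f : K} (he : e ≠ 0)
    (hz : n * pr φ 0 b c d e f * n⁻¹ ∈ chevD4.posUnipotent K) :
    chevD4.IsPosRoot (pn sys tbl_chevD4 hn ⟨22, by decide +kernel⟩) := by
  have hn' : n * Na⁻¹ ∈ chevD4.monomialSubgroup K := Subgroup.mul_mem _ hn (Subgroup.inv_mem _ Na_N)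
  have h1 : (n * Na⁻¹) * pr φ 0 e (-d) c (-b) (f + b * e - (c * d + φ c * φ d + φ (φ c) * φ (φ d))) * (n * Na⁻¹)⁻¹ ∈
      chevD4.posUnipotent K := by
    rw [← conj_a φ hφ3]
    have e2 : (n * Na⁻¹) * (Na * pr φ 0 b c d e f * Na⁻¹) * (n * Na⁻¹)⁻¹ = n * pr φ 0 b c d e f * n⁻¹ := by group
    rw [e2]
    exact hz
  have h2 := pos14' hn' he h1
  have e3 : pn sys tbl_chevD4 hn' = pn sys tbl_chevD4 hn * (pn sys tbl_chevD4 (Na_N (K := K)))⁻¹ := by
    rw [pn_mul sys tbl_chevD4 hn (Subgroup.inv_mem _ Na_N), pn_inv sys tbl_chevD4 Na_N]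
  rw [e3, Equiv.Perm.mul_apply, ← pn_Na_22 (K := K)] at h2
  simpa using h2

theorem pn_Na_5 : (pn sys tbl_chevD4 (Na_N (K := K)) ⟨5, by decide +kernel⟩) = ⟨18, by decide +kernel⟩ := by
  apply Fin.ext
  rw [Cfsg.Agent.Lib.Twisted.pn_prodA sys tbl_chevD4 Na_lt]
  decide +kernel

theorem pn_Na_10 : (pn sys tbl_chevD4 (Na_N (K := K)) ⟨10, by decide +kernel⟩) = ⟨13, by decide +kernel⟩ := by
  apply Fin.ext
  rw [Cfsg.Agent.Lib.Twisted.pn_prodA sys tbl_chevD4 Na_lt]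
  decide +kernel

theorem pn_Na_11 : (pn sys tbl_chevD4 (Na_N (K := K)) ⟨11, by decide +kernel⟩) = ⟨12, by decide +kernel⟩ := by
  apply Fin.ext
  rw [Cfsg.Agent.Lib.Twisted.pn_prodA sys tbl_chevD4 Na_lt]
  decide +kernel

/-- Elements of `N` with all fundamental roots positive lie in `H`. -/
theorem mem_H_of_simple {n : GL chevD4.Idx K} (hn : n ∈ chevD4.monomialSubgroup K)
    (h0 : chevD4.IsPosRoot (pn sys tbl_chevD4 hn ⟨18, by decide +kernel⟩))
    (h1 : chevD4.IsPosRoot (pn sys tbl_chevD4 hn ⟨14, by decide +kernel⟩))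
    (h2 : chevD4.IsPosRoot (pn sys tbl_chevD4 hn ⟨13, by decide +kernel⟩))
    (h3 : chevD4.IsPosRoot (pn sys tbl_chevD4 hn ⟨12, by decide +kernel⟩)) :
    n ∈ chevD4.diagonalSubgroup K := by
  by_contra hnH
  obtain ⟨i, hi⟩ := Cfsg.Agent.Lib.Twisted.exists_simple_neg sys tbl_chevD4 hn hnH
  obtain ⟨i, hil⟩ := i
  have hil' : i < 4 := hil
  interval_cases i
  · exact hi h0
  · exact hi h1
  · exact hi h2
  · exact hi h3

theorem inv_ap {α : Type*} (π : Equiv.Perm α) (x : α) : π⁻¹ (π x) = x := by simp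

section Class

variable {T : Tw (sys (F := K)).toAddRel} (hρ : T.ρ = ρ0)

include hρ in
/-- The elements of `N` with 14 and 22 positive. -/
theorem class_n {n : GL chevD4.Idx K} (hn : n ∈ chevD4.monomialSubgroup K) (hfix : T.s n = n)
    {G' : Subgroup (GL chevD4.Idx K)} (I : Inst sys tbl_chevD4 T Js cl G')
    (h14 : chevD4.IsPosRoot (pn sys tbl_chevD4 hn ⟨14, by decide +kernel⟩))
    (h22 : chevD4.IsPosRoot (pn sys tbl_chevD4 hn ⟨22, by decide +kernel⟩)) :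
    n ∈ chevD4.diagonalSubgroup K ∨ n * Na⁻¹ ∈ chevD4.diagonalSubgroup K := by
  have hJ : [0, 2, 3] ∈ Js := by simp [Js]
  have hd := I.orth.dich_aux sys tbl_chevD4 hJ n hn hfix
  have m18 : ((⟨18, by decide +kernel⟩ : Fin chevD4.nroots) : ℕ) ∈ psiL chevD4 [0, 2, 3] := ⟨0, by simp, by decide +kernel⟩
  have m13 : ((⟨13, by decide +kernel⟩ : Fin chevD4.nroots) : ℕ) ∈ psiL chevD4 [0, 2, 3] := ⟨2, by simp, by decide +kernel⟩
  have m12 : ((⟨12, by decide +kernel⟩ : Fin chevD4.nroots) : ℕ) ∈ psiL chevD4 [0, 2, 3] := ⟨3, by simp, by decide +kernel⟩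
  rcases hd with hd | hd
  · left
    exact mem_H_of_simple hn (hd _ m18) h14 (hd _ m13) (hd _ m12)
  · right
    have hn' : n * Na⁻¹ ∈ chevD4.monomialSubgroup K := Subgroup.mul_mem _ hn (Subgroup.inv_mem _ Na_N)
    have e3 : pn sys tbl_chevD4 hn' = pn sys tbl_chevD4 hn * (pn sys tbl_chevD4 (Na_N (K := K)))⁻¹ := by
      rw [pn_mul sys tbl_chevD4 hn (Subgroup.inv_mem _ Na_N), pn_inv sys tbl_chevD4 Na_N]
    have hneg : ∀ (r s : Fin chevD4.nroots), (s : ℕ) = chevD4.neg r → ¬ chevD4.IsPosRoot (pn sys tbl_chevD4 hn r) →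
        chevD4.IsPosRoot (pn sys tbl_chevD4 hn s) := by
      intro r s hs hr
      have h1 : s = negF tbl_chevD4 r := Fin.ext hs
      rw [h1, pn_neg sys tbl_chevD4 hn]
      rcases tbl_chevD4.pos_or_neg (pn sys tbl_chevD4 hn r).isLt with h | h
      · exact absurd h hr
      · exact tbl_chevD4.pos_of_neg h
    apply mem_H_of_simple hn'
    · rw [e3, Equiv.Perm.mul_apply, ← pn_Na_5 (K := K)]
      rw [inv_ap]
      exact hneg _ _ (by decide +kernel) (hd _ m18)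
    · rw [e3, Equiv.Perm.mul_apply, ← pn_Na_22 (K := K)]
      simpa using h22
    · rw [e3, Equiv.Perm.mul_apply, ← pn_Na_10 (K := K)]
      rw [inv_ap]
      exact hneg _ _ (by decide +kernel) (hd _ m13)
    · rw [e3, Equiv.Perm.mul_apply, ← pn_Na_11 (K := K)]
      rw [inv_ap]
      exact hneg _ _ (by decide +kernel) (hd _ m12)

end Class

end Cfsg.Agent.Lib.Tw3D4Max
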